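import Cfsg.Agent.Lib.HallNumber.EightSeven.Pairs
import Cfsg.Agent.S0346

/-!
If `core E` were nontrivial the cosets of `big E` would carry a simple Zassenhaus group of degree
`|C(E)| + 1`, which is impossible.
-/

set_option autoImplicit false
open Cfsg
open scoped Pointwise

namespace CfsgLib.HallNumber.EightSeven

open CfsgLib.TwoFusion CfsgLib.Involutions

variable {G : Type*} [Group G] [Finite G]

namespace Hyp

variable {E : Subgroup G} (h : Hyp E)

include h

theorem core_fix_eq_one (hW : core E ≠ ⊥) {w : G} (hw : w ∈ core E) {x : G ⧸ big E}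
    (hx : QuotientGroup.mk 1 ≠ x) (hwx : w • x = x) : w = 1 := by
  obtain ⟨v, hv2, hvo⟩ := h.exists_swapper hW hx
  refine h.core_inf_stab hW hv2 (fun hvM => hx ?_) hw (mem_inf_map.2 ⟨core_le_big hw, smul_base_iff.1 ?_⟩)
  · rw [← hvo]; exact (smul_base_iff.2 hvM).symm
  · rw [mul_smul, mul_smul, hvo, hwx, ← hvo, inv_smul_smul]

variable {d : G} {a b : G ⧸ big E}

theorem orderOf_fix (hW : core E ≠ ⊥) (hd : d ≠ 1) (hab : a ≠ b) (hda : d • a = a) (hdb : d • b = b) :
    orderOf d = 7 := by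
  obtain ⟨v, hv⟩ := h.exists_swapper hW hab
  have h7 := (h.pair_data hW hab hv).1
  have := Subgroup.orderOf_dvd_natCard (MulAction.stabilizer G a ⊓ MulAction.stabilizer G b)
    (x := d) ⟨MulAction.mem_stabilizer_iff.2 hda, MulAction.mem_stabilizer_iff.2 hdb⟩
  rw [h7] at this
  rcases (Nat.dvd_prime (by norm_num : Nat.Prime 7)).1 this with h1 | h1
  · exact absurd (orderOf_eq_one_iff.1 h1) hd
  · exact h1

theorem centralizer_fix_odd (hW : core E ≠ ⊥) (hd : d ≠ 1) (hab : a ≠ b) (hda : d • a = a)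
    (hdb : d • b = b) : Odd (Nat.card (Subgroup.centralizer ({d} : Set G))) := by
  rw [← Nat.not_even_iff_odd, even_iff_two_dvd]
  intro h2
  haveI : Fact (Nat.Prime 2) := ⟨Nat.prime_two⟩
  obtain ⟨u', hu'⟩ := exists_prime_orderOf_dvd_card' 2 h2
  set u : G := (u' : G)
  have hu2 : orderOf u = 2 := by rw [Subgroup.orderOf_coe, hu']
  have hud : d * u = u * d := mem_cent.1 u'.2
  have hSE := h.isStronglyEmbedded hW
  obtain ⟨z, hz⟩ := exists_fixed_point hSE hu2
  have hdz : d • z = z := fix_unique hSE hu2 (by rw [← mul_smul, ← hud, mul_smul, hz]) hz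
  obtain ⟨c, rfl⟩ := QuotientGroup.mk_surjective z
  have hcj : ∀ x : G, orderOf (c⁻¹ * x * c) = orderOf x := fun x => by
    rw [show c⁻¹ * x * c = c⁻¹ * x * c⁻¹⁻¹ by rw [inv_inv], orderOf_conj]
  have hcomm := h.centralizer_involution hW
    (h.mem_E_of_involution hW ((smul_mk_eq_iff u c).1 hz) (by rw [hcj, hu2]))
    (fun he => ne_one hu2 (orderOf_eq_one_iff.1 (by rw [← hcj u, he, orderOf_one])))
    (x := c⁻¹ * d * c) (by
      calc c⁻¹ * u * c * (c⁻¹ * d * c) = c⁻¹ * (u * d) * c := by group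
        _ = _ := by rw [← hud]; group)
  have hW' := h.centralizer_odd_mem_core hcomm (by
    rw [hcj, h.orderOf_fix hW hd hab hda hdb]; decide)
  have hkey : ∀ x : G ⧸ big E, d • x = x → x = QuotientGroup.mk c := by
    intro x hdx
    by_contra hne
    refine hd ?_
    have hne' : (QuotientGroup.mk 1 : G ⧸ big E) ≠ c⁻¹ • x := fun he => hne (by
      rw [← eq_inv_smul_iff.1 he, MulAction.Quotient.smul_mk]; simp)
    have := h.core_fix_eq_one hW hW' hne' (by
      rw [← mul_smul, show c⁻¹ * d * c * c⁻¹ = c⁻¹ * d by group, mul_smul, hdx])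
    rw [← orderOf_eq_one_iff, hcj, orderOf_eq_one_iff] at this
    exact this
  exact hab ((hkey a hda).trans (hkey b hdb).symm)

theorem inverts_centralizer (hW : core E ≠ ⊥) (hd : d ≠ 1) (hab : a ≠ b) (hda : d • a = a)
    (hdb : d • b = b) {v : G} (hv : v ∈ swappingInvolutions (big E) a b) {c : G}
    (hc : c ∈ Subgroup.centralizer ({d} : Set G)) : v * c * v⁻¹ = c⁻¹ := by
  set C := Subgroup.centralizer ({d} : Set G) with hC
  have hinv : v * d * v⁻¹ = d⁻¹ := (h.pair_data hW hab hv).2 d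
    ⟨MulAction.mem_stabilizer_iff.2 hda, MulAction.mem_stabilizer_iff.2 hdb⟩
  have hdinv : v * d⁻¹ * v⁻¹ = d := by rw [← conj_inv, hinv, inv_inv]
  have hCv : ∀ x ∈ C, v * x * v⁻¹ ∈ C := fun x hx => mem_cent.2 (by
    have hx' : d * x = x * d := mem_cent.1 hx
    have hx'' : d⁻¹ * x = x * d⁻¹ := ((show Commute d x from hx').inv_left).eq
    calc d * (v * x * v⁻¹) = (v * d⁻¹ * v⁻¹) * (v * x * v⁻¹) := by rw [hdinv]
      _ = v * (d⁻¹ * x) * v⁻¹ := by group
      _ = v * x * v⁻¹ * (v * d⁻¹ * v⁻¹) := by rw [hx'']; group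
      _ = _ := by rw [hdinv])
  have hodd := h.centralizer_fix_odd hW hd hab hda hdb
  have hdo : Odd (orderOf d) := by rw [h.orderOf_fix hW hd hab hda hdb]; decide
  let φ : C → C := fun x => ⟨(x : G)⁻¹ * (v * x * v⁻¹), mul_mem (inv_mem x.2) (hCv x x.2)⟩
  have hφ : Function.Injective φ := by
    intro x y hxy
    have e : (x : G)⁻¹ * (v * x * v⁻¹) = (y : G)⁻¹ * (v * y * v⁻¹) := congrArg Subtype.val hxy
    by_contra hne
    refine hd (h.eq_one_of_commute hW hv.1 (q := (y : G) * (x : G)⁻¹) ?_ (odd_of_mem hodd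
      (mul_mem y.2 (inv_mem x.2))) ?_ (mem_cent.1 (mul_mem y.2 (inv_mem x.2))).symm hdo hinv)
    · exact fun h1 => hne (Subtype.ext (mul_inv_eq_one.1 h1).symm)
    · calc v * ((y : G) * (x : G)⁻¹)
          = (y : G) * ((y : G)⁻¹ * (v * y * v⁻¹)) * (v * (x : G)⁻¹ * v⁻¹) * v := by group
        _ = _ := by rw [← e]; group
  obtain ⟨x, hx⟩ := (Finite.injective_iff_surjective.1 hφ) ⟨c, hc⟩
  have e : (x : G)⁻¹ * (v * x * v⁻¹) = c := congrArg Subtype.val hx
  have hvv : v * v = 1 := mul_self_eq_one hv.1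
  rw [← e]
  calc v * ((x : G)⁻¹ * (v * x * v⁻¹)) * v⁻¹ = v * (x : G)⁻¹ * v * x * (v * v)⁻¹ := by group
    _ = v * (x : G)⁻¹ * v * x := by rw [hvv, inv_one, mul_one]
    _ = _ := by
      rw [show ((x : G)⁻¹ * (v * x * v⁻¹))⁻¹ = v * (x : G)⁻¹ * v⁻¹ * x by group, inv_eq_self hv.1]

theorem centralizer_fix_comm (hW : core E ≠ ⊥) (hd : d ≠ 1) (hab : a ≠ b) (hda : d • a = a)
    (hdb : d • b = b) {c c' : G} (hc : c ∈ Subgroup.centralizer ({d} : Set G))
    (hc' : c' ∈ Subgroup.centralizer ({d} : Set G)) : c * c' = c' * c := by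
  obtain ⟨v, hv⟩ := h.exists_swapper hW hab
  have e := h.inverts_centralizer hW hd hab hda hdb hv (mul_mem hc hc')
  rw [show v * (c * c') * v⁻¹ = (v * c * v⁻¹) * (v * c' * v⁻¹) by group,
    h.inverts_centralizer hW hd hab hda hdb hv hc, h.inverts_centralizer hW hd hab hda hdb hv hc',
    ← mul_inv_rev] at e
  exact (inv_inj.1 e).symm

theorem stab_inf_centralizer (hW : core E ≠ ⊥) (hd : d ≠ 1) (hab : a ≠ b) (hda : d • a = a)
    (hdb : d • b = b) :
    Nat.card ↥(MulAction.stabilizer G a ⊓ Subgroup.centralizer ({d} : Set G)) = 7 := by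
  obtain ⟨v, hv⟩ := h.exists_swapper hW hab
  obtain ⟨hcard, hinv⟩ := h.pair_data hW hab hv
  set D := MulAction.stabilizer G a ⊓ MulAction.stabilizer G b with hD
  set S := MulAction.stabilizer G a ⊓ Subgroup.centralizer ({d} : Set G) with hS
  have hdD : d ∈ D := ⟨MulAction.mem_stabilizer_iff.2 hda, MulAction.mem_stabilizer_iff.2 hdb⟩
  have hDS : D ≤ S := fun c hc => ⟨hc.1, mem_cent.2 (by
    have e := hinv _ (mul_mem hdD hc)
    rw [show v * (d * c) * v⁻¹ = (v * d * v⁻¹) * (v * c * v⁻¹) by group, hinv d hdD, hinv c hc,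
      ← mul_inv_rev] at e
    exact (inv_inj.1 e).symm)⟩
  refine le_antisymm ?_ (hcard ▸ Subgroup.card_le_of_le hDS)
  obtain ⟨g, rfl⟩ := QuotientGroup.mk_surjective a
  set S' := S.map (MulAut.conj g⁻¹).toMonoidHom with hS'
  rw [← Subgroup.card_map_of_injective (K := S) (MulAut.conj g⁻¹).injective (f := (MulAut.conj g⁻¹).toMonoidHom)]
  have hS'M : S' ≤ big E := by
    rintro _ ⟨c, hc, rfl⟩
    have := (smul_mk_eq_iff c g).1 (MulAction.mem_stabilizer_iff.1 hc.1)
    simpa using this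
  have hodd : Odd (Nat.card S') := by
    rw [hS', Subgroup.card_map_of_injective (MulAut.conj g⁻¹).injective]
    exact Odd.of_dvd_nat (h.centralizer_fix_odd hW hd hab hda hdb) (Subgroup.card_dvd_of_le inf_le_right)
  have hinf : core E ⊓ S' = ⊥ := by
    refine (Subgroup.eq_bot_iff_forall _).2 ?_
    rintro _ ⟨hw, c, hc, rfl⟩
    have hw' : g⁻¹ * c * g ∈ core E := by simpa using hw
    set u := g⁻¹ * v * g with hu
    have huM : u ∉ big E := fun hm => hab (by rw [← hv.2, (smul_mk_eq_iff v g).2 hm])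
    have e : u * (g⁻¹ * c * g) * u⁻¹ = (g⁻¹ * c * g)⁻¹ := by
      calc u * (g⁻¹ * c * g) * u⁻¹ = g⁻¹ * (v * c * v⁻¹) * g := by rw [hu]; group
        _ = _ := by rw [h.inverts_centralizer hW hd hab hda hdb hv hc.2]; group
    have h1 := h.eq_one_of_mem_conj hW huM (x := u * (g⁻¹ * c * g) * u⁻¹) (e ▸ inv_mem hw') (by
      rwa [show u⁻¹ * (u * (g⁻¹ * c * g) * u⁻¹) * u = g⁻¹ * c * g by group])
    rw [conj_eq_one_iff] at h1
    simpa using h1
  have := h.relIndex_core_le hW hS'M hodd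
  rwa [← Subgroup.inf_relIndex_right, hinf, Subgroup.relIndex_bot_left] at this

theorem card_centralizer_fix (hW : core E ≠ ⊥) (hd : d ≠ 1) (hab : a ≠ b) (hda : d • a = a)
    (hdb : d • b = b) :
    Nat.card (Subgroup.centralizer ({d} : Set G)) =
      7 * (Nat.card {x : G ⧸ big E // d • x = x} - 1) := by
  classical
  obtain ⟨v, hv⟩ := h.exists_swapper hW hab
  have hv2 := hv.1
  have hdo : Odd (orderOf d) := by rw [h.orderOf_fix hW hd hab hda hdb]; decide
  let F := {x : G ⧸ big E // d • x = x}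
  let I := {t : G // orderOf t = 2 ∧ t * d * t⁻¹ = d⁻¹}
  -- inverters and the centraliser
  have hvd : v * d * v⁻¹ = d⁻¹ := (h.pair_data hW hab hv).2 d
    ⟨MulAction.mem_stabilizer_iff.2 hda, MulAction.mem_stabilizer_iff.2 hdb⟩
  have hvd' : v * d⁻¹ * v⁻¹ = d := by rw [← conj_inv, hvd, inv_inv]
  let eI : I ≃ Subgroup.centralizer ({d} : Set G) :=
    { toFun := fun t => ⟨v * t.1, mem_cent.2 (by
        calc d * (v * t.1) = (v * d⁻¹ * v⁻¹) * (v * t.1) := by rw [hvd']
          _ = v * (t.1 * d * t.1⁻¹) * t.1 := by rw [t.2.2]; group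
          _ = _ := by group)⟩
      invFun := fun c => ⟨v * c.1, by
        refine ⟨orderOf_eq_two_iff.2 ⟨?_, ?_⟩, ?_⟩
        · have := h.inverts_centralizer hW hd hab hda hdb hv c.2
          calc v * c.1 * (v * c.1) = (v * c.1 * v⁻¹) * (v * v) * c.1 := by group
            _ = _ := by rw [this, mul_self_eq_one hv2]; group
        · intro h1
          have hvC : v ∈ Subgroup.centralizer ({d} : Set G) := by
            rw [eq_inv_of_mul_eq_one_left h1]; exact inv_mem c.2
          exact absurd (hv2 ▸ odd_of_mem (h.centralizer_fix_odd hW hd hab hda hdb) hvC) (by decide)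
        · have hcd : d * c.1 = c.1 * d := mem_cent.1 c.2
          calc v * c.1 * d * (v * c.1)⁻¹ = v * (c.1 * d * c.1⁻¹) * v⁻¹ := by group
            _ = _ := by rw [← hcd, mul_inv_cancel_right, hvd]⟩
      left_inv := fun t => Subtype.ext (by
        show v * (v * t.1) = t.1
        rw [← mul_assoc, mul_self_eq_one hv2, one_mul])
      right_inv := fun c => Subtype.ext (by
        show v * (v * c.1) = c.1
        rw [← mul_assoc, mul_self_eq_one hv2, one_mul]) }
  rw [← Nat.card_congr eI]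
  -- inverters and the pairs of fixed points
  have hIF : ∀ (t : I) (x : F), d • t.1 • x.1 = t.1 • x.1 ∧ x.1 ≠ t.1 • x.1 := by
    intro t x
    refine ⟨?_, fun he => hd ?_⟩
    · have e : d * t.1 = t.1 * d⁻¹ := by
        calc d * t.1 = (t.1 * d * t.1⁻¹)⁻¹ * t.1 := by rw [t.2.2, inv_inv]
          _ = _ := by group
      rw [← mul_smul, e, mul_smul]
      congr 1
      exact inv_smul_eq_iff.2 x.2.symm
    · obtain ⟨c, hc⟩ := QuotientGroup.mk_surjective x.1
      have hcj : ∀ y : G, orderOf (c⁻¹ * y * c) = orderOf y := fun y => by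
        rw [show c⁻¹ * y * c = c⁻¹ * y * c⁻¹⁻¹ by rw [inv_inv], orderOf_conj]
      have hxd := x.2
      rw [← hc] at he hxd
      have := h.eq_one_of_inverted hW
        (h.mem_E_of_involution hW ((smul_mk_eq_iff t.1 c).1 he.symm) (by rw [hcj, t.2.1]))
        ((smul_mk_eq_iff d c).1 hxd) (by rw [hcj]; exact hdo) (by
          calc c⁻¹ * t.1 * c * (c⁻¹ * d * c) * (c⁻¹ * t.1 * c)⁻¹ = c⁻¹ * (t.1 * d * t.1⁻¹) * c := by group
            _ = _ := by rw [t.2.2]; group)
      rw [← orderOf_eq_one_iff, hcj, orderOf_eq_one_iff] at this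
      exact this
  let P := {p : F × F // p.1 ≠ p.2}
  let ψ : I × F → Σ p : P, swappingInvolutions (big E) p.1.1.1 p.1.2.1 := fun q =>
    ⟨⟨(q.2, ⟨q.1.1 • q.2.1, (hIF q.1 q.2).1⟩), fun he => (hIF q.1 q.2).2 (congrArg Subtype.val he)⟩,
      ⟨q.1.1, q.1.2.1, rfl⟩⟩
  have hψ : Function.Bijective ψ := by
    constructor
    · rintro ⟨t, x⟩ ⟨t', x'⟩ he
      have e1 : x = x' := congrArg (fun s => s.1.1.1) he
      have e2 : t.1 = t'.1 :=
        congrArg (fun s : Σ p : P, swappingInvolutions (big E) p.1.1.1 p.1.2.1 => (s.2 : G)) he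
      exact Prod.ext (Subtype.ext e2) e1
    · rintro ⟨⟨⟨⟨x, hx⟩, ⟨y, hy⟩⟩, hne⟩, ⟨t, ht2, htx⟩⟩
      have hne' : x ≠ y := fun he => hne (Subtype.ext he)
      refine ⟨(⟨t, ht2, (h.pair_data hW hne' ⟨ht2, htx⟩).2 d
        ⟨MulAction.mem_stabilizer_iff.2 hx, MulAction.mem_stabilizer_iff.2 hy⟩⟩, ⟨x, hx⟩), ?_⟩
      change t • x = y at htx
      subst htx
      rfl
  haveI := Fintype.ofFinite F
  haveI := Fintype.ofFinite P
  have h1 := Nat.card_eq_of_bijective ψ hψ
  rw [Nat.card_prod, Nat.card_sigma, Finset.sum_congr rfl (fun (p : P) _ =>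
      h.card_swapping hW (fun he : p.1.1.1 = p.1.2.1 => p.2 (Subtype.ext he))),
    Finset.sum_const, smul_eq_mul, Finset.card_univ, Fintype.card_subtype_compl,
    Fintype.card_prod] at h1
  have hdiag : Fintype.card {p : F × F // p.1 = p.2} = Fintype.card F :=
    Fintype.card_congr
      { toFun := fun p => p.1.1
        invFun := fun x => ⟨(x, x), rfl⟩
        left_inv := fun p => Subtype.ext (Prod.ext rfl p.2)
        right_inv := fun _ => rfl }
  rw [hdiag, ← Nat.card_eq_fintype_card] at h1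
  set f := Nat.card F
  have hf : 0 < f := by
    haveI : Nonempty F := ⟨⟨a, hda⟩⟩
    exact Nat.card_pos
  show Nat.card I = 7 * (f - 1)
  apply Nat.eq_of_mul_eq_mul_right hf
  rw [h1, Nat.mul_sub, Nat.mul_one, Nat.sub_mul, Nat.sub_mul]
  ring_nf

theorem no_three_fixed (hW : core E ≠ ⊥) (hd : d ≠ 1) {c : G ⧸ big E} (hab : a ≠ b) (hbc : b ≠ c)
    (hac : a ≠ c) (hda : d • a = a) (hdb : d • b = b) (hdc : d • c = c) : False := by
  classical
  set C := Subgroup.centralizer ({d} : Set G) with hC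
  set F : Set (G ⧸ big E) := {x | d • x = x} with hF
  have hCcard := h.card_centralizer_fix hW hd hab hda hdb
  have hFf : F.ncard = Nat.card {x : G ⧸ big E // d • x = x} := (Nat.card_coe_set_eq F).symm
  rw [← hC, ← hFf] at hCcard
  have hf3 : 3 ≤ F.ncard := by
    have hsub : ({a, b, c} : Set (G ⧸ big E)) ⊆ F := by
      rintro x (rfl | rfl | rfl) <;> assumption
    have := Set.ncard_le_ncard hsub (Set.toFinite _)
    rwa [Set.ncard_insert_of_notMem (by simp [hab, hac]), Set.ncard_pair hbc] at this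
  have horb : ∀ x ∈ F, (MulAction.orbit C x).ncard = F.ncard - 1 ∧ MulAction.orbit C x ⊆ F := by
    intro x hx
    obtain ⟨y, hy, hyx⟩ : ∃ y ∈ F, x ≠ y := by
      by_cases hxa : x = a
      · exact ⟨b, hdb, hxa ▸ hab⟩
      · exact ⟨a, hda, hxa⟩
    have hst : MulAction.stabilizer C x = (MulAction.stabilizer G x).subgroupOf C := by
      ext z
      rfl
    have h1 := Subgroup.card_mul_index (MulAction.stabilizer C x)
    rw [MulAction.index_stabilizer, hst, ← Subgroup.inf_subgroupOf_right,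
      Nat.card_congr (Subgroup.subgroupOfEquivOfLe inf_le_right).toEquiv,
      h.stab_inf_centralizer hW hd hyx hx hy, hCcard] at h1
    refine ⟨Nat.eq_of_mul_eq_mul_left (by norm_num) h1, ?_⟩
    rintro _ ⟨z, rfl⟩
    show d • (z : G) • x = (z : G) • x
    rw [← mul_smul, mem_cent.1 z.2, mul_smul, hx]
  obtain ⟨hn, hsub⟩ := horb a hda
  obtain ⟨y, hy, hya⟩ : ∃ y ∈ F, y ∉ MulAction.orbit C a := by
    by_contra hall
    push Not at hall
    have := Set.ncard_le_ncard (show F ⊆ MulAction.orbit C a from hall) (Set.toFinite _)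
    omega
  obtain ⟨hn', hsub'⟩ := horb y hy
  have hdisj : Disjoint (MulAction.orbit C a) (MulAction.orbit C y) := by
    rcases MulAction.orbit.eq_or_disjoint (G := C) a y with he | he
    · exact absurd (he.symm ▸ MulAction.mem_orbit_self y) hya
    · exact he
  have := Set.ncard_le_ncard (Set.union_subset hsub hsub') (Set.toFinite F)
  rw [Set.ncard_union_eq hdisj (Set.toFinite _) (Set.toFinite _), hn, hn'] at this
  omega

theorem exists_big_smul (hW : core E ≠ ⊥) {x y : G ⧸ big E} (hx : QuotientGroup.mk 1 ≠ x)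
    (hy : QuotientGroup.mk 1 ≠ y) : ∃ m ∈ big E, m • x = y := by
  haveI := fact_seven
  set o : G ⧸ big E := QuotientGroup.mk 1
  have key : ∀ z : G ⧸ big E, o ≠ z → ∃ Q : Sylow 7 (big E),
      (Q : Subgroup (big E)).map (big E).subtype = big E ⊓ MulAction.stabilizer G z ∧
      ∃ d ∈ big E ⊓ MulAction.stabilizer G z, d ≠ 1 := by
    intro z hz
    obtain ⟨v, hv⟩ := h.exists_swapper hW hz
    have h7 := (h.pair_data hW hz hv).1
    rw [stabilizer_base] at h7
    set P := big E ⊓ MulAction.stabilizer G z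
    have hP : IsPGroup 7 P := IsPGroup.of_card (n := 1) (by rw [h7, pow_one])
    obtain ⟨Q, hQ⟩ := (hP.of_equiv (Subgroup.subgroupOfEquivOfLe inf_le_left).symm).exists_le_sylow
    haveI : Nontrivial P := Finite.one_lt_card_iff_nontrivial.1 (by rw [h7]; norm_num)
    obtain ⟨⟨d, hd⟩, hd1⟩ := _root_.exists_ne (1 : P)
    have hd1' : d ≠ 1 := fun he => hd1 (Subtype.ext he)
    refine ⟨Q, ?_, d, hd, hd1'⟩
    have hle : P ≤ (Q : Subgroup (big E)).map (big E).subtype := fun x hx => ⟨⟨x, hx.1⟩, hQ hx, rfl⟩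
    by_contra hne
    obtain ⟨P', hlt, hP'Q, hP'n, -⟩ := exists_lt_normalizer (Q.2.map (big E).subtype)
      (lt_of_le_of_ne hle (Ne.symm hne))
    obtain ⟨u, huP', huP⟩ := SetLike.exists_of_lt hlt
    have huM : u ∈ big E := Subgroup.map_subtype_le _ (hP'Q huP')
    refine huP ⟨huM, MulAction.mem_stabilizer_iff.2 ?_⟩
    have hdu : d • u • z = u • z := by
      have hu' := (Subgroup.mem_normalizer_iff.1 (inv_mem (hP'n huP')) d).1 hd
      rw [inv_inv] at hu'
      calc d • u • z = u • (u⁻¹ * d * u) • z := by rw [← mul_smul, ← mul_smul]; group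
        _ = _ := by rw [MulAction.mem_stabilizer_iff.1 hu'.2]
    by_contra huz
    refine h.no_three_fixed hW hd1' hz (Ne.symm huz) ?_ (smul_base_iff.2 hd.1)
      (MulAction.mem_stabilizer_iff.1 hd.2) hdu
    intro he
    exact hz (((inv_smul_eq_iff.2 he).symm.trans (smul_base_iff.2 (inv_mem huM))).symm)
  obtain ⟨Q, hQ, d, hd, hd1⟩ := key x hx
  obtain ⟨Q', hQ', -⟩ := key y hy
  obtain ⟨m, hm⟩ := MulAction.exists_smul_eq (big E) Q Q'
  refine ⟨m, m.2, ?_⟩
  have hmd : (m : G) * d * (m : G)⁻¹ ∈ big E ⊓ MulAction.stabilizer G y := by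
    rw [← hQ] at hd
    obtain ⟨q, hq, rfl⟩ := hd
    rw [← hQ']
    refine ⟨m * q * m⁻¹, ?_, rfl⟩
    rw [SetLike.mem_coe, ← hm, Sylow.coe_subgroup_smul]
    exact CfsgLib.CoprimeAction.mem_conj_iff.2 (by simp [mul_assoc]; exact hq)
  have hdy : d • (m : G)⁻¹ • y = (m : G)⁻¹ • y := by
    calc d • (m : G)⁻¹ • y = (m : G)⁻¹ • ((m : G) * d * (m : G)⁻¹) • y := by
          rw [← mul_smul, ← mul_smul]; group
      _ = _ := by rw [MulAction.mem_stabilizer_iff.1 hmd.2]
  by_contra hne
  refine h.no_three_fixed hW hd1 hx (fun he => hne (eq_inv_smul_iff.1 he)) ?_ (smul_base_iff.2 hd.1)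
    (MulAction.mem_stabilizer_iff.1 hd.2) hdy
  intro he
  exact hy (((eq_inv_smul_iff.1 he).symm.trans (smul_base_iff.2 m.2)).symm)

theorem card_big (hW : core E ≠ ⊥) :
    Nat.card (big E) = 7 * Nat.card (Subgroup.centralizer (E : Set G)) := by
  have e : big E = Subgroup.normalizer (E : Set G) :=
    le_antisymm (h.big_le_normalizer hW) h.normalizer_le_big
  have h1 := Subgroup.card_mul_index
    ((Subgroup.centralizer (E : Set G)).subgroupOf (Subgroup.normalizer (E : Set G)))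
  rw [h.index_centralizer,
    Nat.card_congr (Subgroup.subgroupOfEquivOfLe (Subgroup.centralizer_le_normalizer _)).toEquiv] at h1
  rw [e, ← h1, mul_comm]

theorem core_eq_bot : core E = ⊥ := by
  classical
  by_contra hW
  set o : G ⧸ big E := QuotientGroup.mk 1 with ho
  haveI := Fintype.ofFinite (G ⧸ big E)
  haveI := h.simple
  obtain ⟨g, hg⟩ : ∃ g : G, g ∉ big E := by
    by_contra hall
    push Not at hall
    exact h.big_ne_top hW ((Subgroup.eq_top_iff' _).2 hall)
  have hgo : o ≠ g • o := fun he => hg (smul_base_iff.1 he.symm)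
  obtain ⟨a, haE, ha1⟩ := h.exists_ne
  obtain ⟨v, hv⟩ := h.exists_swapper hW hgo
  obtain ⟨h7, -⟩ := h.pair_data hW hgo hv
  -- a Zassenhaus group
  have hfaith : FaithfulSMul G (G ⧸ big E) := by
    refine ⟨fun {g₁ g₂} hall => ?_⟩
    have hmem : g₁⁻¹ * g₂ ∈ (big E).normalCore := by
      rw [Subgroup.normalCore_eq_ker]
      refine MonoidHom.mem_ker.2 (Equiv.ext fun x => ?_)
      show (g₁⁻¹ * g₂) • x = x
      rw [mul_smul, ← hall x, inv_smul_smul]
    have hb : (big E).normalCore = ⊥ := by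
      rcases (inferInstance : (big E).normalCore.Normal).eq_bot_or_eq_top with h0 | h0
      · exact h0
      · exact absurd (top_le_iff.1 (h0 ▸ (big E).normalCore_le)) (h.big_ne_top hW)
    rw [hb, Subgroup.mem_bot, inv_mul_eq_one] at hmem
    exact hmem
  have h2 : MulAction.IsMultiplyPretransitive G (G ⧸ big E) 2 := by
    rw [MulAction.is_two_pretransitive_iff]
    intro a b c d hab hcd
    obtain ⟨ga, hga⟩ := MulAction.exists_smul_eq G a o
    obtain ⟨gc, hgc⟩ := MulAction.exists_smul_eq G c o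
    obtain ⟨m, hm, hmx⟩ := h.exists_big_smul hW (x := ga • b) (y := gc • d)
      (fun he => hab (MulAction.injective ga (hga.trans he)))
      (fun he => hcd (MulAction.injective gc (hgc.trans he)))
    refine ⟨gc⁻¹ * m * ga, ?_, ?_⟩
    · rw [mul_smul, mul_smul, hga, smul_base_iff.2 hm, inv_smul_eq_iff, hgc]
    · rw [mul_smul, mul_smul, hmx, inv_smul_smul]
  have hZ : IsZassenhausGroup G (G ⧸ big E) := by
    refine ⟨hfaith, h2, fun x a b c hab hbc hac hxa hxb hxc => ?_, ?_, ?_⟩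
    · by_contra hx1
      exact h.no_three_fixed hW hx1 hab hbc hac hxa hxb hxc
    · haveI : Nontrivial ↥(MulAction.stabilizer G o ⊓ MulAction.stabilizer G (g • o)) :=
        Finite.one_lt_card_iff_nontrivial.1 (by rw [h7]; norm_num)
      obtain ⟨⟨d, hd⟩, hd1⟩ :=
        _root_.exists_ne (1 : ↥(MulAction.stabilizer G o ⊓ MulAction.stabilizer G (g • o)))
      exact ⟨d, fun he => hd1 (Subtype.ext he), o, g • o, hgo, MulAction.mem_stabilizer_iff.1 hd.1,
        MulAction.mem_stabilizer_iff.1 hd.2⟩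
    · intro N hN htrans
      rcases hN.eq_bot_or_eq_top with rfl | rfl
      · obtain ⟨⟨x, hx⟩, hxo⟩ := htrans.exists_smul_eq o (g • o)
        rw [Subgroup.mem_bot] at hx
        subst hx
        exact absurd ((one_smul G o).symm.trans hxo) hgo
      · refine ⟨o, fun h0 => ha1 ?_⟩
        have : (⟨a, Subgroup.mem_top a⟩ : (⊤ : Subgroup G)) ∈ MulAction.stabilizer (⊤ : Subgroup G) o :=
          smul_base_iff.2 (h.E_le_big haE)
        exact congrArg Subtype.val (Subgroup.mem_bot.1 (h0.le this))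
  have hpp := Cfsg.Agent.S0346.result hZ
  -- the number of points
  have horb : (MulAction.orbit (big E) (g • o)) = {o}ᶜ := by
    ext x
    constructor
    · rintro ⟨m, rfl⟩ (he : (m : G) • g • o = o)
      exact hgo ((MulAction.injective (m : G)) (he.trans (smul_base_iff.2 m.2).symm)).symm
    · intro hx
      obtain ⟨m, hm, hmx⟩ := h.exists_big_smul hW hgo (Ne.symm hx)
      exact ⟨⟨m, hm⟩, hmx⟩
  have h1 := Subgroup.card_mul_index (MulAction.stabilizer (big E) (g • o))
  rw [MulAction.index_stabilizer, horb, Set.ncard_compl _ (Set.toFinite _) (Set.toFinite _),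
    Set.ncard_singleton, Nat.card_eq_fintype_card (α := G ⧸ big E),
    show MulAction.stabilizer (big E) (g • o) = (MulAction.stabilizer G (g • o)).subgroupOf (big E) by
      ext z; rfl, ← Subgroup.inf_subgroupOf_left,
    Nat.card_congr (Subgroup.subgroupOfEquivOfLe inf_le_left).toEquiv] at h1
  rw [stabilizer_base] at h7
  rw [h7, h.card_big hW] at h1
  have hn : Fintype.card (G ⧸ big E) - 1 = Nat.card (Subgroup.centralizer (E : Set G)) :=
    Nat.eq_of_mul_eq_mul_left (by norm_num) h1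
  rw [hn] at hpp
  obtain ⟨p, k, hp, hk, hpk⟩ := (isPrimePow_nat_iff _).1 hpp
  have hEC : 8 ∣ Nat.card (Subgroup.centralizer (E : Set G)) := by
    rw [← h.card_E]
    exact Subgroup.card_dvd_of_le fun x hx => Subgroup.mem_centralizer_iff.2 fun y hy => h.commE hy hx
  have hp2 : p = 2 := by
    rw [← hpk] at hEC
    exact ((Nat.prime_dvd_prime_iff_eq Nat.prime_two hp).1
      (Nat.prime_two.dvd_of_dvd_pow ((show 2 ∣ 8 by norm_num).trans hEC))).symm
  subst hp2
  have hWC : core E ≤ Subgroup.centralizer (E : Set G) := fun w hw =>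
    h.mem_centralizer_of_core hw (h.big_le_normalizer hW (core_le_big hw))
  have hd := Subgroup.card_dvd_of_le hWC
  rw [← hpk] at hd
  obtain ⟨j, -, hj⟩ := (Nat.dvd_prime_pow Nat.prime_two).1 hd
  rcases Nat.eq_zero_or_pos j with rfl | hj0
  · exact hW (Subgroup.card_eq_one.1 (hj.trans (pow_zero 2)))
  · exact absurd h.core_odd (Nat.not_odd_iff_even.2 (hj ▸ Nat.even_pow.2 ⟨even_two, hj0.ne'⟩))

end Hyp

end CfsgLib.HallNumber.EightSeven
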