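import Cfsg.Agent.Lib.HallNumber.EightSeven.Lines
import Cfsg.Agent.Lib.HallNumber.ZJFactor
import Cfsg.Agent.Lib.BGUniqueness.CenterJ

/-!
For a prime `r ≠ 7` the centralisers of the nontrivial elements of an invariant Sylow `r`-subgroup of
`core E` lie in `big E`.
-/

set_option autoImplicit false
open Cfsg
open scoped Pointwise

namespace CfsgLib.HallNumber.EightSeven

variable {G : Type*} [Group G] [Finite G] {r : ℕ} [Fact r.Prime]

theorem eq_of_le_of_not_dvd {R P : Subgroup G} (hle : R ≤ P) (hP : IsPGroup r P)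
    (h : ¬ r ∣ R.relIndex P) : P = R := by
  obtain ⟨k, hk⟩ := hP.index (R.subgroupOf P)
  rw [Subgroup.relIndex] at h
  rw [hk] at h
  rcases Nat.eq_zero_or_pos k with rfl | hk0
  · rw [pow_zero] at hk
    exact le_antisymm (Subgroup.relIndex_eq_one.1 hk) hle
  · exact absurd (dvd_pow_self r hk0.ne') h

omit [Fact r.Prime] in
theorem not_isCyclic_of_card {A : Subgroup G} (hr : 2 ≤ r) (hexp : ∀ a ∈ A, a ^ r = 1)
    (h : r ^ 2 ≤ Nat.card A) : ¬ IsCyclic A := by
  intro hc
  have he : Monoid.exponent A ∣ r := Monoid.exponent_dvd_of_forall_pow_eq_one fun x =>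
    Subtype.ext (hexp x x.2)
  rw [IsCyclic.exponent_eq_card] at he
  have := Nat.le_of_dvd (by omega) he
  nlinarith

theorem exists_lt_normalizer {P Q : Subgroup G} (hQ : IsPGroup r Q) (hlt : P < Q) :
    ∃ P', P < P' ∧ P' ≤ Q ∧ P' ≤ Subgroup.normalizer (P : Set G) ∧ IsPGroup r P' := by
  haveI : Group.IsNilpotent Q := hQ.isNilpotent
  have hne : P.subgroupOf Q < ⊤ := lt_top_iff_ne_top.2 fun ht =>
    hlt.not_ge (Subgroup.subgroupOf_eq_top.1 ht)
  have hn := normalizerCondition_of_isNilpotent (G := Q) (P.subgroupOf Q) hne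
  obtain ⟨y, hy, hyP⟩ := SetLike.exists_of_lt hn
  have hle : Q ⊓ Subgroup.normalizer (P : Set G) ≤ Q := inf_le_left
  refine ⟨_, lt_of_le_of_ne (le_inf hlt.le Subgroup.le_normalizer) ?_, hle, inf_le_right, hQ.to_le hle⟩
  intro he
  apply hyP
  show (y : G) ∈ P
  rw [he]
  refine ⟨y.2, CfsgLib.CoprimeAction.mem_normalizer_of_conj_mem fun x hx => ?_⟩
  exact (Subgroup.mem_normalizer_iff.1 hy ⟨x, hlt.le hx⟩).1 hx

theorem map_centralizerPPrimeCore_le (g b : G) :
    (centralizerPPrimeCore r b).map (MulAut.conj g).toMonoidHom ≤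
      centralizerPPrimeCore r (g * b * g⁻¹) := by
  refine CfsgLib.Balance.le_centralizerPPrimeCore ?_ ?_ ?_
  · rintro _ ⟨x, hx, rfl⟩
    have := CfsgLib.Balance.centralizerPPrimeCore_le_centralizer r b hx
    rw [mem_cent] at this ⊢
    show g * b * g⁻¹ * (g * x * g⁻¹) = g * x * g⁻¹ * (g * b * g⁻¹)
    calc g * b * g⁻¹ * (g * x * g⁻¹) = g * (b * x) * g⁻¹ := by group
      _ = _ := by rw [this]; group
  · intro c hc
    refine CfsgLib.CoprimeAction.mem_normalizer_of_conj_mem ?_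
    rintro _ ⟨x, hx, rfl⟩
    have hc' : g⁻¹ * c * g ∈ Subgroup.centralizer ({b} : Set G) := by
      rw [mem_cent] at hc ⊢
      calc b * (g⁻¹ * c * g) = g⁻¹ * ((g * b * g⁻¹) * c) * g := by group
        _ = _ := by rw [hc]; group
    refine ⟨_, (Subgroup.mem_normalizer_iff.1
      (CfsgLib.Balance.centralizer_le_normalizer_centralizerPPrimeCore r b hc') x).1 hx, ?_⟩
    simp [mul_assoc]
  · rw [Subgroup.card_map_of_injective (MulAut.conj g).injective]
    exact CfsgLib.Balance.coprime_card_centralizerPPrimeCore r b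

/-- The centraliser of `b` lies in `big E`. -/
def Good (E : Subgroup G) (b : G) : Prop := Subgroup.centralizer ({b} : Set G) ≤ big E

namespace Hyp

variable {E : Subgroup G} (h : Hyp E)

include h

omit [Fact r.Prime] in
theorem exists_pair : ∃ a b : G, a ∈ E ∧ b ∈ E ∧ orderOf a = 2 ∧ orderOf b = 2 ∧ a ≠ b := by
  obtain ⟨a, ha, ha1⟩ := h.exists_ne
  obtain ⟨b, hb, hb1, hba⟩ : ∃ b ∈ E, b ≠ 1 ∧ b ≠ a := by
    by_contra hno
    push Not at hno
    have hle : E ≤ Subgroup.zpowers a := fun x hx => by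
      by_cases hx1 : x = 1
      · rw [hx1]; exact Subgroup.one_mem _
      · rw [hno x hx hx1]; exact Subgroup.mem_zpowers a
    have hd := Subgroup.card_dvd_of_le hle
    rw [h.card_E, Nat.card_zpowers, h.orderOf_two ha ha1] at hd
    norm_num at hd
  exact ⟨a, b, ha, hb, h.orderOf_two ha ha1, h.orderOf_two hb hb1, hba.symm⟩

theorem ne_top_of_pgroup {K : Subgroup G} (hK : IsPGroup r K) : K ≠ ⊤ := by
  intro ht
  haveI := hK.isNilpotent
  subst ht
  exact h.not_solv (Group.isSolvable_of_surjective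
    (f := (Subgroup.topEquiv : (⊤ : Subgroup G) ≃* G).toMonoidHom)
    (Subgroup.topEquiv : (⊤ : Subgroup G) ≃* G).surjective)

omit [Fact r.Prime] in
theorem le_big_of_E {X : Subgroup G} (hX : X ≠ ⊤) {m : G} (hm : m ∈ big E)
    (hEX : ∀ a ∈ E, m * a * m⁻¹ ∈ X) : X ≤ big E := by
  obtain ⟨a, b, ha, hb, ha2, hb2, hne⟩ := h.exists_pair
  refine h.le_big hX (hEX a ha) (hEX b hb) ((big E).mul_mem ((big E).mul_mem hm (h.E_le_big ha)) (inv_mem hm))
    ((big E).mul_mem ((big E).mul_mem hm (h.E_le_big hb)) (inv_mem hm))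
    (by rw [CfsgLib.Involutions.orderOf_conj]; exact ha2)
    (by rw [CfsgLib.Involutions.orderOf_conj]; exact hb2) ?_
    fun he => hne (mul_left_cancel (mul_right_cancel he))
  calc m * a * m⁻¹ * (m * b * m⁻¹) = m * (a * b) * m⁻¹ := by group
    _ = _ := by rw [h.commE ha hb]; group

theorem normalizer_invSylow_le {R : Subgroup G} (hR : InvSylow E r R) (hRne : R ≠ ⊥) :
    Subgroup.normalizer (R : Set G) ≤ big E :=
  h.le_big_of_E (h.normalizer_ne_top hRne (h.ne_top_of_pgroup hR.pgroup)) (big E).one_mem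
    fun a ha => by simpa using hR.inv ha

variable (hW : core E ≠ ⊥) {R : Subgroup G} (hR : InvSylow E r R) (hr2 : r ≠ 2) (hr7 : r ≠ 7)

include hW hr2 hr7 in
theorem pgroup_le_core {P : Subgroup G} (hP : IsPGroup r P) (hPM : P ≤ big E) : P ≤ core E := by
  intro x hx
  obtain ⟨k, hk⟩ := IsPGroup.iff_orderOf.1 hP ⟨x, hx⟩
  rw [Subgroup.orderOf_mk] at hk
  refine h.mem_core_of_coprime hW (hPM hx) ?_
  rw [hk, show 14 = 2 * 7 from rfl]
  exact Nat.Coprime.pow_left k (Nat.Coprime.mul_right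
    ((Nat.coprime_primes (Fact.out : r.Prime) Nat.prime_two).2 hr2)
    ((Nat.coprime_primes (Fact.out : r.Prime) (by norm_num)).2 hr7))

include hW hr2 hr7 hR in
theorem eq_invSylow_of_le {P : Subgroup G} (hP : IsPGroup r P) (hPM : P ≤ big E) (hle : R ≤ P) :
    P = R := by
  refine eq_of_le_of_not_dvd hle hP fun hd => hR.not_dvd (hd.trans ?_)
  exact Dvd.intro _ (Subgroup.relIndex_mul_relIndex _ _ _ hle (h.pgroup_le_core hW hr2 hr7 hP hPM))

include hW hr2 hr7 hR in
theorem exists_big_conj_le {P : Subgroup G} (hP : IsPGroup r P) (hPM : P ≤ big E) :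
    ∃ m ∈ big E, ∀ x ∈ P, m * x * m⁻¹ ∈ R := by
  have hRM : R ≤ big E := hR.le.trans core_le_big
  have hRp : IsPGroup r (R.subgroupOf (big E)) :=
    hR.pgroup.of_equiv (Subgroup.subgroupOfEquivOfLe hRM).symm
  obtain ⟨S, hS⟩ := hRp.exists_le_sylow
  have hSR : (S : Subgroup (big E)).map (big E).subtype = R :=
    h.eq_invSylow_of_le hW hR hr2 hr7 (S.2.map _) (Subgroup.map_subtype_le _)
      fun x hx => ⟨⟨x, hRM hx⟩, hS hx, rfl⟩
  obtain ⟨Q, hQ⟩ := (hP.of_equiv (Subgroup.subgroupOfEquivOfLe hPM).symm).exists_le_sylow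
  obtain ⟨m, hm⟩ := MulAction.exists_smul_eq (big E) Q S
  refine ⟨m, m.2, fun x hx => ?_⟩
  have : m * (⟨x, hPM hx⟩ : big E) * m⁻¹ ∈ (MulAut.conj m • (Q : Subgroup (big E))) :=
    CfsgLib.CoprimeAction.mem_conj_iff.2 (by
      have hxQ : (⟨x, hPM hx⟩ : big E) ∈ (Q : Subgroup (big E)) := hQ hx
      simpa [mul_assoc] using hxQ)
  rw [← Sylow.coe_subgroup_smul, hm] at this
  rw [← hSR]
  exact ⟨_, this, rfl⟩

include hW hr2 hr7 hR in
theorem not_dvd_relIndex (hRne : R ≠ ⊥) {X : Subgroup G} (hRX : R ≤ X) : ¬ r ∣ R.relIndex X := by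
  obtain ⟨Q, hQ⟩ := hR.pgroup.exists_le_sylow
  have hQR : (Q : Subgroup G) = R := by
    by_contra hne
    obtain ⟨P', hlt, -, hPn, hP'⟩ := exists_lt_normalizer Q.2 (lt_of_le_of_ne hQ (Ne.symm hne))
    exact hlt.ne' (h.eq_invSylow_of_le hW hR hr2 hr7 hP'
      (hPn.trans (h.normalizer_invSylow_le hR hRne)) hlt.le)
  intro hd
  exact Q.not_dvd_index (hQR ▸ hd.trans (Subgroup.relIndex_dvd_index_of_le hRX))

include hW hr2 hr7 hR in
/-- Uniqueness: an `r`-subgroup of `big E` containing a noncyclic abelian subgroup of good elements lies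
in no other maximal subgroup. -/
theorem le_big_rich {B : Subgroup G} (hBc : IsMulCommutative B) (hBn : ¬ IsCyclic B)
    (hB : ∀ b ∈ B, b ≠ 1 → Good E b) :
    ∀ (P : Subgroup G), IsPGroup r P → P ≤ big E → B ≤ P →
      ∀ X : Subgroup G, X ≠ ⊤ → P ≤ X → X ≤ big E := by
  suffices H : ∀ d : ℕ, ∀ (P : Subgroup G), Nat.card G - Nat.card P = d → IsPGroup r P →
      P ≤ big E → B ≤ P → ∀ X : Subgroup G, X ≠ ⊤ → P ≤ X → X ≤ big E from
    fun P => H _ P rfl
  intro d
  induction d using Nat.strong_induction_on with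
  | _ d ih =>
    intro P hd hP hPM hBP X hX hPX
    have hdec : ∀ P' : Subgroup G, P < P' → Nat.card G - Nat.card P' < d := fun P' hlt => by
      have h1 : Nat.card P < Nat.card P' := by
        rcases (Subgroup.card_le_of_le hlt.le).lt_or_eq with h1 | h1
        · exact h1
        · exact absurd (Subgroup.eq_of_le_of_card_ge hlt.le h1.ge) hlt.ne
      have h2 := Subgroup.card_le_card_group P'
      omega
    have hPne : P ≠ ⊥ := fun h0 => hBn (by
      have : B = ⊥ := le_bot_iff.1 (h0 ▸ hBP)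
      subst this
      infer_instance)
    set Y := Subgroup.normalizer (centerThompsonOf r P : Set G) with hY
    have hYne : Y ≠ ⊤ := h.normalizer_ne_top (CfsgLib.BGUniqueness.centerThompsonOf_ne_bot hP hPne)
      (h.ne_top_of_pgroup (hP.to_le (CfsgLib.BGUniqueness.centerThompsonOf_le P)))
    have hNY : Subgroup.normalizer (P : Set G) ≤ Y :=
      CfsgLib.BGUniqueness.normalizer_le_normalizer_centerThompsonOf P
    obtain ⟨m, hm, hmR⟩ := h.exists_big_conj_le hW hR hr2 hr7 hP hPM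
    have hYM : Y ≤ big E := by
      set P₁ := R.map (MulAut.conj m⁻¹).toMonoidHom with hP₁
      have hPP₁ : P ≤ P₁ := fun x hx => ⟨m * x * m⁻¹, hmR x hx, by simp [mul_assoc]⟩
      have hP₁M : P₁ ≤ big E := by
        rintro _ ⟨x, hx, rfl⟩
        exact (big E).mul_mem ((big E).mul_mem (inv_mem hm) (core_le_big (hR.le hx)))
          (by rw [inv_inv]; exact hm)
      rcases hPP₁.eq_or_lt with he | hlt
      · refine h.le_big_of_E hYne (inv_mem hm) fun a ha => hNY ?_
        rw [he]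
        refine CfsgLib.CoprimeAction.mem_normalizer_of_conj_mem ?_
        rintro _ ⟨x, hx, rfl⟩
        exact ⟨_, (Subgroup.mem_normalizer_iff.1 (hR.inv ha) x).1 hx, by simp [mul_assoc]⟩
      · obtain ⟨P', hlt', hle', hP'n, hP'⟩ := exists_lt_normalizer (hR.pgroup.map _) hlt
        exact ih _ (hdec P' hlt') P' rfl hP' (hle'.trans hP₁M) (hBP.trans hlt'.le) Y hYne
          (hP'n.trans hNY)
    obtain ⟨Q, hQ⟩ := (hP.of_equiv (Subgroup.subgroupOfEquivOfLe hPX).symm).exists_le_sylow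
    set Q' := (Q : Subgroup X).map X.subtype
    have hPQ : P ≤ Q' := fun x hx => ⟨⟨x, hPX hx⟩, hQ hx, rfl⟩
    have hQ' : IsPGroup r Q' := Q.2.map _
    rcases hPQ.eq_or_lt with he | hlt
    · refine CfsgLib.HallNumber.le_of_zj hr2 h.abelian_sylow (h.solv X hX) hPX hP ?_ ?_
        (inf_le_right.trans hYM)
      · rw [he, Subgroup.relIndex, Subgroup.subgroupOf,
          Subgroup.comap_map_eq_self_of_injective X.subtype_injective]
        exact Q.not_dvd_index
      · intro K _ hXK hK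
        haveI := hBc
        refine CfsgLib.CoprimeAction.le_of_centralizers hBn (hBP.trans (hPX.trans hXK)) ?_
          fun b hb hb1 => inf_le_right.trans (hB b hb hb1)
        obtain ⟨k, hk⟩ := (hP.to_le hBP).exists_card_eq
        rw [hk]
        exact ((Fact.out : r.Prime).coprime_iff_not_dvd.2 hK).pow_left k
    · obtain ⟨P', hlt', hle', hP'n, hP'⟩ := exists_lt_normalizer hQ' hlt
      exact ih _ (hdec P' hlt') P' rfl hP' ((hP'n.trans hNY).trans hYM) (hBP.trans hlt'.le) X hX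
        (hle'.trans (Subgroup.map_subtype_le _))

include hW hr2 hr7 hR in
/-- A good noncyclic abelian subgroup of `R` centralised by `x` makes `x` good. -/
theorem good_of_rich {B : Subgroup G} (hBc : IsMulCommutative B) (hBn : ¬ IsCyclic B)
    (hB : ∀ b ∈ B, b ≠ 1 → Good E b) (hBR : B ≤ R) {x : G} (hx1 : x ≠ 1)
    (hxB : ∀ b ∈ B, x * b = b * x) : Good E x :=
  h.le_big_rich hW hR hr2 hr7 hBc hBn hB B (hR.pgroup.to_le hBR) (hBR.trans (hR.le.trans core_le_big))
    le_rfl _ (h.centralizer_ne_top hx1) fun b hb => mem_cent.2 (hxB b hb)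

include hW hr2 hr7 hR in
/-- An `E`-invariant elementary abelian subgroup of rank three central in `R` consists of good elements. -/
theorem good_of_central {A : Subgroup G} (hAR : A ≤ R) (hAc : ∀ a ∈ A, ∀ x ∈ R, a * x = x * a)
    (hAe : ∀ a ∈ A, a ^ r = 1) (hAcard : r ^ 3 ≤ Nat.card A) (hAE : E ≤ Subgroup.normalizer (A : Set G))
    {b : G} (hb : b ∈ A) (hb1 : b ≠ 1) : Good E b := by
  have hAcomm : ∀ a ∈ A, ∀ c ∈ A, a * c = c * a := fun a ha c hc => hAc a ha c (hAR hc)
  have hprop : ∀ a ∈ A, a ≠ 1 → Group.IsSolvable (Subgroup.centralizer ({a} : Set G)) :=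
    fun a _ ha1 => h.solv _ (h.centralizer_ne_top ha1)
  have hsft := Cfsg.Agent.S0217.result (p := r) A hAcomm hAe hAcard (centralizerPPrimeCore r)
    (fun a _ _ => CfsgLib.Balance.centralizerPPrimeCore_le_centralizer r a)
    (fun a _ _ => CfsgLib.Balance.not_dvd_card_centralizerPPrimeCore a)
    (fun a ha _ c hc x hx => (Subgroup.mem_normalizer_iff.1
      (CfsgLib.Balance.centralizer_le_normalizer_centralizerPPrimeCore r a
        (mem_cent.2 (hAcomm a ha c hc))) x).1 hx)
    (fun a ha ha1 => haveI := hprop a ha ha1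
      CfsgLib.CoprimeAction.isSolvable_of_le (CfsgLib.Balance.centralizerPPrimeCore_le_centralizer r a))
    (fun a ha ha1 c hc hc1 => haveI := hprop c hc hc1
      CfsgLib.Balance.centralizerPPrimeCore_inf_le (hAe a ha) (hAcomm a ha c hc)
        CfsgLib.Balance.centralizer_pCore_le_of_isSolvable)
  set T := ⨆ a : {a : G // a ∈ A ∧ a ≠ 1}, centralizerPPrimeCore r a.1 with hT
  have hRne : R ≠ ⊥ := fun h0 => hb1 (Subgroup.mem_bot.1 (h0 ▸ hAR hb))
  have hTM : T ≤ big E := by
    by_cases hT0 : T = ⊥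
    · rw [hT0]; exact bot_le
    have hTne : T ≠ ⊤ := fun ht => by
      apply hsft.1
      rw [ht, Subgroup.card_top]
      obtain ⟨k, hk⟩ := hR.pgroup.exists_card_eq
      rcases Nat.eq_zero_or_pos k with rfl | hk0
      · exact absurd (Subgroup.card_eq_one.1 (hk.trans (pow_zero r))) hRne
      · exact ((dvd_pow_self r hk0.ne').trans (hk ▸ dvd_rfl)).trans (Subgroup.card_subgroup_dvd_card R)
    refine Subgroup.le_normalizer.trans (h.le_big_of_E (h.normalizer_ne_top hT0 hTne) (big E).one_mem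
      fun e he => ?_)
    rw [one_mul, inv_one, mul_one]
    refine CfsgLib.CoprimeAction.mem_normalizer_of_conj_mem fun x hx => ?_
    have hm : T.map (MulAut.conj e).toMonoidHom ≤ T := by
      rw [hT, Subgroup.map_iSup]
      refine iSup_le fun a => (map_centralizerPPrimeCore_le e a.1).trans ?_
      exact le_iSup (fun a : {a : G // a ∈ A ∧ a ≠ 1} => centralizerPPrimeCore r a.1)
        ⟨e * a.1 * e⁻¹, (Subgroup.mem_normalizer_iff.1 (hAE he) _).1 a.2.1,
          fun hh => a.2.2 (conj_eq_one_iff.1 hh)⟩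
    exact hm ⟨x, hx, rfl⟩
  have hRC : R ≤ Subgroup.centralizer ({b} : Set G) := fun x hx => mem_cent.2 (hAc b hb x hx)
  have hYM : Subgroup.normalizer (centerThompsonOf r R : Set G) ≤ big E := by
    refine h.le_big_of_E (h.normalizer_ne_top (CfsgLib.BGUniqueness.centerThompsonOf_ne_bot hR.pgroup hRne)
      (h.ne_top_of_pgroup (hR.pgroup.to_le (CfsgLib.BGUniqueness.centerThompsonOf_le R))))
      (big E).one_mem fun e he => ?_
    rw [one_mul, inv_one, mul_one]
    exact CfsgLib.BGUniqueness.normalizer_le_normalizer_centerThompsonOf R (hR.inv he)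
  refine CfsgLib.HallNumber.le_of_zj hr2 h.abelian_sylow (hprop b hb hb1) hRC hR.pgroup
    (h.not_dvd_relIndex hW hR hr2 hr7 hRne hRC) (fun K hK hCK hKc => ?_) (inf_le_right.trans hYM)
  refine (CfsgLib.Balance.le_centralizerPPrimeCore hK hCK
    (((Fact.out : r.Prime).coprime_iff_not_dvd.2 hKc).symm)).trans ?_
  exact le_trans (le_iSup (fun a : {a : G // a ∈ A ∧ a ≠ 1} => centralizerPPrimeCore r a.1)
    ⟨b, hb, hb1⟩) hTM

end Hyp

end CfsgLib.HallNumber.EightSeven
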