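import Cfsg.Agent.Lib.HallNumber.EightSeven.Good

/-!
If `E` does not centralise the invariant Sylow `r`-subgroup `R` of `core E`, `r ≠ 7`, every element of
`R` centralises a noncyclic abelian subgroup of good elements of `R`.
-/

set_option autoImplicit false
open Cfsg
open scoped Pointwise

namespace CfsgLib.HallNumber.EightSeven

variable {G : Type*} [Group G] [Finite G]

omit [Finite G] in
theorem closure_commute {S : Set G} (hS : ∀ x ∈ S, ∀ y ∈ S, Commute x y) :
    ∀ x ∈ Subgroup.closure S, ∀ y ∈ Subgroup.closure S, Commute x y := by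
  have h1 : Subgroup.closure S ≤ Subgroup.centralizer S :=
    (Subgroup.closure_le _).2 fun x hx => Subgroup.mem_centralizer_iff.2 fun y hy => (hS y hy x hx).eq
  have h2 : Subgroup.closure S ≤ Subgroup.centralizer (Subgroup.closure S : Set G) :=
    (Subgroup.closure_le _).2 fun x hx => Subgroup.mem_centralizer_iff.2 fun y hy =>
      (Subgroup.mem_centralizer_iff.1 (h1 hy) x hx).symm
  exact fun x hx y hy => (Subgroup.mem_centralizer_iff.1 (h2 hx) y hy).symm

omit [Finite G] in
theorem closure_pow_eq_one {S : Set G} {r : ℕ} (hS : ∀ x ∈ S, ∀ y ∈ S, Commute x y)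
    (hr : ∀ x ∈ S, x ^ r = 1) : ∀ x ∈ Subgroup.closure S, x ^ r = 1 := by
  intro x hx
  induction hx using Subgroup.closure_induction with
  | mem x hx => exact hr x hx
  | one => exact one_pow r
  | mul x y hx hy h1 h2 => rw [(closure_commute hS x hx y hy).mul_pow, h1, h2, one_mul]
  | inv x _ h1 => rw [inv_pow, h1, inv_one]

theorem le_card_inf_centralizer_mul {A Z : Subgroup G} {x : G}
    (h : ∀ a ∈ A, a * x * a⁻¹ * x⁻¹ ∈ Z) :
    Nat.card A ≤ Nat.card ↥(A ⊓ Subgroup.centralizer ({x} : Set G)) * Nat.card Z := by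
  set C := (A ⊓ Subgroup.centralizer ({x} : Set G)).subgroupOf A with hC
  have hf : ∀ a b : A, (QuotientGroup.mk a : A ⧸ C) = QuotientGroup.mk b ↔
      (a : G) * x * (a : G)⁻¹ * x⁻¹ = (b : G) * x * (b : G)⁻¹ * x⁻¹ := by
    intro a b
    rw [QuotientGroup.eq, hC, Subgroup.mem_subgroupOf, Subgroup.mem_inf,
      and_iff_right (a⁻¹ * b : A).2, mem_cent, mul_left_inj, Subgroup.coe_mul, Subgroup.coe_inv]
    constructor
    · intro he
      calc (a : G) * x * (a : G)⁻¹ = a * (x * ((a : G)⁻¹ * b)) * (b : G)⁻¹ := by group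
        _ = _ := by rw [he]; group
    · intro he
      calc x * ((a : G)⁻¹ * b) = (a : G)⁻¹ * ((a : G) * x * (a : G)⁻¹) * b := by group
        _ = _ := by rw [he]; group
  let g : A ⧸ C → Z := fun q => Quotient.liftOn' q
    (fun a => (⟨_, h a a.2⟩ : Z)) fun a b hab => Subtype.ext ((hf a b).1 (Quotient.sound' hab))
  have hg : Function.Injective g := by
    intro p q
    refine Quotient.inductionOn₂' p q fun a b hab => (hf a b).2 (congrArg Subtype.val hab)
  have h1 := Nat.card_le_card_of_injective g hg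
  rw [← Subgroup.card_mul_index C, Subgroup.index,
    Nat.card_congr (Subgroup.subgroupOfEquivOfLe
      (inf_le_left : A ⊓ Subgroup.centralizer ({x} : Set G) ≤ A)).toEquiv]
  exact Nat.mul_le_mul_left _ h1

namespace Hyp

variable {E : Subgroup G} (h : Hyp E) {r : ℕ} [Fact r.Prime] {R : Subgroup G}

omit [Finite G] [Fact r.Prime] in
theorem fixCenter_conj_self {y x : G} (hy : y ∈ fixCenter E R r) (hx : x ∈ R) :
    x * y * x⁻¹ ∈ fixCenter E R r := by
  obtain ⟨h0, h1, h2⟩ := hy
  refine ⟨fixCore_conj_self h0 hx, by rw [conj_pow, h1]; group, fun d hd => ?_⟩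
  have hd' := fixCore_conj_self hd (R.inv_mem hx)
  rw [inv_inv] at hd'
  have := (Commute.conj_iff x).2 (h2 _ hd')
  rwa [show x * (x⁻¹ * d * x) * x⁻¹ = d by group] at this

omit [Finite G] [Fact r.Prime] in
theorem fixCenter_comm_mem {y x : G} (hy : y ∈ fixCenter E R r) (hx : x ∈ R) :
    y * x * y⁻¹ * x⁻¹ ∈ fixCenter E R r := by
  rw [show y * x * y⁻¹ * x⁻¹ = y * (x * y⁻¹ * x⁻¹) by group]
  exact (fixCenter E R r).mul_mem hy (fixCenter_conj_self ((fixCenter E R r).inv_mem hy) hx)

include h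

theorem fixCenter_ne_bot (hR : InvSylow E r R) (hne : fixCore E R ≠ ⊥) : fixCenter E R r ≠ ⊥ := by
  have hp : IsPGroup r (fixCore E R) := hR.pgroup.to_le fixCore_le
  haveI : Nontrivial (fixCore E R) := (Subgroup.nontrivial_iff_ne_bot _).2 hne
  haveI := hp.center_nontrivial
  obtain ⟨z, hz⟩ := exists_prime_orderOf_dvd_card' (G := Subgroup.center (fixCore E R)) r (by
    obtain ⟨k, hk⟩ := (hp.to_subgroup (Subgroup.center _)).exists_card_eq
    rcases Nat.eq_zero_or_pos k with rfl | hk0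
    · exact absurd (hk.trans (pow_zero r)) Finite.one_lt_card.ne'
    · exact hk ▸ dvd_pow_self r hk0.ne')
  intro hbot
  have hzr : z ^ r = 1 := hz ▸ pow_orderOf_eq_one z
  have hm : ((z : fixCore E R) : G) ∈ fixCenter E R r := ⟨(z : fixCore E R).2, by
      simpa using congrArg (fun w : Subgroup.center (fixCore E R) => ((w : fixCore E R) : G)) hzr,
    fun d hd => (congrArg Subtype.val (Subgroup.mem_center_iff.1 z.2 ⟨d, hd⟩)).symm⟩
  rw [hbot, Subgroup.mem_bot] at hm
  have : z = 1 := Subtype.ext (Subtype.ext hm)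
  rw [this, orderOf_one] at hz
  exact (Fact.out : r.Prime).ne_one hz.symm

theorem sq_not_mem_centralizer {n : G} (hn : n ∈ Subgroup.normalizer (E : Set G))
    (hnC : n ∉ Subgroup.centralizer (E : Set G)) : n ^ 2 ∉ Subgroup.centralizer (E : Set G) := by
  intro h2
  apply hnC
  have := (Subgroup.centralizer (E : Set G)).mul_mem
    ((Subgroup.centralizer (E : Set G)).pow_mem h2 4) (inv_mem (h.pow_seven_mem_centralizer hn))
  rwa [← pow_mul, show 2 * 4 = 1 + 7 from rfl, pow_add, pow_one, mul_inv_cancel_right] at this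

omit h [Finite G] [Fact r.Prime] in
theorem conj_zpowers_inv {a s u : G} (ha : a * s * a⁻¹ = s⁻¹) (hu : u ∈ Subgroup.zpowers s) :
    a * u * a⁻¹ = u⁻¹ := by
  obtain ⟨i, rfl⟩ := Subgroup.mem_zpowers_iff.1 hu
  rw [← conj_zpow, ha, inv_zpow]

omit h [Finite G] [Fact r.Prime] in
theorem commute_zpowers {s c u : G} (hs : Commute s c) (hu : u ∈ Subgroup.zpowers s) : Commute u c := by
  obtain ⟨i, rfl⟩ := Subgroup.mem_zpowers_iff.1 hu
  exact hs.zpow_left i

omit [Finite G] [Fact r.Prime] h in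
theorem card_mul_le {Z A : Subgroup G} {s s' a b : G} (hro : Odd r) (hsr : s ^ r = 1)
    (hsr' : s' ^ r = 1) (hso : orderOf s = r) (hso' : orderOf s' = r)
    (hZs : ∀ c ∈ Z, Commute s c) (hZs' : ∀ c ∈ Z, Commute s' c) (hss : Commute s s')
    (ha : a * s * a⁻¹ = s⁻¹) (has : Commute a s') (haZ : ∀ c ∈ Z, Commute a c)
    (hb : b * s' * b⁻¹ = s'⁻¹) (hbZ : ∀ c ∈ Z, Commute b c)
    (hZA : Z ≤ A) (hsA : s ∈ A) (hsA' : s' ∈ A) [Finite A] :
    Nat.card Z * r ^ 2 ≤ Nat.card A := by
  let φ : Z × Subgroup.zpowers s × Subgroup.zpowers s' → A := fun p =>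
    ⟨(p.1 : G) * p.2.1 * p.2.2, A.mul_mem (A.mul_mem (hZA p.1.2) (Subgroup.zpowers_le.2 hsA p.2.1.2))
      (Subgroup.zpowers_le.2 hsA' p.2.2.2)⟩
  have hpow : ∀ {t u : G}, t ^ r = 1 → u ∈ Subgroup.zpowers t → u ^ r = 1 := by
    intro t u ht hu
    obtain ⟨i, rfl⟩ := Subgroup.mem_zpowers_iff.1 hu
    rw [← zpow_natCast, ← zpow_mul, mul_comm, zpow_mul, zpow_natCast, ht, one_zpow]
  have hzero : ∀ c ∈ Z, ∀ u ∈ Subgroup.zpowers s, ∀ v ∈ Subgroup.zpowers s', c * u * v = 1 →
      c = 1 ∧ u = 1 ∧ v = 1 := by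
    intro c hc u hu v hv he
    have h1 : a * (c * u * v) * a⁻¹ = c * u⁻¹ * v := by
      calc a * (c * u * v) * a⁻¹ = (a * c * a⁻¹) * (a * u * a⁻¹) * (a * v * a⁻¹) := by group
        _ = _ := by
          rw [conj_zpowers_inv ha hu, (haZ c hc).eq, mul_inv_cancel_right,
            ((commute_zpowers has.symm hv).symm).eq, mul_inv_cancel_right]
    rw [he, mul_one, mul_inv_cancel] at h1
    have hu1 : u = 1 := eq_one_of_inv_eq
      (fun hd => Nat.not_even_iff_odd.2 hro (even_iff_two_dvd.2 hd)) (hpow hsr hu)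
      (mul_left_cancel (mul_right_cancel (h1.symm.trans he.symm)))
    subst hu1
    rw [mul_one] at he
    have h2 : b * (c * v) * b⁻¹ = c * v⁻¹ := by
      calc b * (c * v) * b⁻¹ = (b * c * b⁻¹) * (b * v * b⁻¹) := by group
        _ = _ := by rw [conj_zpowers_inv hb hv, (hbZ c hc).eq, mul_inv_cancel_right]
    rw [he, mul_one, mul_inv_cancel] at h2
    have hv1 : v = 1 := eq_one_of_inv_eq
      (fun hd => Nat.not_even_iff_odd.2 hro (even_iff_two_dvd.2 hd)) (hpow hsr' hv)
      (mul_left_cancel (h2.symm.trans he.symm))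
    subst hv1
    exact ⟨by simpa using he, rfl, rfl⟩
  have hφ : Function.Injective φ := by
    rintro ⟨⟨c, hc⟩, ⟨u, hu⟩, ⟨v, hv⟩⟩ ⟨⟨c', hc'⟩, ⟨u', hu'⟩, ⟨v', hv'⟩⟩ he
    have he' : c * u * v = c' * u' * v' := congrArg Subtype.val he
    have hcc : c⁻¹ * c' ∈ Z := Z.mul_mem (Z.inv_mem hc) hc'
    have huu : u⁻¹ * u' ∈ Subgroup.zpowers s := mul_mem (inv_mem hu) hu'
    have e1 : Commute v⁻¹ (c⁻¹ * c' * (u⁻¹ * u')) :=
      (commute_zpowers (hZs' _ hcc) (inv_mem hv)).mul_right
        (commute_zpowers (commute_zpowers hss huu).symm (inv_mem hv))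
    have e2 : Commute u⁻¹ (c⁻¹ * c') := commute_zpowers (hZs _ hcc) (inv_mem hu)
    obtain ⟨z1, z2, z3⟩ := hzero _ hcc _ huu _ (mul_mem (inv_mem hv) hv') (by
      calc c⁻¹ * c' * (u⁻¹ * u') * (v⁻¹ * v') = (c⁻¹ * c' * (u⁻¹ * u') * v⁻¹) * v' := by group
        _ = v⁻¹ * ((c⁻¹ * c' * u⁻¹) * u') * v' := by rw [← e1.eq]; group
        _ = (c * u * v)⁻¹ * (c' * u' * v') := by rw [← e2.eq]; group
        _ = 1 := by rw [he', inv_mul_cancel])
    simp only [Prod.mk.injEq, Subtype.mk.injEq]
    exact ⟨inv_mul_eq_one.1 z1, inv_mul_eq_one.1 z2, inv_mul_eq_one.1 z3⟩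
  have := Nat.card_le_card_of_injective φ hφ
  rwa [Nat.card_prod, Nat.card_prod, Nat.card_zpowers, Nat.card_zpowers, hso, hso', ← pow_two] at this

theorem good_of_two {X : G} {f g : G} (hX : X ≠ 1) (hf : f ∈ E) (hg : g ∈ E) (hf1 : f ≠ 1)
    (hg1 : g ≠ 1) (hfg : f ≠ g) (hfX : Commute f X) (hgX : Commute g X) : Good E X :=
  h.le_big (h.centralizer_ne_top hX) (mem_cent.2 hfX.symm.eq) (mem_cent.2 hgX.symm.eq) (h.E_le_big hf)
    (h.E_le_big hg) (h.orderOf_two hf hf1) (h.orderOf_two hg hg1) (h.commE hf hg) hfg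

/-- Every element of `R` centralises a noncyclic abelian subgroup of good elements. -/
theorem exists_good_rich (hW : core E ≠ ⊥) (hR : InvSylow E r R) (hr2 : r ≠ 2) (hr7 : r ≠ 7)
    (hRE : ¬ R ≤ Subgroup.centralizer (E : Set G)) {x : G} (hx : x ∈ R) :
    ∃ B : Subgroup G, IsMulCommutative B ∧ ¬ IsCyclic B ∧ (∀ b ∈ B, b ≠ 1 → Good E b) ∧ B ≤ R ∧
      ∀ b ∈ B, x * b = b * x := by
  obtain ⟨s, f, g, e, L⟩ := h.exists_line hR hRE
  obtain ⟨n, ⟨hnE, hnR⟩, hnC, -⟩ := h.invSylow_conj r hR
  have hr1 : 2 ≤ r := (Fact.out : r.Prime).two_le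
  have hro := h.line_odd hR L
  have hn2E := (Subgroup.normalizer (E : Set G)).pow_mem hnE 2
  have hn2R := (Subgroup.normalizer (R : Set G)).pow_mem hnR 2
  have L' := h.line_conj L hnE hnR
  have L'' := h.line_conj L hn2E hn2R
  set s' := n * s * n⁻¹ with hs'
  set s'' := n ^ 2 * s * (n ^ 2)⁻¹ with hs''
  obtain ⟨a, haE, has, has'⟩ := h.exists_separate hR L hnE hnC
  obtain ⟨a', haE', ha's, ha's'⟩ := h.exists_separate hR L hn2E (h.sq_not_mem_centralizer hnE hnC)
  rw [← hs'] at has'
  rw [← hs''] at ha's'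
  have hc12 : Commute s s' := h.line_commute hR L L' haE has has'
  have hsR : s ∈ R := midCore_le L.mem
  have hsR' : s' ∈ R := midCore_le L'.mem
  have hsR'' : s'' ∈ R := midCore_le L''.mem
  have hord : ∀ {t f g e : G}, Line E R r t f g e → t ^ r = 1 := fun L => by
    conv_lhs => rw [← L.order]
    exact pow_orderOf_eq_one _
  set Z := fixCenter E R r with hZ
  have hZC : ∀ c ∈ Z, c ∈ fixCore E R := fun c hc => hc.1
  by_cases hZ0 : Z = ⊥
  · -- the lines are central
    have hcen : ∀ {t f g e : G}, Line E R r t f g e → ∀ y ∈ R, Commute t y := by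
      intro t f g e Lt y hy
      have := h.line_comm_mem hR Lt hy
      rw [← hZ, hZ0, Subgroup.mem_bot] at this
      calc t * y = (t * y * t⁻¹ * y⁻¹) * (y * t) := by group
        _ = _ := by rw [this, one_mul]
    set S : Set G := {s, s', s''} with hS
    have hSR : ∀ t ∈ S, t ∈ R ∧ t ^ r = 1 ∧ (∀ y ∈ R, Commute t y) ∧
        ∃ f g e, Line E R r t f g e := by
      rintro t (rfl | rfl | rfl)
      exacts [⟨hsR, hord L, hcen L, _, _, _, L⟩, ⟨hsR', hord L', hcen L', _, _, _, L'⟩,
        ⟨hsR'', hord L'', hcen L'', _, _, _, L''⟩]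
    have hScomm : ∀ t ∈ S, ∀ u ∈ S, Commute t u := fun t ht u hu => (hSR t ht).2.2.1 u (hSR u hu).1
    set A := Subgroup.closure S with hA
    have hAR : A ≤ R := (Subgroup.closure_le _).2 fun t ht => (hSR t ht).1
    have hAc : ∀ t ∈ A, ∀ y ∈ R, t * y = y * t := by
      have hle : A ≤ Subgroup.centralizer (R : Set G) := (Subgroup.closure_le _).2 fun t ht =>
        Subgroup.mem_centralizer_iff.2 fun y hy => ((hSR t ht).2.2.1 y hy).symm.eq
      exact fun t ht y hy => (Subgroup.mem_centralizer_iff.1 (hle ht) y hy).symm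
    have hAe : ∀ t ∈ A, t ^ r = 1 := closure_pow_eq_one hScomm fun t ht => (hSR t ht).2.1
    have hAE : E ≤ Subgroup.normalizer (A : Set G) := by
      intro c hc
      refine CfsgLib.CoprimeAction.mem_normalizer_of_conj_mem fun t ht => ?_
      induction ht using Subgroup.closure_induction with
      | mem t ht =>
        obtain ⟨-, -, -, f, g, e, Lt⟩ := hSR t ht
        rcases h.line_dichotomy hR Lt hc with he | he <;> rw [he]
        · exact Subgroup.subset_closure ht
        · exact inv_mem (Subgroup.subset_closure ht)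
      | one => simp
      | mul t u _ _ h1 h2 =>
        rw [show c * (t * u) * c⁻¹ = (c * t * c⁻¹) * (c * u * c⁻¹) by group]
        exact A.mul_mem h1 h2
      | inv t _ h1 => rw [← conj_inv]; exact A.inv_mem h1
    have hsA : s ∈ A := Subgroup.subset_closure (by simp [hS])
    have hsA' : s' ∈ A := Subgroup.subset_closure (by simp [hS])
    have hsA'' : s'' ∈ A := Subgroup.subset_closure (by simp [hS])
    -- the subgroup of rank two
    set A₂ := Subgroup.closure ({s, s'} : Set G) with hA₂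
    have hle2 : A₂ ≤ A := Subgroup.closure_mono (by rw [hS]; intro t; simp; tauto)
    have h2c : r ^ 2 ≤ Nat.card A₂ := by
      have := card_mul_le (Z := (⊥ : Subgroup G)) (A := A₂) hro (hord L) (hord L') L.order L'.order
        (fun c hc => by rw [Subgroup.mem_bot.1 hc]; exact Commute.one_right _)
        (fun c hc => by rw [Subgroup.mem_bot.1 hc]; exact Commute.one_right _) hc12 has has'
        (fun c hc => by rw [Subgroup.mem_bot.1 hc]; exact Commute.one_right _) L'.inv_e
        (fun c hc => by rw [Subgroup.mem_bot.1 hc]; exact Commute.one_right _) bot_le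
        (Subgroup.subset_closure (by simp)) (Subgroup.subset_closure (by simp))
      simpa using this
    have hnot : s'' ∉ A₂ := by
      intro hmem
      have hcl : A₂ = Subgroup.zpowers s ⊔ Subgroup.zpowers s' := by
        rw [hA₂, Subgroup.zpowers_eq_closure, Subgroup.zpowers_eq_closure, ← Subgroup.closure_union,
          Set.singleton_union]
      have hnorm : Subgroup.zpowers s ≤ Subgroup.normalizer (Subgroup.zpowers s' : Set G) :=
        Subgroup.zpowers_le.2 (CfsgLib.CoprimeAction.mem_normalizer_of_conj_mem fun u hu => by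
          rw [((commute_zpowers hc12.symm hu).symm).eq, mul_inv_cancel_right]; exact hu)
      rw [hcl, ← SetLike.mem_coe, Subgroup.coe_mul_of_left_le_normalizer_right _ _ hnorm] at hmem
      obtain ⟨u, hu, v, hv, he⟩ := hmem
      have he' : u * v = s'' := he
      have hodd : ¬ 2 ∣ r := fun hd => Nat.not_even_iff_odd.2 hro (even_iff_two_dvd.2 hd)
      have hpu : u ^ r = 1 := hAe u (Subgroup.zpowers_le.2 hsA hu)
      have hpv : v ^ r = 1 := hAe v (Subgroup.zpowers_le.2 hsA' hv)
      have h1 : s'' = u⁻¹ * (a' * v * a'⁻¹) := by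
        calc s'' = a' * s'' * a'⁻¹ := by rw [ha's'.eq, mul_inv_cancel_right]
          _ = (a' * u * a'⁻¹) * (a' * v * a'⁻¹) := by rw [← he']; group
          _ = _ := by rw [conj_zpowers_inv ha's hu]
      rcases h.line_dichotomy hR L' haE' with hd | hd
      · have hd' : Commute a' s' := mul_inv_eq_iff_eq_mul.1 hd
        rw [((commute_zpowers hd'.symm hv).symm).eq, mul_inv_cancel_right, ← he'] at h1
        have hu1 : u = 1 := eq_one_of_inv_eq hodd hpu (mul_right_cancel h1).symm
        subst hu1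
        rw [one_mul] at he'
        -- now `s''` lies on the second line
        have ha2 : (n * a * n⁻¹) * s' * (n * a * n⁻¹)⁻¹ = s'⁻¹ := by
          calc (n * a * n⁻¹) * (n * s * n⁻¹) * (n * a * n⁻¹)⁻¹ = n * (a * s * a⁻¹) * n⁻¹ := by group
            _ = _ := by rw [has, hs']; group
        have ha3 : Commute (n * a * n⁻¹) s'' := by
          have := (Commute.conj_iff n).2 has'
          rwa [show n * (n * s * n⁻¹) * n⁻¹ = s'' by rw [hs'', pow_two]; group] at this
        have h3 := conj_zpowers_inv ha2 hv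
        rw [he', ha3.eq, mul_inv_cancel_right] at h3
        exact h.line_ne_one L'' (eq_one_of_inv_eq hodd (hord L'') h3.symm)
      · rw [conj_zpowers_inv hd hv, ← mul_inv_rev,
          (commute_zpowers (commute_zpowers hc12 hu).symm hv).eq, he'] at h1
        exact h.line_ne_one L'' (eq_one_of_inv_eq hodd (hord L'') h1.symm)
    have hA3 : r ^ 3 ≤ Nat.card A := by
      obtain ⟨k, hk⟩ := (hR.pgroup.to_le hAR).exists_card_eq
      have hlt : Nat.card A₂ < Nat.card A := by
        rcases (Subgroup.card_le_of_le hle2).lt_or_eq with h1 | h1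
        · exact h1
        · exact absurd (Subgroup.eq_of_le_of_card_ge hle2 h1.ge ▸ hsA'') hnot
      rw [hk] at hlt ⊢
      refine Nat.pow_le_pow_right (by omega) ?_
      by_contra hk3
      have := Nat.pow_le_pow_right (show 1 ≤ r by omega) (show k ≤ 2 by omega)
      omega
    refine ⟨A, ⟨⟨fun t u => Subtype.ext (hAc t t.2 u (hAR u.2))⟩⟩,
      not_isCyclic_of_card hr1 hAe ((Nat.pow_le_pow_right (by omega) (by norm_num)).trans hA3),
      fun b hb hb1 => h.good_of_central hW hR hr2 hr7 hAR hAc hAe hA3 hAE hb hb1, hAR,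
      fun b hb => (hAc b hb x hx).symm⟩
  · -- a nontrivial fixed centre
    obtain ⟨c, hc, hc1⟩ := (Subgroup.bot_or_exists_ne_one Z).resolve_left hZ0
    set S : Set G := (Z : Set G) ∪ {s, s'} with hS
    have hmem : ∀ t ∈ S, t ∈ Z ∨ t = s ∨ t = s' := fun t ht => by
      rcases ht with h1 | h1 | h1
      exacts [Or.inl h1, Or.inr (Or.inl h1), Or.inr (Or.inr h1)]
    have hSR : ∀ t ∈ S, t ∈ R := fun t ht => by
      rcases hmem t ht with h1 | rfl | rfl
      exacts [fixCore_le (hZC t h1), hsR, hsR']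
    have hSr : ∀ t ∈ S, t ^ r = 1 := fun t ht => by
      rcases hmem t ht with h1 | rfl | rfl
      exacts [h1.2.1, hord L, hord L']
    have hScomm : ∀ t ∈ S, ∀ u ∈ S, Commute t u := by
      intro t ht u hu
      rcases hmem t ht with h1 | rfl | rfl <;> rcases hmem u hu with h2 | rfl | rfl
      exacts [h1.2.2 u (hZC u h2), (h.line_comm_fixCore hR L (hZC t h1)).symm,
        (h.line_comm_fixCore hR L' (hZC t h1)).symm, h.line_comm_fixCore hR L (hZC u h2),
        Commute.refl _, hc12, h.line_comm_fixCore hR L' (hZC u h2), hc12.symm, Commute.refl _]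
    set A := Subgroup.closure S with hA
    have hAR : A ≤ R := (Subgroup.closure_le _).2 hSR
    have hAe : ∀ t ∈ A, t ^ r = 1 := closure_pow_eq_one hScomm hSr
    have hAc := closure_commute hScomm
    have hZA : Z ≤ A := fun t ht => Subgroup.subset_closure (Or.inl ht)
    have hsA : s ∈ A := Subgroup.subset_closure (Or.inr (by simp))
    have hsA' : s' ∈ A := Subgroup.subset_closure (Or.inr (by simp))
    -- a good seed
    set B := Subgroup.closure ({c, s} : Set G) with hB
    have hBA : B ≤ A := (Subgroup.closure_le _).2 (by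
      rintro t (rfl | rfl)
      exacts [hZA hc, hsA])
    have hBc : IsMulCommutative B := ⟨⟨fun t u => Subtype.ext (hAc t (hBA t.2) u (hBA u.2))⟩⟩
    have hBfix : ∀ t ∈ B, Commute f t ∧ Commute g t := by
      intro t ht
      induction ht using Subgroup.closure_induction with
      | mem t ht =>
        rcases ht with rfl | rfl
        · exact ⟨fixCore_commute (hZC _ hc) L.hf, fixCore_commute (hZC _ hc) L.hg⟩
        · exact ⟨L.comm_f, L.comm_g⟩
      | one => exact ⟨Commute.one_right _, Commute.one_right _⟩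
      | mul t u _ _ h1 h2 => exact ⟨h1.1.mul_right h2.1, h1.2.mul_right h2.2⟩
      | inv t _ h1 => exact ⟨h1.1.inv_right, h1.2.inv_right⟩
    have hBgood : ∀ b ∈ B, b ≠ 1 → Good E b := fun b hb hb1 =>
      h.good_of_two hb1 L.hf L.hg L.f_ne L.g_ne L.fg_ne (hBfix b hb).1 (hBfix b hb).2
    have hBn : ¬ IsCyclic B := by
      have hne : s ∉ Subgroup.zpowers c := fun hs => by
        obtain ⟨i, hi⟩ := Subgroup.mem_zpowers_iff.1 hs
        exact h.line_e_not_comm hR L (hi ▸ (Commute.zpow_right (fixCore_commute (hZC _ hc) L.he) i))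
      have hle : Subgroup.zpowers c ≤ B := Subgroup.zpowers_le.2 (Subgroup.subset_closure (by simp))
      refine not_isCyclic_of_card hr1 (fun t ht => hAe t (hBA ht)) ?_
      obtain ⟨k, hk⟩ := (hR.pgroup.to_le (hBA.trans hAR)).exists_card_eq
      have hlt : Nat.card (Subgroup.zpowers c) < Nat.card B := by
        rcases (Subgroup.card_le_of_le hle).lt_or_eq with h1 | h1
        · exact h1
        · exact absurd (Subgroup.eq_of_le_of_card_ge hle h1.ge ▸
            (Subgroup.subset_closure (by simp) : s ∈ B)) hne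
      rw [Nat.card_zpowers, orderOf_eq_prime hc.2.1 hc1, hk] at hlt
      rw [hk]
      refine Nat.pow_le_pow_right (by omega) ?_
      by_contra hk2
      have := Nat.pow_le_pow_right (show 1 ≤ r by omega) (show k ≤ 1 by omega)
      rw [pow_one] at this
      omega
    have hgood : ∀ b ∈ A, b ≠ 1 → Good E b := fun b hb hb1 =>
      h.good_of_rich hW hR hr2 hr7 hBc hBn hBgood (hBA.trans hAR) hb1 fun t ht => hAc b hb t (hBA ht)
    -- the centraliser of `x` in `A`
    have hcomm : ∀ t ∈ A, t * x * t⁻¹ * x⁻¹ ∈ Z := by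
      intro t ht
      induction ht using Subgroup.closure_induction with
      | mem t ht =>
        rcases hmem t ht with h1 | rfl | rfl
        exacts [fixCenter_comm_mem h1 hx, h.line_comm_mem hR L hx, h.line_comm_mem hR L' hx]
      | one => simp
      | mul t u htA huA h1 h2 =>
        rw [show t * u * x * (t * u)⁻¹ * x⁻¹ = t * (u * x * u⁻¹ * x⁻¹) * t⁻¹ * (t * x * t⁻¹ * x⁻¹)
          by group]
        exact Z.mul_mem (fixCenter_conj_self h2 (hAR htA)) h1
      | inv t htA h1 =>
        rw [show t⁻¹ * x * t⁻¹⁻¹ * x⁻¹ = t⁻¹ * (t * x * t⁻¹ * x⁻¹)⁻¹ * t⁻¹⁻¹ by group]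
        exact fixCenter_conj_self (Z.inv_mem h1) (R.inv_mem (hAR htA))
    have hcard : r ^ 2 ≤ Nat.card ↥(A ⊓ Subgroup.centralizer ({x} : Set G)) := by
      have h1 := card_mul_le (A := A) hro (hord L) (hord L') L.order L'.order
        (fun t ht => h.line_comm_fixCore hR L (hZC t ht)) (fun t ht => h.line_comm_fixCore hR L' (hZC t ht))
        hc12 has has' (fun t ht => fixCore_commute (hZC t ht) haE) L'.inv_e
        (fun t ht => fixCore_commute (hZC t ht) L'.he) hZA hsA hsA'
      have h2 := h1.trans (le_card_inf_centralizer_mul hcomm)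
      rw [mul_comm (Nat.card ↥(A ⊓ _))] at h2
      exact Nat.le_of_mul_le_mul_left h2 Nat.card_pos
    refine ⟨A ⊓ Subgroup.centralizer ({x} : Set G),
      ⟨⟨fun t u => Subtype.ext (hAc t t.2.1 u u.2.1)⟩⟩,
      not_isCyclic_of_card hr1 (fun t ht => hAe t ht.1) hcard, fun b hb hb1 => hgood b hb.1 hb1,
      inf_le_left.trans hAR, fun b hb => mem_cent.1 hb.2⟩

theorem good_all (hW : core E ≠ ⊥) (hR : InvSylow E r R) (hr2 : r ≠ 2) (hr7 : r ≠ 7)
    (hRE : ¬ R ≤ Subgroup.centralizer (E : Set G)) {x : G} (hx : x ∈ R) (hx1 : x ≠ 1) : Good E x := by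
  obtain ⟨B, hBc, hBn, hB, hBR, hxB⟩ := h.exists_good_rich hW hR hr2 hr7 hRE hx
  exact h.good_of_rich hW hR hr2 hr7 hBc hBn hB hBR hx1 hxB

end Hyp

end CfsgLib.HallNumber.EightSeven
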