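import Cfsg.Agent.Lib.HallNumber.EightSeven.Setup
import Cfsg.Agent.Lib.CoprimeAction.Sylow

/-!
The factorisation `big E = core E · N(E)` and invariant Sylow subgroups of `core E`.
-/

set_option autoImplicit false
open Cfsg
open scoped Pointwise

namespace CfsgLib.HallNumber.EightSeven

variable {G : Type*} [Group G] [Finite G]

theorem odd_of_mem {K : Subgroup G} (hK : Odd (Nat.card K)) {x : G} (hx : x ∈ K) : Odd (orderOf x) :=
  Odd.of_dvd_nat hK (Subgroup.orderOf_dvd_natCard _ hx)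

theorem mem_zpowers_pow_of_coprime {x : G} {k : ℕ} (hc : (orderOf x).Coprime k) :
    x ∈ Subgroup.zpowers (x ^ k) := by
  obtain ⟨m, hm⟩ := exists_pow_eq_self_of_coprime hc.symm
  exact Subgroup.mem_zpowers_iff.2 ⟨m, by rw [zpow_natCast, hm]⟩

namespace Hyp

variable {E : Subgroup G} (h : Hyp E)

include h

theorem orderOf_coprime_card {K : Subgroup G} (hK : Odd (Nat.card K)) :
    (Nat.card E).Coprime (Nat.card K) := by
  rw [h.card_E, show 8 = 2 ^ 3 from rfl]
  exact (Nat.coprime_two_left.2 hK).pow_left 3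

theorem not_isCyclic : ¬ IsCyclic E := by
  intro hc
  have he : Monoid.exponent E ∣ 2 := Monoid.exponent_dvd_of_forall_pow_eq_one fun x =>
    Subtype.ext (by rw [pow_two]; exact h.sq x x.2)
  rw [IsCyclic.exponent_eq_card, h.card_E] at he
  exact absurd (Nat.le_of_dvd (by norm_num) he) (by norm_num)

/-- The elements of odd order in `C(E)` lie in `core E`. -/
theorem centralizer_odd_mem_core {x : G} (hx : x ∈ Subgroup.centralizer (E : Set G))
    (ho : Odd (orderOf x)) : x ∈ core E := by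
  obtain ⟨a, ha, ha1⟩ := h.exists_ne
  exact theta_le_core ha ha1 (mem_theta (Subgroup.mem_centralizer_iff.1 hx a ha) ho)

theorem sq_mem_core {x : G} (hx : x ∈ Subgroup.centralizer (E : Set G)) : x ^ 2 ∈ core E := by
  obtain ⟨a, ha, ha1⟩ := h.exists_ne
  have hxa : x ∈ Subgroup.centralizer ({a} : Set G) :=
    mem_cent.2 (Subgroup.mem_centralizer_iff.1 hx a ha)
  have hEn : E ≤ Subgroup.normalizer (theta a : Set G) := fun e he =>
    CfsgLib.CoprimeAction.mem_normalizer_of_conj_mem fun y hy => by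
      have := map_theta e a
      rw [show e * a * e⁻¹ = a by rw [h.commE he ha, mul_inv_cancel_right]] at this
      rw [← this]
      exact ⟨y, hy, rfl⟩
  have hm := (h.theta_odd_and_le ha ha1).2 hxa
  rw [← SetLike.mem_coe, sup_comm, Subgroup.coe_mul_of_left_le_normalizer_right E (theta a) hEn] at hm
  obtain ⟨e, he, w, hw, rfl⟩ := hm
  have hew : Commute e w := by
    have := Subgroup.mem_centralizer_iff.1 hx e he
    show e * w = w * e
    have h2 : e * (e * w) = e * (w * e) := by rw [← mul_assoc e w e]; exact this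
    exact mul_left_cancel h2
  show (e * w) ^ 2 ∈ core E
  rw [hew.mul_pow, pow_two, h.sq e he, one_mul]
  exact theta_le_core ha ha1 ((theta a).pow_mem hw 2)

/-- The nontrivial elements of `E` have the same orbit under `N(E)`, with stabiliser `C(E)`. -/
theorem index_centralizer :
    ((Subgroup.centralizer (E : Set G)).subgroupOf (Subgroup.normalizer (E : Set G))).index = 7 := by
  classical
  obtain ⟨a, ha, ha1⟩ := h.exists_ne
  set N := Subgroup.normalizer (E : Set G)
  set C := (Subgroup.centralizer (E : Set G)).subgroupOf N with hC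
  have hmem : ∀ n : N, (n : G) * a * (n : G)⁻¹ ∈ E ∧ (n : G) * a * (n : G)⁻¹ ≠ 1 := fun n =>
    ⟨(Subgroup.mem_normalizer_iff.1 n.2 a).1 ha, fun he => ha1 (conj_eq_one_iff.1 he)⟩
  let f : N → {x : G // x ∈ E ∧ x ≠ 1} := fun n => ⟨_, hmem n⟩
  have hf : ∀ m n : N, f m = f n ↔ (QuotientGroup.mk m : N ⧸ C) = QuotientGroup.mk n := by
    intro m n
    rw [QuotientGroup.eq, hC, Subgroup.mem_subgroupOf, Subgroup.coe_mul, Subgroup.coe_inv,
      Subtype.ext_iff]
    show (m : G) * a * (m : G)⁻¹ = n * a * (n : G)⁻¹ ↔ _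
    constructor
    · intro he
      refine h.fpf _ (N.mul_mem (N.inv_mem m.2) n.2) a ha ha1 ?_
      calc (m : G)⁻¹ * n * a = (m : G)⁻¹ * ((n : G) * a * (n : G)⁻¹) * n := by group
        _ = _ := by rw [← he]; group
    · intro hc
      have := Subgroup.mem_centralizer_iff.1 hc a ha
      calc (m : G) * a * (m : G)⁻¹ = m * (a * ((m : G)⁻¹ * n)) * (n : G)⁻¹ := by group
        _ = _ := by rw [this]; group
  let g : N ⧸ C → {x : G // x ∈ E ∧ x ≠ 1} := fun q => Quotient.liftOn' q f fun m n hmn =>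
    (hf m n).2 (Quotient.sound' hmn)
  have hg : Function.Bijective g := by
    constructor
    · intro q q'
      refine Quotient.inductionOn₂' q q' fun m n hmn => (hf m n).1 hmn
    · rintro ⟨b, hb, hb1⟩
      obtain ⟨n, hn, hnb⟩ := h.trans a ha ha1 b hb hb1
      exact ⟨QuotientGroup.mk ⟨n, hn⟩, Subtype.ext hnb⟩
  rw [Subgroup.index, Nat.card_eq_of_bijective g hg]
  have e : {x : G // x ∈ E ∧ x ≠ 1} ≃ {x : E // x ≠ 1} :=
    ⟨fun x => ⟨⟨x, x.2.1⟩, fun he => x.2.2 (congrArg Subtype.val he)⟩,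
      fun x => ⟨x.1, x.1.2, fun he => x.2 (Subtype.ext he)⟩, fun _ => rfl, fun _ => rfl⟩
  rw [Nat.card_congr e]
  haveI := Fintype.ofFinite E
  rw [Nat.card_eq_fintype_card, Fintype.card_subtype_compl, Fintype.card_subtype_eq,
    ← Nat.card_eq_fintype_card, h.card_E]

theorem pow_seven_mem_centralizer {n : G} (hn : n ∈ Subgroup.normalizer (E : Set G)) :
    n ^ 7 ∈ Subgroup.centralizer (E : Set G) := by
  set N := Subgroup.normalizer (E : Set G)
  haveI : ((Subgroup.centralizer (E : Set G)).subgroupOf N).Normal := by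
    refine ⟨fun c hc g => ?_⟩
    rw [Subgroup.mem_subgroupOf, Subgroup.mem_centralizer_iff] at hc ⊢
    intro e he
    simp only [Subgroup.coe_mul, Subgroup.coe_inv]
    have h1 : (g : G)⁻¹ * e * g ∈ E := by
      have := (Subgroup.mem_normalizer_iff.1 (N.inv_mem g.2) e).1 he
      simpa using this
    have := hc _ h1
    calc e * (↑g * ↑c * (↑g)⁻¹) = ↑g * (((↑g)⁻¹ * e * ↑g) * ↑c) * (↑g)⁻¹ := by group
      _ = _ := by rw [this]; group
  have := Subgroup.pow_index_mem ((Subgroup.centralizer (E : Set G)).subgroupOf N) ⟨n, hn⟩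
  rw [h.index_centralizer] at this
  exact this

theorem big_le (hW : core E ≠ ⊥) : big E ≤ core E ⊔ Subgroup.normalizer (E : Set G) := by
  haveI : Fact (Nat.Prime 2) := ⟨Nat.prime_two⟩
  haveI := h.isMulCommutative
  refine CfsgLib.HallNumber.le_of_abelian_sylow (h.solv _ (h.big_ne_top hW)) h.E_le_big h.isPGroup
      h.isMulCommutative (fun hd => h.index_odd (hd.trans (Subgroup.relIndex_dvd_index_of_le h.E_le_big)))
      (fun K hKX hXK hK => le_sup_of_le_left ?_) (inf_le_right.trans le_sup_right)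
  have hKodd : Odd (Nat.card K) := Nat.not_even_iff_odd.1 fun he => hK (even_iff_two_dvd.1 he)
  refine CfsgLib.CoprimeAction.le_of_centralizers h.not_isCyclic (h.E_le_big.trans hXK)
      (h.orderOf_coprime_card hKodd) fun a ha ha1 x hx => ?_
  exact theta_le_core ha ha1 (mem_theta (mem_cent.1 hx.2) (odd_of_mem hKodd hx.1))

theorem mem_centralizer_of_core {x : G} (hx : x ∈ core E)
    (hn : x ∈ Subgroup.normalizer (E : Set G)) : x ∈ Subgroup.centralizer (E : Set G) := by
  rw [Subgroup.mem_centralizer_iff]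
  intro e he
  have h1 : x * e * x⁻¹ * e⁻¹ ∈ E :=
    E.mul_mem ((Subgroup.mem_normalizer_iff.1 hn e).1 he) (E.inv_mem he)
  have h2 : x * e * x⁻¹ * e⁻¹ ∈ core E := by
    have := (Subgroup.mem_normalizer_iff.1 (h.E_le_big he) _).1 ((core E).inv_mem hx)
    have h3 := (core E).mul_mem hx this
    simpa [mul_assoc] using h3
  have h3 : x * e * x⁻¹ * e⁻¹ = 1 := by
    by_contra hne
    have ho := h.orderOf_two h1 hne
    exact absurd (ho ▸ odd_of_mem h.core_odd h2) (by decide)
  calc e * x = (x * e * x⁻¹ * e⁻¹)⁻¹ * (x * e) := by group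
    _ = _ := by rw [h3]; group

theorem mem_big_pow (hW : core E ≠ ⊥) {y : G} (hy : y ∈ big E) : y ^ 14 ∈ core E := by
  have hN : Subgroup.normalizer (E : Set G) ≤ Subgroup.normalizer (core E : Set G) := h.normalizer_le_big
  have hm := h.big_le hW hy
  rw [← SetLike.mem_coe, Subgroup.coe_mul_of_right_le_normalizer_left (core E) _ hN] at hm
  obtain ⟨w, hw, n, hn, rfl⟩ := hm
  haveI : ((core E).subgroupOf (big E)).Normal := Subgroup.normal_subgroupOf_of_le_normalizer le_rfl
  have hn14 : n ^ 14 ∈ core E := by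
    rw [show (14 : ℕ) = 7 * 2 from rfl, pow_mul]
    exact h.sq_mem_core (h.pow_seven_mem_centralizer hn)
  let q := QuotientGroup.mk' ((core E).subgroupOf (big E))
  have hwq : q ⟨w, core_le_big hw⟩ = 1 := (QuotientGroup.eq_one_iff _).2 hw
  have hq : q ((⟨w, core_le_big hw⟩ * ⟨n, h.normalizer_le_big hn⟩ : big E) ^ 14) = 1 := by
    rw [map_pow, map_mul, hwq, one_mul, ← map_pow]
    exact (QuotientGroup.eq_one_iff _).2 hn14
  exact (QuotientGroup.eq_one_iff (N := (core E).subgroupOf (big E)) _).1 hq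

theorem mem_core_of_coprime (hW : core E ≠ ⊥) {y : G} (hy : y ∈ big E)
    (hc : (orderOf y).Coprime 14) : y ∈ core E :=
  Subgroup.zpowers_le.2 (h.mem_big_pow hW hy) (mem_zpowers_pow_of_coprime hc)

/-- An element of `7`-power order normalising but not centralising `E`. -/
theorem exists_seven_element :
    ∃ n ∈ Subgroup.normalizer (E : Set G), n ∉ Subgroup.centralizer (E : Set G) ∧
      ∃ k : ℕ, orderOf n = 7 ^ k := by
  set N := Subgroup.normalizer (E : Set G)
  set C := Subgroup.centralizer (E : Set G)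
  have h7 : 7 ∣ Nat.card N := h.index_centralizer ▸ Subgroup.index_dvd_card _
  haveI : Fact (Nat.Prime 7) := ⟨by norm_num⟩
  obtain ⟨P⟩ : Nonempty (Sylow 7 N) := inferInstance
  by_contra hc
  push Not at hc
  have hPC : (P : Subgroup N) ≤ C.subgroupOf N := by
    intro x hx
    obtain ⟨k, hk⟩ := IsPGroup.iff_orderOf.1 P.2 ⟨x, hx⟩
    rw [Subgroup.orderOf_mk, ← Subgroup.orderOf_coe] at hk
    by_contra hx'
    exact hc x x.2 hx' k hk
  have := Subgroup.index_dvd_of_le hPC
  rw [h.index_centralizer] at this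
  exact P.not_dvd_index this

/-- `R` is an `E`-invariant Sylow `r`-subgroup of `core E`. -/
structure _root_.CfsgLib.HallNumber.EightSeven.InvSylow (E : Subgroup G) (r : ℕ) (R : Subgroup G) :
    Prop where
  le : R ≤ core E
  pgroup : IsPGroup r R
  not_dvd : ¬ r ∣ R.relIndex (core E)
  inv : E ≤ Subgroup.normalizer (R : Set G)

/-- Every `r`-element of `core E` is conjugate in `core E` into an invariant Sylow subgroup. -/
theorem exists_invSylow (r : ℕ) [Fact r.Prime] {x : G} (hx : x ∈ core E) {k : ℕ}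
    (hk : orderOf x = r ^ k) :
    ∃ R : Subgroup G, InvSylow E r R ∧ ∃ w ∈ core E, w * x * w⁻¹ ∈ R := by
  have hsol : Group.IsSolvable (core E) := Cfsg.Agent.S0205.result h.core_odd
  obtain ⟨P, hP⟩ := CfsgLib.CoprimeAction.exists_invariant_sylow (A := E) (K := core E)
    h.E_le_big (h.orderOf_coprime_card h.core_odd) (Or.inr hsol) r
  have hxp : IsPGroup r (Subgroup.zpowers (⟨x, hx⟩ : core E)) :=
    IsPGroup.of_card (n := k) (by rw [Nat.card_zpowers, Subgroup.orderOf_mk, hk])
  obtain ⟨Q, hQ⟩ := hxp.exists_le_sylow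
  obtain ⟨w, hw⟩ := MulAction.exists_smul_eq (core E) Q P
  refine ⟨_, ⟨Subgroup.map_subtype_le _, P.2.map _, ?_, hP⟩, w, w.2,
    ⟨w * ⟨x, hx⟩ * w⁻¹, ?_, rfl⟩⟩
  · rw [Subgroup.relIndex, Subgroup.subgroupOf,
      Subgroup.comap_map_eq_self_of_injective (core E).subtype_injective]
    exact P.not_dvd_index
  · rw [SetLike.mem_coe, ← hw, Sylow.coe_subgroup_smul]
    exact CfsgLib.CoprimeAction.mem_conj_iff.2 (by
      simpa [mul_assoc] using hQ (Subgroup.mem_zpowers _))

/-- `N(E) ∩ N(R)` moves the nontrivial elements of `E` as `N(E)` does. -/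
theorem exists_normalizing (r : ℕ) [Fact r.Prime] {R : Subgroup G} (hR : InvSylow E r R) {n : G}
    (hn : n ∈ Subgroup.normalizer (E : Set G)) :
    ∃ c ∈ core E ⊓ Subgroup.centralizer (E : Set G), c * n ∈ Subgroup.normalizer (R : Set G) := by
  have hsol : Group.IsSolvable (core E) := Cfsg.Agent.S0205.result h.core_odd
  set R' := R.map (MulAut.conj n).toMonoidHom with hR'
  have hR'le : R' ≤ core E := by
    rintro _ ⟨x, hx, rfl⟩
    exact (Subgroup.mem_normalizer_iff.1 (h.normalizer_le_big hn) x).1 (hR.le hx)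
  have hR'inv : E ≤ Subgroup.normalizer (R' : Set G) := by
    intro e he
    refine CfsgLib.CoprimeAction.mem_normalizer_of_conj_mem ?_
    rintro _ ⟨x, hx, rfl⟩
    have he' : n⁻¹ * e * n ∈ E := by
      have := (Subgroup.mem_normalizer_iff.1 (inv_mem hn) e).1 he
      simpa using this
    exact ⟨_, (Subgroup.mem_normalizer_iff.1 (hR.inv he') x).1 hx, by simp [mul_assoc]⟩
  have hc : Nat.card R' = Nat.card R :=
    Subgroup.card_map_of_injective (MulAut.conj n).injective
  let P : Sylow r (core E) := (hR.pgroup.of_equiv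
    (Subgroup.subgroupOfEquivOfLe hR.le).symm).toSylow hR.not_dvd
  have hR'p : IsPGroup r (R'.subgroupOf (core E)) :=
    (hR.pgroup.map _).of_equiv (Subgroup.subgroupOfEquivOfLe hR'le).symm
  have hR'i : ¬ r ∣ (R'.subgroupOf (core E)).index := by
    have e1 := Subgroup.card_mul_index (R'.subgroupOf (core E))
    have e2 := Subgroup.card_mul_index (R.subgroupOf (core E))
    rw [Nat.card_congr (Subgroup.subgroupOfEquivOfLe hR'le).toEquiv, hc] at e1
    rw [Nat.card_congr (Subgroup.subgroupOfEquivOfLe hR.le).toEquiv] at e2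
    rw [Nat.eq_of_mul_eq_mul_left Nat.card_pos (e1.trans e2.symm)]
    exact hR.not_dvd
  let Q : Sylow r (core E) := hR'p.toSylow hR'i
  obtain ⟨c, hc, hcP⟩ := CfsgLib.CoprimeAction.invariant_sylow_conj (A := E) (K := core E) h.E_le_big
    (h.orderOf_coprime_card h.core_odd) (Or.inr hsol) Q P
    (by rw [show (Q : Subgroup (core E)).map (core E).subtype = R' from
      Subgroup.map_subgroupOf_eq_of_le hR'le]; exact hR'inv)
    (by rw [show (P : Subgroup (core E)).map (core E).subtype = R from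
      Subgroup.map_subgroupOf_eq_of_le hR.le]; exact hR.inv)
  refine ⟨c, ⟨c.2, hc⟩, CfsgLib.CoprimeAction.mem_normalizer_of_conj_mem fun x hx => ?_⟩
  have hx' : n * x * n⁻¹ ∈ R' := ⟨x, hx, rfl⟩
  have h1 : (⟨n * x * n⁻¹, hR'le hx'⟩ : core E) ∈ (Q : Subgroup (core E)) := hx'
  have h2 : c * ⟨n * x * n⁻¹, hR'le hx'⟩ * c⁻¹ ∈ (P : Subgroup (core E)) := by
    rw [← hcP]
    exact CfsgLib.CoprimeAction.mem_conj_iff.2 (by simpa [mul_assoc] using h1)
  have h3 : (c : G) * (n * x * n⁻¹) * (c : G)⁻¹ ∈ R := h2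
  simpa [mul_assoc] using h3

theorem invSylow_conj (r : ℕ) [Fact r.Prime] {R : Subgroup G} (hR : InvSylow E r R) :
    ∃ n ∈ Subgroup.normalizer (E : Set G) ⊓ Subgroup.normalizer (R : Set G),
      n ∉ Subgroup.centralizer (E : Set G) ∧ ∃ k : ℕ, orderOf n = 7 ^ k := by
  obtain ⟨n₀, hn₀, hn₀C, -⟩ := h.exists_seven_element
  obtain ⟨c, hc, hcn⟩ := h.exists_normalizing r hR hn₀
  set K := Subgroup.normalizer (E : Set G) ⊓ Subgroup.normalizer (R : Set G)
  have hcnK : c * n₀ ∈ K :=
    ⟨(Subgroup.normalizer (E : Set G)).mul_mem (Subgroup.centralizer_le_normalizer _ hc.2) hn₀, hcn⟩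
  by_contra hno
  push Not at hno
  set C := Subgroup.centralizer (E : Set G)
  have h7 : (c * n₀) ^ 7 ∈ C := h.pow_seven_mem_centralizer hcnK.1
  obtain ⟨k, m, hm7, hkm⟩ :=
    Nat.exists_eq_pow_mul_and_not_dvd (orderOf_pos (c * n₀)).ne' 7 (by norm_num)
  have hm : (c * n₀) ^ m ∈ C := by
    by_contra hmC
    refine hno _ (K.pow_mem hcnK m) hmC k ?_
    rw [orderOf_pow, hkm, Nat.gcd_eq_right (Dvd.intro_left _ rfl), Nat.mul_div_cancel _
      (Nat.pos_of_ne_zero fun h0 => hm7 (by subst h0; exact dvd_zero 7))]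
  have hcop : Nat.Coprime m 7 := (Nat.Prime.coprime_iff_not_dvd (by norm_num)).2 hm7 |>.symm
  have h1 : c * n₀ ∈ C := by
    have e : ((c * n₀) ^ m) ^ (Nat.gcdA m 7) * ((c * n₀) ^ 7) ^ (Nat.gcdB m 7) = c * n₀ := by
      rw [← zpow_natCast, ← zpow_natCast, ← zpow_mul, ← zpow_mul, ← zpow_add,
        ← Nat.gcd_eq_gcd_ab, hcop, Nat.cast_one, zpow_one]
    rw [← e]
    exact C.mul_mem (C.zpow_mem hm _) (C.zpow_mem h7 _)
  apply hn₀C
  have := C.mul_mem (C.inv_mem hc.2) h1
  simpa using this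

end Hyp

end CfsgLib.HallNumber.EightSeven
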