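import Cfsg.Agent.Lib.HallNumber.EightSeven.Seven

/-!
`core E` meets its conjugates by elements outside `big E` trivially.
-/

set_option autoImplicit false
open Cfsg
open scoped Pointwise

namespace CfsgLib.HallNumber.EightSeven

variable {G : Type*} [Group G] [Finite G]

namespace Hyp

variable {E : Subgroup G} (h : Hyp E)

include h

theorem normalizer_big_le (hW : core E ≠ ⊥) : Subgroup.normalizer (big E : Set G) ≤ big E := by
  obtain ⟨a, ha, ha1⟩ := h.exists_ne
  have hne : big E ≠ ⊥ := fun h0 => ha1 (Subgroup.mem_bot.1 (h0 ▸ h.E_le_big ha))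
  refine h.le_big_of_E (h.normalizer_ne_top hne (h.big_ne_top hW)) (big E).one_mem fun b hb => ?_
  rw [one_mul, inv_one, mul_one]
  exact Subgroup.le_normalizer (h.E_le_big hb)

theorem mem_big_of_map_le (hW : core E ≠ ⊥) {g : G}
    (hg : (big E).map (MulAut.conj g).toMonoidHom ≤ big E) : g ∈ big E :=
  h.normalizer_big_le hW (CfsgLib.CoprimeAction.mem_normalizer_of_conj_mem fun x hx => hg ⟨x, hx, rfl⟩)

theorem map_big_ne_top (hW : core E ≠ ⊥) (g : G) : (big E).map (MulAut.conj g).toMonoidHom ≠ ⊤ := by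
  intro ht
  apply h.big_ne_top hW
  apply Subgroup.eq_top_of_card_eq
  rw [← Subgroup.card_top (G := G), ← ht, Subgroup.card_map_of_injective (MulAut.conj g).injective]

theorem good_of_centralizes {x : G} (hx : x ∈ Subgroup.centralizer (E : Set G)) (hx1 : x ≠ 1) :
    Good E x := by
  refine h.le_big_of_E (h.centralizer_ne_top hx1) (big E).one_mem fun a ha => ?_
  rw [one_mul, inv_one, mul_one]
  exact mem_cent.2 (Subgroup.mem_centralizer_iff.1 hx a ha).symm

variable {r : ℕ} [Fact r.Prime] {R : Subgroup G}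

theorem centralizes_or_rich (hW : core E ≠ ⊥) (hR : InvSylow E r R) (hr2 : r ≠ 2) :
    R ≤ Subgroup.centralizer (E : Set G) ∨ (r ≠ 7 ∧ ¬ R ≤ Subgroup.centralizer (E : Set G)) := by
  by_cases hRE : R ≤ Subgroup.centralizer (E : Set G)
  · exact Or.inl hRE
  · refine Or.inr ⟨?_, hRE⟩
    rintro rfl
    exact hRE (h.seven_le_centralizer hR)

theorem good_of_mem (hW : core E ≠ ⊥) (hR : InvSylow E r R) (hr2 : r ≠ 2) {x : G} (hx : x ∈ R)
    (hx1 : x ≠ 1) : Good E x := by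
  rcases h.centralizes_or_rich hW hR hr2 with h1 | ⟨h7, h1⟩
  · exact h.good_of_centralizes (h1 hx) hx1
  · exact h.good_all hW hR hr2 h7 h1 hx hx1

/-- Two conjugate nontrivial elements of invariant Sylow subgroups are conjugate only inside `big E`,
when one of the subgroups is not centralised by `E`. -/
theorem mem_big_of_rich (hW : core E ≠ ⊥) (hR : InvSylow E r R) (hr2 : r ≠ 2) (h7 : r ≠ 7)
    (hRE : ¬ R ≤ Subgroup.centralizer (E : Set G)) {R' : Subgroup G} (hR' : InvSylow E r R') {x g : G}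
    (hx : x ∈ R) (hx1 : x ≠ 1) (hx' : g⁻¹ * x * g ∈ R') : g ∈ big E := by
  obtain ⟨B, hBc, hBn, hB, hBR, hxB⟩ := h.exists_good_rich hW hR hr2 h7 hRE hx
  have hgood : Good E (g⁻¹ * x * g) := h.good_of_mem hW hR' hr2 hx' fun h1 => hx1 (by
    calc x = g * (g⁻¹ * x * g) * g⁻¹ := by group
      _ = 1 := by rw [h1, mul_one, mul_inv_cancel])
  have hBX : B ≤ (big E).map (MulAut.conj g).toMonoidHom := fun b hb => by
    refine ⟨g⁻¹ * b * g, hgood (mem_cent.2 ?_), by simp [mul_assoc]⟩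
    calc g⁻¹ * x * g * (g⁻¹ * b * g) = g⁻¹ * (x * b) * g := by group
      _ = _ := by rw [hxB b hb]; group
  exact h.mem_big_of_map_le hW (h.le_big_rich hW hR hr2 h7 hBc hBn hB B (hR.pgroup.to_le hBR)
    (hBR.trans (hR.le.trans core_le_big)) le_rfl _ (h.map_big_ne_top hW g) hBX)

theorem mem_big_of_invSylow (hW : core E ≠ ⊥) (hR : InvSylow E r R) (hr2 : r ≠ 2) {R' : Subgroup G}
    (hR' : InvSylow E r R') {x g : G} (hx : x ∈ R) (hx1 : x ≠ 1) (hx' : g⁻¹ * x * g ∈ R') :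
    g ∈ big E := by
  rcases h.centralizes_or_rich hW hR hr2 with h1 | ⟨h7, h1⟩
  swap
  · exact h.mem_big_of_rich hW hR hr2 h7 h1 hR' hx hx1 hx'
  have hx'1 : g⁻¹ * x * g ≠ 1 := fun h2 => hx1 (by
    calc x = g * (g⁻¹ * x * g) * g⁻¹ := by group
      _ = 1 := by rw [h2, mul_one, mul_inv_cancel])
  rcases h.centralizes_or_rich hW hR' hr2 with h2 | ⟨h7, h2⟩
  swap
  · have := h.mem_big_of_rich hW hR' hr2 h7 h2 hR (g := g⁻¹) hx' hx'1 (by simpa [mul_assoc] using hx)
    simpa using inv_mem this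
  -- both elements centralise `E`
  obtain ⟨a, b, ha, hb, ha2, hb2, hne⟩ := h.exists_pair
  have hmem : ∀ c ∈ E, g * c * g⁻¹ ∈ big E := fun c hc => h.good_of_centralizes (h1 hx) hx1 (mem_cent.2 (by
    have := Subgroup.mem_centralizer_iff.1 (h2 hx') c hc
    calc x * (g * c * g⁻¹) = g * ((g⁻¹ * x * g) * c) * g⁻¹ := by group
      _ = _ := by rw [← this]; group))
  refine h.mem_big_of_map_le hW (h.le_big (h.map_big_ne_top hW g) ⟨a, h.E_le_big ha, rfl⟩
    ⟨b, h.E_le_big hb, rfl⟩ (hmem a ha) (hmem b hb) ?_ ?_ ?_ ?_)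
  · rw [← ha2]; exact CfsgLib.Involutions.orderOf_conj g a
  · rw [← hb2]; exact CfsgLib.Involutions.orderOf_conj g b
  · show g * a * g⁻¹ * (g * b * g⁻¹) = g * b * g⁻¹ * (g * a * g⁻¹)
    calc g * a * g⁻¹ * (g * b * g⁻¹) = g * (a * b) * g⁻¹ := by group
      _ = _ := by rw [h.commE ha hb]; group
  · intro he
    exact hne (mul_left_cancel (mul_right_cancel he))

omit [Fact r.Prime] in
/-- `core E` is a TI subgroup with normalizer `big E`. -/
theorem eq_one_of_mem_conj (hW : core E ≠ ⊥) {g x : G} (hg : g ∉ big E) (hx : x ∈ core E)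
    (hx' : g⁻¹ * x * g ∈ core E) : x = 1 := by
  by_contra hx1
  obtain ⟨r, hr, hrd⟩ := Nat.exists_prime_and_dvd (fun h1 => hx1 (orderOf_eq_one_iff.1 h1))
  haveI := Fact.mk hr
  set y := x ^ (orderOf x / r) with hy
  have hyo : orderOf y = r := by
    rw [hy, orderOf_pow, Nat.gcd_eq_right (Nat.div_dvd_of_dvd hrd), Nat.div_div_self hrd (orderOf_pos x).ne']
  have hyW : y ∈ core E := pow_mem hx _
  have hyW' : g⁻¹ * y * g ∈ core E := by
    have := pow_mem hx' (orderOf x / r)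
    have e : (g⁻¹ * x * g) ^ (orderOf x / r) = g⁻¹ * y * g := by
      rw [show g⁻¹ * x * g = g⁻¹ * x * g⁻¹⁻¹ by rw [inv_inv], conj_pow, inv_inv, hy]
    rwa [e] at this
  have hr2 : r ≠ 2 := by
    rintro rfl
    exact absurd (hyo ▸ odd_of_mem h.core_odd hyW) (by decide)
  obtain ⟨R, hR, w, hw, hwR⟩ := h.exists_invSylow r hyW (k := 1) (by rw [hyo, pow_one])
  obtain ⟨R', hR', w', hw', hwR'⟩ := h.exists_invSylow r hyW' (k := 1) (by
    rw [show g⁻¹ * y * g = g⁻¹ * y * g⁻¹⁻¹ by rw [inv_inv], CfsgLib.Involutions.orderOf_conj, hyo, pow_one])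
  have hgm := h.mem_big_of_invSylow hW hR hr2 hR' (g := w * g * w'⁻¹) hwR ?_ ?_
  · apply hg
    have := mul_mem (mul_mem (inv_mem (core_le_big hw : w ∈ big E)) hgm) (core_le_big hw' : w' ∈ big E)
    simpa [mul_assoc] using this
  · intro h1
    rw [conj_eq_one_iff] at h1
    rw [h1, orderOf_one] at hyo
    exact hr.ne_one hyo.symm
  · rwa [show (w * g * w'⁻¹)⁻¹ * (w * y * w⁻¹) * (w * g * w'⁻¹) = w' * (g⁻¹ * y * g) * w'⁻¹ by group]

end Hyp

end CfsgLib.HallNumber.EightSeven
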