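import Cfsg.Agent.Lib.HallNumber.EightSeven.Index

/-!
An invariant Sylow subgroup not centralised by `E`: lines inverted by one element of `E` and fixed by a
four-group, central in `R` modulo the part of `R` centralised by `E`.
-/

set_option autoImplicit false
open Cfsg
open scoped Pointwise

namespace CfsgLib.HallNumber.EightSeven

variable {G : Type*} [Group G] [Finite G]

/-- The elements of `R` all of whose `R`-conjugates centralise `E`. -/
def fixCore (E R : Subgroup G) : Subgroup G :=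
  R ⊓ ⨅ x : R, (Subgroup.centralizer (E : Set G)).comap (MulAut.conj (x : G)).toMonoidHom

omit [Finite G] in
theorem mem_fixCore {E R : Subgroup G} {y : G} :
    y ∈ fixCore E R ↔ y ∈ R ∧ ∀ x ∈ R, x * y * x⁻¹ ∈ Subgroup.centralizer (E : Set G) := by
  simp [fixCore, Subgroup.mem_iInf]

omit [Finite G] in
theorem fixCore_commute {E R : Subgroup G} {y a : G} (hy : y ∈ fixCore E R) (ha : a ∈ E) :
    a * y = y * a := by
  have := (mem_fixCore.1 hy).2 1 R.one_mem
  rw [one_mul, inv_one, mul_one] at this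
  exact Subgroup.mem_centralizer_iff.1 this a ha

omit [Finite G] in
theorem fixCore_conj {E R : Subgroup G} {y n : G} (hy : y ∈ fixCore E R)
    (hE : n ∈ Subgroup.normalizer (E : Set G)) (hR : n ∈ Subgroup.normalizer (R : Set G)) :
    n * y * n⁻¹ ∈ fixCore E R := by
  obtain ⟨hyR, hy'⟩ := mem_fixCore.1 hy
  refine mem_fixCore.2 ⟨(Subgroup.mem_normalizer_iff.1 hR y).1 hyR, fun x hx => ?_⟩
  have h1 : n⁻¹ * x * n ∈ R := by
    simpa using (Subgroup.mem_normalizer_iff.1 (inv_mem hR) x).1 hx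
  rw [Subgroup.mem_centralizer_iff]
  intro a ha
  have h2 : n⁻¹ * a * n ∈ E := by
    simpa using (Subgroup.mem_normalizer_iff.1 (inv_mem hE) a).1 ha
  have h3 := Subgroup.mem_centralizer_iff.1 (hy' _ h1) _ h2
  calc a * (x * (n * y * n⁻¹) * x⁻¹)
      = n * ((n⁻¹ * a * n) * (n⁻¹ * x * n * y * (n⁻¹ * x * n)⁻¹)) * n⁻¹ := by group
    _ = _ := by rw [h3]; group

omit [Finite G] in
theorem fixCore_conj_self {E R : Subgroup G} {y x : G} (hy : y ∈ fixCore E R) (hx : x ∈ R) :
    x * y * x⁻¹ ∈ fixCore E R := by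
  obtain ⟨hyR, hy'⟩ := mem_fixCore.1 hy
  refine mem_fixCore.2 ⟨R.mul_mem (R.mul_mem hx hyR) (R.inv_mem hx), fun z hz => ?_⟩
  have := hy' _ (R.mul_mem hz hx)
  rwa [mul_inv_rev, show z * x * y * (x⁻¹ * z⁻¹) = z * (x * y * x⁻¹) * z⁻¹ by group] at this

/-- The elements of `R` central modulo `fixCore E R`. -/
def midCore (E R : Subgroup G) : Subgroup G where
  carrier := {y | y ∈ R ∧ ∀ x ∈ R, y * x * y⁻¹ * x⁻¹ ∈ fixCore E R}
  one_mem' := ⟨R.one_mem, fun x _ => by simp⟩
  mul_mem' := by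
    rintro a b ⟨ha, ha'⟩ ⟨hb, hb'⟩
    refine ⟨R.mul_mem ha hb, fun x hx => ?_⟩
    rw [show a * b * x * (a * b)⁻¹ * x⁻¹ = a * (b * x * b⁻¹ * x⁻¹) * a⁻¹ * (a * x * a⁻¹ * x⁻¹) by group]
    exact (fixCore E R).mul_mem (fixCore_conj_self (hb' x hx) ha) (ha' x hx)
  inv_mem' := by
    rintro a ⟨ha, ha'⟩
    refine ⟨R.inv_mem ha, fun x hx => ?_⟩
    have := fixCore_conj_self ((fixCore E R).inv_mem (ha' x hx)) (R.inv_mem ha)
    rwa [show a⁻¹ * (a * x * a⁻¹ * x⁻¹)⁻¹ * a⁻¹⁻¹ = a⁻¹ * x * a⁻¹⁻¹ * x⁻¹ by group] at this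

/-- The elements of order dividing `r` in the centre of `fixCore E R`. -/
def fixCenter (E R : Subgroup G) (r : ℕ) : Subgroup G where
  carrier := {c | c ∈ fixCore E R ∧ c ^ r = 1 ∧ ∀ d ∈ fixCore E R, Commute c d}
  one_mem' := ⟨(fixCore E R).one_mem, one_pow _, fun d _ => Commute.one_left d⟩
  mul_mem' := by
    rintro a b ⟨ha, ha', ha''⟩ ⟨hb, hb', hb''⟩
    refine ⟨(fixCore E R).mul_mem ha hb, ?_, fun d hd => (ha'' d hd).mul_left (hb'' d hd)⟩
    rw [(ha'' b hb).mul_pow, ha', hb', one_mul]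
  inv_mem' := by
    rintro a ⟨ha, ha', ha''⟩
    exact ⟨(fixCore E R).inv_mem ha, by rw [inv_pow, ha', inv_one], fun d hd => (ha'' d hd).inv_left⟩

/-- `s` is an element of order `r` of `midCore E R` fixed by the four-group `{1, f, g, fg} ≤ E` and
inverted by `e ∈ E`. -/
structure Line (E R : Subgroup G) (r : ℕ) (s f g e : G) : Prop where
  mem : s ∈ midCore E R
  order : orderOf s = r
  hf : f ∈ E
  hg : g ∈ E
  he : e ∈ E
  f_ne : f ≠ 1
  g_ne : g ≠ 1
  fg_ne : f ≠ g
  comm_f : Commute f s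
  comm_g : Commute g s
  inv_e : e * s * e⁻¹ = s⁻¹

omit [Finite G] in
theorem eq_one_of_inv_eq {x : G} {r : ℕ} (hr : ¬ 2 ∣ r) (hx : x ^ r = 1) (h : x⁻¹ = x) : x = 1 := by
  obtain ⟨k, rfl⟩ : Odd r := Nat.not_even_iff_odd.1 fun he => hr (even_iff_two_dvd.1 he)
  have h2 : x * x = 1 := by
    nth_rewrite 1 [← h]
    exact inv_mul_cancel x
  rwa [pow_succ, pow_mul, pow_two, h2, one_pow, one_mul] at hx

omit [Finite G] in
theorem eq_of_sq_commute {s c : G} {r : ℕ} (hr : Odd r) (hs : s ^ r = 1) (h : Commute (s * s) c) :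
    Commute s c := by
  obtain ⟨k, rfl⟩ := hr
  have e : s = (s * s) ^ (k + 1) := by
    rw [← pow_two, ← pow_mul, show 2 * (k + 1) = (2 * k + 1) + 1 by ring, pow_succ, hs, one_mul]
  rw [e]
  exact h.pow_left _

namespace Hyp

variable {E : Subgroup G} (h : Hyp E)

include h

theorem inv_E {a : G} (ha : a ∈ E) : a⁻¹ = a := inv_eq_of_mul_eq_one_left (h.sq a ha)

/-- Three elements of `E` outside one another's span generate `E`. -/
theorem closure_three {f g e : G} (hf : f ∈ E) (hg : g ∈ E) (he : e ∈ E) (hf1 : f ≠ 1) (hg1 : g ≠ 1)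
    (hfg : f ≠ g) (he1 : e ≠ 1) (hef : e ≠ f) (heg : e ≠ g) (hefg : e ≠ f * g) :
    E ≤ Subgroup.closure ({f, g, e} : Set G) := by
  classical
  set K := Subgroup.closure ({f, g, e} : Set G) with hK
  have hKE : K ≤ E := (Subgroup.closure_le _).2 (by rintro x (rfl | rfl | rfl) <;> assumption)
  have hfK : f ∈ K := Subgroup.subset_closure (by simp)
  have hgK : g ∈ K := Subgroup.subset_closure (by simp)
  have heK : e ∈ K := Subgroup.subset_closure (by simp)
  have hfg1 : f * g ≠ 1 := fun he' => hfg (by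
    rw [mul_eq_one_iff_eq_inv.1 he', h.inv_E hg])
  have hfgf : f * g ≠ f := fun he' => hg1 (mul_left_cancel (he'.trans (mul_one f).symm))
  have hfgg : f * g ≠ g := fun he' => hf1 (mul_right_cancel (he'.trans (one_mul g).symm))
  let s : Finset G := {1, f, g, f * g, e}
  have hs : s.card = 5 := by
    simp [s, hf1.symm, hg1.symm, hfg1.symm, he1.symm, hfg, hfgf.symm, hfgg.symm, hef.symm, heg.symm,
      hefg.symm]
  have h5 : 5 ≤ Nat.card K := by
    rw [← hs, ← Nat.card_eq_finsetCard s]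
    refine Nat.card_le_card_of_injective (fun x => ⟨x.1, ?_⟩)
      (fun x y hxy => Subtype.ext (congrArg (fun z : K => (z : G)) hxy))
    have := x.2
    simp only [s, Finset.mem_insert, Finset.mem_singleton] at this
    rcases this with e' | e' | e' | e' | e' <;> rw [e']
    exacts [K.one_mem, hfK, hgK, K.mul_mem hfK hgK, heK]
  have hd := Subgroup.card_dvd_of_le hKE
  rw [h.card_E] at hd
  refine (Subgroup.eq_of_le_of_card_ge hKE ?_).ge
  rw [h.card_E]
  have hle := Nat.le_of_dvd (by norm_num) hd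
  interval_cases (Nat.card K) <;> omega

variable {r : ℕ} [Fact r.Prime] {R : Subgroup G}

theorem odd_r {s : G} (hR : InvSylow E r R) (hs : s ∈ R) (hs1 : s ≠ 1) : Odd r := by
  rcases (Fact.out : r.Prime).eq_two_or_odd' with rfl | ho
  · obtain ⟨k, hk⟩ := IsPGroup.iff_orderOf.1 hR.pgroup ⟨s, hs⟩
    rw [Subgroup.orderOf_mk] at hk
    have ho := odd_of_mem h.core_odd (hR.le hs)
    rw [hk] at ho
    rcases Nat.eq_zero_or_pos k with rfl | hk0
    · exact absurd (orderOf_eq_one_iff.1 (by rw [hk, pow_zero])) hs1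
    · exact absurd ho (Nat.not_odd_iff_even.2 ((Nat.even_pow.2 ⟨even_two, hk0.ne'⟩)))
  · exact ho

omit h in
theorem midCore_le : midCore E R ≤ R := fun _ hy => hy.1

omit h in
theorem fixCore_le : fixCore E R ≤ R := fun _ hy => (mem_fixCore.1 hy).1

omit h [Fact r.Prime] in
theorem fixCore_le_midCore : fixCore E R ≤ midCore E R := fun y hy =>
  ⟨(mem_fixCore.1 hy).1, fun x hx => by
    rw [show y * x * y⁻¹ * x⁻¹ = y * (x * y⁻¹ * x⁻¹) by group]
    exact (fixCore E R).mul_mem hy (fixCore_conj_self ((fixCore E R).inv_mem hy) hx)⟩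

omit h in
theorem midCore_not_le (hR : InvSylow E r R) (hRE : ¬ R ≤ Subgroup.centralizer (E : Set G)) :
    ¬ midCore E R ≤ Subgroup.centralizer (E : Set G) := by
  intro hle
  have hUC : midCore E R ≤ fixCore E R := fun y hy => mem_fixCore.2 ⟨hy.1, fun x hx => by
    refine hle ?_
    rw [show x * y * x⁻¹ = (y * x * y⁻¹ * x⁻¹)⁻¹ * y by group]
    exact (midCore E R).mul_mem ((midCore E R).inv_mem (fixCore_le_midCore (hy.2 x hx))) hy⟩
  set C0 := (fixCore E R).subgroupOf R with hC0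
  haveI : C0.Normal := ⟨fun y hy x => by
    rw [hC0, Subgroup.mem_subgroupOf] at hy ⊢
    simpa using fixCore_conj_self hy x.2⟩
  have hne : C0 ≠ ⊤ := fun ht => hRE fun x hx => by
    have : (⟨x, hx⟩ : R) ∈ C0 := ht ▸ Subgroup.mem_top _
    rw [hC0, Subgroup.mem_subgroupOf] at this
    have := (mem_fixCore.1 this).2 1 R.one_mem
    simpa using this
  haveI : Nontrivial (R ⧸ C0) := QuotientGroup.nontrivial_iff.2 hne
  haveI := (hR.pgroup.to_quotient C0).center_nontrivial
  obtain ⟨⟨q, hq⟩, hq1⟩ := _root_.exists_ne (1 : Subgroup.center (R ⧸ C0))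
  obtain ⟨y, rfl⟩ := QuotientGroup.mk'_surjective C0 q
  apply hq1
  apply Subtype.ext
  show (QuotientGroup.mk y : R ⧸ C0) = 1
  rw [QuotientGroup.eq_one_iff, hC0, Subgroup.mem_subgroupOf]
  refine hUC ⟨y.2, fun x hx => ?_⟩
  have hc := Subgroup.mem_center_iff.1 hq (QuotientGroup.mk ⟨x, hx⟩)
  have h2 : (QuotientGroup.mk (y * ⟨x, hx⟩ * y⁻¹ * ⟨x, hx⟩⁻¹) : R ⧸ C0) = 1 := by
    simp only [QuotientGroup.mk'_apply] at hc
    rw [QuotientGroup.mk_mul, QuotientGroup.mk_mul, QuotientGroup.mk_mul, QuotientGroup.mk_inv,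
      QuotientGroup.mk_inv, ← hc]
    group
  rw [QuotientGroup.eq_one_iff, hC0, Subgroup.mem_subgroupOf] at h2
  exact h2

omit h in
theorem midCore_conj {y n : G} (hy : y ∈ midCore E R) (hE : n ∈ Subgroup.normalizer (E : Set G))
    (hR : n ∈ Subgroup.normalizer (R : Set G)) : n * y * n⁻¹ ∈ midCore E R := by
  refine ⟨(Subgroup.mem_normalizer_iff.1 hR y).1 hy.1, fun x hx => ?_⟩
  have h1 : n⁻¹ * x * n ∈ R := by
    simpa using (Subgroup.mem_normalizer_iff.1 (inv_mem hR) x).1 hx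
  have := fixCore_conj (hy.2 _ h1) hE hR
  rwa [show n * (y * (n⁻¹ * x * n) * y⁻¹ * (n⁻¹ * x * n)⁻¹) * n⁻¹ =
    n * y * n⁻¹ * x * (n * y * n⁻¹)⁻¹ * x⁻¹ by group] at this

/-- A line exists. -/
theorem exists_line (hR : InvSylow E r R) (hRE : ¬ R ≤ Subgroup.centralizer (E : Set G)) :
    ∃ s f g e : G, Line E R r s f g e := by
  classical
  haveI := h.isMulCommutative
  have hodd : Odd (Nat.card (midCore E R)) :=
    Odd.of_dvd_nat h.core_odd (Subgroup.card_dvd_of_le ((midCore_le (E := E) (R := R)).trans hR.le))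
  have hEU : E ≤ Subgroup.normalizer (midCore E R : Set G) := fun a ha =>
    CfsgLib.CoprimeAction.mem_normalizer_of_conj_mem fun y hy =>
      midCore_conj hy (Subgroup.le_normalizer ha) (hR.inv ha)
  -- an element of `E` with a noncentral fixed element in `midCore`
  obtain ⟨f, hfE, hf1, y₁, hy₁, hy₁f, hy₁C⟩ : ∃ f ∈ E, f ≠ 1 ∧ ∃ y ∈ midCore E R,
      Commute f y ∧ y ∉ Subgroup.centralizer (E : Set G) := by
    by_contra hno
    push Not at hno
    exact midCore_not_le hR hRE (CfsgLib.CoprimeAction.le_of_centralizers h.not_isCyclic hEU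
      (h.orderOf_coprime_card hodd) fun a ha ha1 y hy => hno a ha ha1 y hy.1 (mem_cent.1 hy.2))
  -- two further generators
  obtain ⟨a, haE, ha1, haf⟩ : ∃ a ∈ E, a ≠ 1 ∧ a ≠ f := by
    by_contra hno
    push Not at hno
    have hle : E ≤ Subgroup.zpowers f := fun x hx => by
      by_cases hx1 : x = 1
      · rw [hx1]; exact Subgroup.one_mem _
      · rw [hno x hx hx1]; exact Subgroup.mem_zpowers f
    have hd := Subgroup.card_dvd_of_le hle
    rw [h.card_E, Nat.card_zpowers, h.orderOf_two hfE hf1] at hd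
    norm_num at hd
  obtain ⟨b, hbE, hb1, hbf, hba, hbfa⟩ : ∃ b ∈ E, b ≠ 1 ∧ b ≠ f ∧ b ≠ a ∧ b ≠ f * a := by
    by_contra hno
    push Not at hno
    let t : Finset G := {1, f, a, f * a}
    have hsub : (E : Set G) ⊆ (t : Set G) := fun x hx => by
      simp only [t, Finset.coe_insert, Finset.coe_singleton, Set.mem_insert_iff, Set.mem_singleton_iff]
      by_cases h1 : x = 1
      · exact Or.inl h1
      by_cases h2 : x = f
      · exact Or.inr (Or.inl h2)
      by_cases h3 : x = a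
      · exact Or.inr (Or.inr (Or.inl h3))
      exact Or.inr (Or.inr (Or.inr (hno x hx h1 h2 h3)))
    have h4 : t.card ≤ 4 := Finset.card_le_four
    have := Nat.card_mono (Finset.finite_toSet t) hsub
    rw [show Nat.card (t : Set G) = t.card from Nat.card_eq_finsetCard t] at this
    have hc : Nat.card (E : Set G) = 8 := h.card_E
    omega
  let A : Subgroup G :=
    { carrier := {1, a, b, a * b}
      one_mem' := by simp
      mul_mem' := by
        intro x y hx hy
        have e1 := h.sq a haE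
        have e2 := h.sq b hbE
        have e3 := h.commE hbE haE
        have e4 : a * (a * b) = b := by rw [← mul_assoc, e1, one_mul]
        have e5 : b * (a * b) = a := by rw [← mul_assoc, e3, mul_assoc, e2, mul_one]
        simp only [Set.mem_insert_iff, Set.mem_singleton_iff] at hx hy ⊢
        rcases hx with rfl | rfl | rfl | rfl <;> rcases hy with rfl | rfl | rfl | rfl <;>
          simp [mul_assoc, e1, e2, e3, e4, e5]
      inv_mem' := by
        intro x hx
        simp only [Set.mem_insert_iff, Set.mem_singleton_iff] at hx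
        rcases hx with rfl | rfl | rfl | rfl
        · simp
        · rw [h.inv_E haE]; simp
        · rw [h.inv_E hbE]; simp
        · rw [h.inv_E (E.mul_mem haE hbE)]; simp }
  have hmemA : ∀ x ∈ A, x = 1 ∨ x = a ∨ x = b ∨ x = a * b := fun x hx => hx
  have hAE : A ≤ E := fun x hx => by
    rcases hmemA x hx with rfl | rfl | rfl | rfl
    exacts [E.one_mem, haE, hbE, E.mul_mem haE hbE]
  have hnc : ¬ IsCyclic A := by
    intro hc
    have he : Monoid.exponent A ∣ 2 := Monoid.exponent_dvd_of_forall_pow_eq_one fun x =>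
      Subtype.ext (by rw [pow_two]; exact h.sq x (hAE x.2))
    rw [IsCyclic.exponent_eq_card] at he
    have h3 : 3 ≤ Nat.card A := by
      have hi : Function.Injective (![⟨1, A.one_mem⟩, ⟨a, show a ∈ A from Or.inr (Or.inl rfl)⟩,
          ⟨b, show b ∈ A from Or.inr (Or.inr (Or.inl rfl))⟩] : Fin 3 → A) := by
        intro i j hij
        fin_cases i <;> fin_cases j <;>
          simp [Subtype.ext_iff, ha1, ha1.symm, hb1, hb1.symm, hba, hba.symm] at hij ⊢
      simpa using Nat.card_le_card_of_injective _ hi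
    exact absurd (Nat.le_of_dvd (by norm_num) he) (by omega)
  have hfA : f ∉ A := fun hf => by
    rcases hmemA f hf with e | e | e | e
    · exact hf1 e
    · exact haf e.symm
    · exact hbf e.symm
    · refine hbfa ?_
      rw [e, h.commE (E.mul_mem haE hbE) haE, ← mul_assoc, h.sq a haE, one_mul]
  haveI : IsMulCommutative A := ⟨⟨fun x z => Subtype.ext (h.commE (hAE x.2) (hAE z.2))⟩⟩
  obtain ⟨g, hgE, hg1, hfg, y, hy, hyf, hyg, hyC⟩ : ∃ g ∈ E, g ≠ 1 ∧ f ≠ g ∧ ∃ y ∈ midCore E R,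
      Commute f y ∧ Commute g y ∧ y ∉ Subgroup.centralizer (E : Set G) := by
    by_contra hno
    push Not at hno
    have hoddU : Odd (Nat.card ↥(midCore E R ⊓ Subgroup.centralizer ({f} : Set G))) :=
      Odd.of_dvd_nat hodd (Subgroup.card_dvd_of_le inf_le_left)
    have hAn : A ≤ Subgroup.normalizer
        ((midCore E R ⊓ Subgroup.centralizer ({f} : Set G) : Subgroup G) : Set G) := fun x hx =>
      CfsgLib.CoprimeAction.mem_normalizer_of_conj_mem fun u hu =>
        ⟨(Subgroup.mem_normalizer_iff.1 (hEU (hAE hx)) u).1 hu.1,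
          (Subgroup.centralizer _).mul_mem ((Subgroup.centralizer _).mul_mem
            (h.le_centralizer_of_mem hfE (hAE hx)) hu.2) (inv_mem (h.le_centralizer_of_mem hfE (hAE hx)))⟩
    refine hy₁C (CfsgLib.CoprimeAction.le_of_centralizers hnc hAn
      ((h.orderOf_coprime_card hoddU).coprime_dvd_left (Subgroup.card_dvd_of_le hAE))
      (fun x hx hx1 u hu => ?_) ⟨hy₁, mem_cent.2 hy₁f⟩)
    exact hno x (hAE hx) hx1 (fun e => hfA (e ▸ hx)) u hu.1.1 (mem_cent.1 hu.1.2) (mem_cent.1 hu.2)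
  obtain ⟨e, heE, hey⟩ : ∃ e ∈ E, ¬ Commute e y := by
    by_contra hno
    push Not at hno
    exact hyC (Subgroup.mem_centralizer_iff.2 fun e he => hno e he)
  set s₀ := y * (e * y⁻¹ * e⁻¹) with hs₀
  have hs₀1 : s₀ ≠ 1 := fun h1 => hey (by
    show e * y = y * e
    calc e * y = (y * (e * y⁻¹ * e⁻¹))⁻¹ * (y * e) := by group
      _ = _ := by rw [← hs₀, h1]; group)
  have hs₀U : s₀ ∈ midCore E R :=
    (midCore E R).mul_mem hy ((Subgroup.mem_normalizer_iff.1 (hEU heE) _).1 ((midCore E R).inv_mem hy))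
  have hcomm : ∀ z : G, z ∈ E → Commute z y → Commute z s₀ := fun z hz hzy =>
    have hze : Commute z e := h.commE hz heE
    hzy.mul_right ((hze.mul_right hzy.inv_right).mul_right hze.inv_right)
  have hinv : e * s₀ * e⁻¹ = s₀⁻¹ := by
    rw [hs₀, h.inv_E heE, mul_inv_rev, mul_inv_rev, mul_inv_rev, h.inv_E heE, inv_inv]
    calc e * (y * (e * y⁻¹ * e)) * e = e * y * e * y⁻¹ * (e * e) := by group
      _ = _ := by rw [h.sq e heE]; group
  obtain ⟨k, hk⟩ := IsPGroup.iff_orderOf.1 hR.pgroup ⟨s₀, (midCore_le hs₀U : s₀ ∈ R)⟩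
  rw [Subgroup.orderOf_mk] at hk
  obtain ⟨k, rfl⟩ : ∃ j, k = j + 1 := ⟨k - 1, by
    rcases k with _ | k
    · exact absurd (orderOf_eq_one_iff.1 (by rw [hk, pow_zero])) hs₀1
    · rfl⟩
  refine ⟨s₀ ^ r ^ k, f, g, e, ⟨(midCore E R).pow_mem hs₀U _, ?_, hfE, hgE, heE, hf1, hg1, hfg,
    (hcomm f hfE hyf).pow_right _, (hcomm g hgE hyg).pow_right _, ?_⟩⟩
  · rw [orderOf_pow, hk, Nat.gcd_eq_right (pow_dvd_pow r k.le_succ), pow_succ,
      Nat.mul_div_cancel_left _ (pow_pos (Fact.out : r.Prime).pos k)]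
  · rw [← conj_pow, hinv, inv_pow]

theorem line_ne_one {s f g e : G} (L : Line E R r s f g e) : s ≠ 1 := fun h1 => by
  have := L.order
  rw [h1, orderOf_one] at this
  exact (Fact.out : r.Prime).ne_one this.symm

theorem line_odd (hR : InvSylow E r R) {s f g e : G} (L : Line E R r s f g e) : Odd r :=
  h.odd_r hR (midCore_le L.mem) (h.line_ne_one L)

theorem line_e_not_comm (hR : InvSylow E r R) {s f g e : G} (L : Line E R r s f g e) :
    ¬ Commute e s := fun hc => h.line_ne_one L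
  (eq_one_of_inv_eq (Nat.not_even_iff_odd.2 (h.line_odd hR L) ∘ even_iff_two_dvd.2)
    (L.order ▸ pow_orderOf_eq_one s) (by rw [← L.inv_e, hc.eq, mul_inv_cancel_right]))

/-- Every element of `E` fixes or inverts a line. -/
theorem line_dichotomy (hR : InvSylow E r R) {s f g e : G} (L : Line E R r s f g e) {a : G}
    (ha : a ∈ E) : a * s * a⁻¹ = s ∨ a * s * a⁻¹ = s⁻¹ := by
  have hne : ∀ z : G, Commute z s → e ≠ z := fun z hz hez => h.line_e_not_comm hR L (hez ▸ hz)
  have hcl := h.closure_three L.hf L.hg L.he L.f_ne L.g_ne L.fg_ne (hne 1 (Commute.one_left s))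
    (hne f L.comm_f) (hne g L.comm_g) (hne _ (L.comm_f.mul_left L.comm_g)) ha
  clear ha
  induction hcl using Subgroup.closure_induction with
  | mem x hx =>
    rcases hx with rfl | rfl | rfl
    · left; rw [L.comm_f.eq, mul_inv_cancel_right]
    · left; rw [L.comm_g.eq, mul_inv_cancel_right]
    · exact Or.inr L.inv_e
  | one => left; simp
  | mul x y hx hy h1 h2 =>
    have : x * y * s * (x * y)⁻¹ = x * (y * s * y⁻¹) * x⁻¹ := by group
    rw [this]
    rcases h2 with e2 | e2 <;> rw [e2]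
    · exact h1
    · rw [← conj_inv]
      rcases h1 with e1 | e1 <;> rw [e1]
      · exact Or.inr rfl
      · exact Or.inl (inv_inv s)
  | inv x hx h1 =>
    rcases h1 with e1 | e1
    · left
      calc x⁻¹ * s * x⁻¹⁻¹ = x⁻¹ * (x * s * x⁻¹) * x := by rw [e1]; group
        _ = _ := by group
    · right
      calc x⁻¹ * s * x⁻¹⁻¹ = (x⁻¹ * s⁻¹ * x)⁻¹ := by group
        _ = (x⁻¹ * (x * s * x⁻¹) * x)⁻¹ := by rw [e1]
        _ = _ := by group

/-- The conjugate of a line under `N(E) ∩ N(R)`. -/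
theorem line_conj {s f g e n : G} (L : Line E R r s f g e) (hE : n ∈ Subgroup.normalizer (E : Set G))
    (hR : n ∈ Subgroup.normalizer (R : Set G)) :
    Line E R r (n * s * n⁻¹) (n * f * n⁻¹) (n * g * n⁻¹) (n * e * n⁻¹) := by
  have hm : ∀ a ∈ E, n * a * n⁻¹ ∈ E := fun a ha => (Subgroup.mem_normalizer_iff.1 hE a).1 ha
  exact
    { mem := midCore_conj L.mem hE hR
      order := by rw [CfsgLib.Involutions.orderOf_conj]; exact L.order
      hf := hm f L.hf
      hg := hm g L.hg
      he := hm e L.he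
      f_ne := fun he => L.f_ne (conj_eq_one_iff.1 he)
      g_ne := fun he => L.g_ne (conj_eq_one_iff.1 he)
      fg_ne := fun he => L.fg_ne (mul_left_cancel (mul_right_cancel he))
      comm_f := (Commute.conj_iff n).2 L.comm_f
      comm_g := (Commute.conj_iff n).2 L.comm_g
      inv_e := by
        calc n * e * n⁻¹ * (n * s * n⁻¹) * (n * e * n⁻¹)⁻¹ = n * (e * s * e⁻¹) * n⁻¹ := by group
          _ = _ := by rw [L.inv_e]; group }

/-- An element moving `E` moves the kernel of a line. -/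
theorem exists_separate (hR : InvSylow E r R) {s f g e n : G} (L : Line E R r s f g e)
    (hn : n ∈ Subgroup.normalizer (E : Set G)) (hnC : n ∉ Subgroup.centralizer (E : Set G)) :
    ∃ a ∈ E, a * s * a⁻¹ = s⁻¹ ∧ Commute a (n * s * n⁻¹) := by
  classical
  by_contra hno
  push Not at hno
  -- every element fixing `n s n⁻¹` fixes `s`
  have hmap : ∀ a : {x : G // x ∈ E ∧ x ≠ 1 ∧ Commute x s},
      n * a.1 * n⁻¹ ∈ E ∧ n * a.1 * n⁻¹ ≠ 1 ∧ Commute (n * a.1 * n⁻¹) s := by
    rintro ⟨a, haE, ha1, has⟩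
    have hm := (Subgroup.mem_normalizer_iff.1 hn a).1 haE
    refine ⟨hm, fun he => ha1 (conj_eq_one_iff.1 he), ?_⟩
    rcases h.line_dichotomy hR L hm with he | he
    · exact (mul_inv_eq_iff_eq_mul.1 he)
    · exact absurd ((Commute.conj_iff n).2 has) (hno _ hm he)
  let σ : {x : G // x ∈ E ∧ x ≠ 1 ∧ Commute x s} → {x : G // x ∈ E ∧ x ≠ 1 ∧ Commute x s} :=
    fun a => ⟨_, hmap a⟩
  have hσ : Function.Bijective σ := Finite.injective_iff_bijective.1 fun a b hab =>
    Subtype.ext (mul_left_cancel (mul_right_cancel (congrArg Subtype.val hab)))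
  let σ' := Equiv.ofBijective σ hσ
  haveI := Fintype.ofFinite {x : G // x ∈ E ∧ x ≠ 1 ∧ Commute x s}
  have hiter : ∀ (k : ℕ) (a), ((σ' ^ k) a).1 = n ^ k * a.1 * (n ^ k)⁻¹ := by
    intro k
    induction k with
    | zero => intro a; simp
    | succ k ih =>
      intro a
      rw [pow_succ', Equiv.Perm.mul_apply]
      show n * ((σ' ^ k) a).1 * n⁻¹ = _
      rw [ih, pow_succ']
      group
  have h3 : Fintype.card {x : G // x ∈ E ∧ x ≠ 1 ∧ Commute x s} ≤ 3 := by
    rw [← Nat.card_eq_fintype_card]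
    set H := E ⊓ Subgroup.centralizer ({s} : Set G) with hH
    have hlt : H ≠ E := fun he => h.line_e_not_comm hR L
      ((mem_cent.1 ((he.symm ▸ L.he : e ∈ H)).2).symm)
    have hd := Subgroup.card_dvd_of_le (inf_le_left : H ≤ E)
    rw [h.card_E] at hd
    have hne : Nat.card H ≠ 8 := fun h8 =>
      hlt (Subgroup.eq_of_le_of_card_ge inf_le_left (by rw [h.card_E, h8]))
    have h4 : Nat.card H ≤ 4 := by
      have hle := Nat.le_of_dvd (by norm_num) hd
      interval_cases (Nat.card H) <;> omega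
    let ι : Option {x : G // x ∈ E ∧ x ≠ 1 ∧ Commute x s} → H := fun o =>
      o.elim 1 fun x => ⟨x.1, x.2.1, mem_cent.2 x.2.2.2.symm.eq⟩
    have hι : Function.Injective ι := by
      rintro (_ | x) (_ | y) hxy <;> simp only [ι, Option.elim, Subtype.ext_iff, Subgroup.coe_one] at hxy
      · rfl
      · exact absurd hxy.symm y.2.2.1
      · exact absurd hxy x.2.2.1
      · exact congrArg some (Subtype.ext hxy)
    have h5 := Nat.card_le_card_of_injective ι hι
    rw [Finite.card_option] at h5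
    omega
  have h6 : σ' ^ 6 = 1 := by
    have h7 : Fintype.card (Equiv.Perm {x : G // x ∈ E ∧ x ≠ 1 ∧ Commute x s}) ∣ 6 := by
      rw [Fintype.card_perm]
      exact (Nat.factorial_dvd_factorial h3).trans (by decide)
    exact orderOf_dvd_iff_pow_eq_one.1 (orderOf_dvd_card.trans h7)
  have h6f : n ^ 6 * f * (n ^ 6)⁻¹ = f := by
    have := hiter 6 ⟨f, L.hf, L.f_ne, L.comm_f⟩
    rw [h6, Equiv.Perm.one_apply] at this
    exact this.symm
  have h6C : n ^ 6 ∈ Subgroup.centralizer (E : Set G) :=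
    h.fpf _ ((Subgroup.normalizer (E : Set G)).pow_mem hn 6) f L.hf L.f_ne
      (mul_inv_eq_iff_eq_mul.1 h6f)
  apply hnC
  have h7 := h.pow_seven_mem_centralizer hn
  rw [pow_succ'] at h7
  simpa using (Subgroup.centralizer (E : Set G)).mul_mem h7 (inv_mem h6C)

/-- A line centralises the fixed core. -/
theorem line_comm_fixCore (hR : InvSylow E r R) {s f g e c : G} (L : Line E R r s f g e)
    (hc : c ∈ fixCore E R) : Commute s c := by
  refine eq_of_sq_commute (h.line_odd hR L) (L.order ▸ pow_orderOf_eq_one s) ?_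
  have h1 := fixCore_conj_self hc (midCore_le L.mem)
  have h2 := fixCore_commute h1 L.he
  have h3 := fixCore_commute hc L.he
  have h4 : s * c * s⁻¹ = s⁻¹ * c * s := by
    calc s * c * s⁻¹ = (e * (s * c * s⁻¹)) * e⁻¹ := by rw [h2]; group
      _ = (e * s * e⁻¹) * (e * c * e⁻¹) * (e * s * e⁻¹)⁻¹ := by group
      _ = _ := by rw [L.inv_e, h3]; group
  show s * s * c = c * (s * s)
  calc s * s * c = s * (s * c * s⁻¹) * s := by group
    _ = _ := by rw [h4]; group

/-- Commutators of lines with `R`. -/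
theorem line_comm_mem (hR : InvSylow E r R) {s f g e x : G} (L : Line E R r s f g e) (hx : x ∈ R) :
    s * x * s⁻¹ * x⁻¹ ∈ fixCenter E R r := by
  set d := s * x * s⁻¹ * x⁻¹ with hd
  have hdC : d ∈ fixCore E R := L.mem.2 x hx
  have hcs : ∀ c ∈ fixCore E R, Commute s c := fun c hc => h.line_comm_fixCore hR L hc
  have hcd : ∀ c ∈ fixCore E R, Commute d c := by
    intro c hc
    have h1 : Commute (x⁻¹ * c * x) s := by
      have := fixCore_conj_self hc (R.inv_mem hx)
      rw [inv_inv] at this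
      exact (hcs _ this).symm
    have h2 : Commute c (x * s⁻¹ * x⁻¹) := by
      have := (Commute.conj_iff x).2 h1.inv_right
      rwa [show x * (x⁻¹ * c * x) * x⁻¹ = c by group] at this
    rw [hd, show s * x * s⁻¹ * x⁻¹ = s * (x * s⁻¹ * x⁻¹) by group]
    exact (hcs c hc).mul_left h2.symm
  refine ⟨hdC, ?_, hcd⟩
  have hs : s ^ r = 1 := L.order ▸ pow_orderOf_eq_one s
  have e1 : x * s * x⁻¹ = d⁻¹ * s := by rw [hd]; group
  have e2 : (x * s * x⁻¹) ^ r = 1 := by rw [conj_pow, hs]; group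
  rw [e1, ((hcs d hdC).symm.inv_left).mul_pow, hs, mul_one, inv_pow, inv_eq_one] at e2
  exact e2

/-- Lines separated by an element of `E` commute. -/
theorem line_commute (hR : InvSylow E r R) {s f g e s' f' g' e' a : G} (L : Line E R r s f g e)
    (L' : Line E R r s' f' g' e') (ha : a ∈ E) (h1 : a * s * a⁻¹ = s⁻¹) (h2 : Commute a s') :
    Commute s s' := by
  set c := s * s' * s⁻¹ * s'⁻¹ with hc
  have hc' := h.line_comm_mem hR L (midCore_le L'.mem)
  have hcs : Commute s c := h.line_comm_fixCore hR L hc'.1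
  have h3 := fixCore_commute hc'.1 ha
  rw [← hc] at h3
  have h4 : c = c⁻¹ := by
    calc c = a * c * a⁻¹ := by rw [h3, mul_inv_cancel_right]
      _ = (a * s * a⁻¹) * (a * s' * a⁻¹) * (a * s * a⁻¹)⁻¹ * (a * s' * a⁻¹)⁻¹ := by rw [hc]; group
      _ = s⁻¹ * (s' * s * s'⁻¹ * s⁻¹) * s := by rw [h1, h2.eq]; group
      _ = s⁻¹ * c⁻¹ * s := by rw [hc]; group
      _ = _ := by rw [hcs.inv_right.inv_left.eq]; group
  have h5 : c = 1 := eq_one_of_inv_eq
    (fun hd => Nat.not_even_iff_odd.2 (h.line_odd hR L) (even_iff_two_dvd.2 hd)) hc'.2.1 h4.symm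
  show s * s' = s' * s
  calc s * s' = c * (s' * s) := by rw [hc]; group
    _ = _ := by rw [h5, one_mul]

end Hyp

end CfsgLib.HallNumber.EightSeven
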