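import Cfsg.Agent.Lib.HallNumber.EightSeven.Intersect
import Cfsg.Agent.Lib.TwoFusion.StrongEmbed

/-!
The action on the cosets of `big E` when `core E` is nontrivial: the involutions of `big E` lie in `E`
and the stabiliser of two points has order seven and is inverted by every involution exchanging them.
-/

set_option autoImplicit false
open Cfsg
open scoped Pointwise

namespace CfsgLib.HallNumber.EightSeven

open CfsgLib.TwoFusion CfsgLib.Involutions

variable {G : Type*} [Group G] [Finite G]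

omit [Finite G] in
theorem smul_base_iff {H : Subgroup G} {g : G} :
    g • (QuotientGroup.mk 1 : G ⧸ H) = QuotientGroup.mk 1 ↔ g ∈ H := by
  rw [smul_mk_eq_iff]
  simp

namespace Hyp

variable {E : Subgroup G} (h : Hyp E)

include h

theorem centralizer_le_big' : Subgroup.centralizer (E : Set G) ≤ big E :=
  (Subgroup.centralizer_le_normalizer _).trans h.normalizer_le_big

theorem mem_core_of_mem_sup {x : G} (hx : x ∈ core E ⊔ Subgroup.centralizer (E : Set G))
    (ho : Odd (orderOf x)) : x ∈ core E := by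
  rw [← SetLike.mem_coe, Subgroup.coe_mul_of_right_le_normalizer_left (core E) _ h.centralizer_le_big'] at hx
  obtain ⟨w, hw, z, hz, rfl⟩ := hx
  have hz' : z ∈ Subgroup.normalizer (core E : Set G) := h.centralizer_le_big' hz
  have hsq : (w * z) ^ 2 ∈ core E := by
    rw [show (w * z) ^ 2 = w * (z * w * z⁻¹) * z ^ 2 by rw [pow_two, pow_two]; group]
    exact mul_mem (mul_mem hw ((Subgroup.mem_normalizer_iff.1 hz' w).1 hw)) (h.sq_mem_core hz)
  exact Subgroup.zpowers_le.2 hsq (mem_zpowers_pow_of_coprime (Nat.coprime_two_right.2 ho))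

theorem relIndex_big_le (hW : core E ≠ ⊥) :
    (core E ⊔ Subgroup.centralizer (E : Set G)).relIndex (big E) ≤ 7 := by
  set K := core E ⊔ Subgroup.centralizer (E : Set G) with hK
  set N := Subgroup.normalizer (E : Set G)
  set C := (Subgroup.centralizer (E : Set G)).subgroupOf N with hC
  set K' := K.subgroupOf (big E) with hK'
  let φ : N ⧸ C → big E ⧸ K' := fun q => Quotient.liftOn' q
    (fun m => (QuotientGroup.mk ⟨(m : G), h.normalizer_le_big m.2⟩ : big E ⧸ K'))
    fun m m' hmm => by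
      refine QuotientGroup.eq.2 ?_
      exact (le_sup_right : _ ≤ K) (show ((m⁻¹ * m' : N) : G) ∈ Subgroup.centralizer (E : Set G) from
        (QuotientGroup.leftRel_apply (s := C)).1 hmm)
  have hsur : Function.Surjective φ := by
    intro q
    refine Quotient.inductionOn' q fun y => ?_
    have hm := h.big_le hW y.2
    rw [← SetLike.mem_coe, Subgroup.coe_mul_of_right_le_normalizer_left (core E) _
      h.normalizer_le_big] at hm
    obtain ⟨w, hw, m, hm, hy⟩ := hm
    refine ⟨QuotientGroup.mk ⟨m, hm⟩, ?_⟩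
    show (QuotientGroup.mk (⟨m, h.normalizer_le_big hm⟩ : big E) : big E ⧸ K') = QuotientGroup.mk y
    refine QuotientGroup.eq.2 ?_
    show m⁻¹ * (y : G) ∈ K
    have hy' : w * m = (y : G) := hy
    rw [← hy', show m⁻¹ * (w * m) = m⁻¹ * w * m by group]
    have := (Subgroup.mem_normalizer_iff.1 (inv_mem (h.normalizer_le_big hm : m ∈ big E)) w).1 hw
    rw [inv_inv] at this
    exact (le_sup_left : core E ≤ K) this
  have h7 := Nat.card_le_card_of_surjective φ hsur
  rw [← Subgroup.index, ← Subgroup.index, h.index_centralizer] at h7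
  exact h7

theorem relIndex_core_le (hW : core E ≠ ⊥) {D : Subgroup G} (hD : D ≤ big E) (hodd : Odd (Nat.card D)) :
    (core E).relIndex D ≤ 7 := by
  have he : (core E ⊔ Subgroup.centralizer (E : Set G)) ⊓ D = core E ⊓ D :=
    le_antisymm (fun x hx => ⟨h.mem_core_of_mem_sup hx.1 (odd_of_mem hodd hx.2), hx.2⟩)
      (inf_le_inf_right D le_sup_left)
  rw [← Subgroup.inf_relIndex_right, ← he, Subgroup.inf_relIndex_right]
  exact (Subgroup.relIndex_le_of_le_right hD
    (by rw [Subgroup.relIndex]; exact Subgroup.index_ne_zero_of_finite)).trans (h.relIndex_big_le hW)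

omit [Finite G] h in
theorem mem_inf_map {v d : G} :
    d ∈ big E ⊓ (big E).map (MulAut.conj v).toMonoidHom ↔ d ∈ big E ∧ v⁻¹ * d * v ∈ big E := by
  rw [Subgroup.mem_inf]
  refine and_congr_right fun _ => ⟨?_, fun hd => ⟨_, hd, by simp [mul_assoc]⟩⟩
  rintro ⟨x, hx, rfl⟩
  simpa [mul_assoc] using hx

theorem card_inverted_le (hW : core E ≠ ⊥) {v : G} (hv2 : orderOf v = 2) (hv : v ∉ big E) :
    Nat.card {d : G // d ∈ big E ⊓ (big E).map (MulAut.conj v).toMonoidHom ∧ v * d * v⁻¹ = d⁻¹} ≤ 7 := by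
  set D := big E ⊓ (big E).map (MulAut.conj v).toMonoidHom
  have hodd : Odd (Nat.card D) := (h.isStronglyEmbedded hW).2.2 v hv
  refine le_trans ?_ (h.relIndex_core_le hW (inf_le_left : D ≤ big E) hodd)
  refine Nat.card_le_card_of_injective
    (fun d => (QuotientGroup.mk ⟨d.1, d.2.1⟩ : D ⧸ (core E).subgroupOf D)) ?_
  rintro ⟨d, hd, hdv⟩ ⟨d', hd', hdv'⟩ he
  refine Subtype.ext ?_
  set w := d⁻¹ * d' with hw
  have hwW : w ∈ core E := (QuotientGroup.eq (s := (core E).subgroupOf D)).1 he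
  have e1 : v * w * v⁻¹ = d * d'⁻¹ := by
    calc v * w * v⁻¹ = (v * d * v⁻¹)⁻¹ * (v * d' * v⁻¹) := by rw [hw]; group
      _ = _ := by rw [hdv, hdv', inv_inv]
  have hvW : v * w * v⁻¹ ∈ core E := by
    rw [e1, show d * d'⁻¹ = d * w⁻¹ * d⁻¹ by rw [hw]; group]
    exact (Subgroup.mem_normalizer_iff.1 hd.1 _).1 (inv_mem hwW)
  have := h.eq_one_of_mem_conj hW hv hvW (by
    rwa [show v⁻¹ * (v * w * v⁻¹) * v = w by group])
  rw [conj_eq_one_iff, hw, inv_mul_eq_one] at this
  exact this

theorem swap_data {v u : G} (hv2 : orderOf v = 2) (hu2 : orderOf u = 2)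
    (hu : u • (QuotientGroup.mk 1 : G ⧸ big E) = v • QuotientGroup.mk 1) :
    v * u ∈ big E ⊓ (big E).map (MulAut.conj v).toMonoidHom ∧ v * (v * u) * v⁻¹ = (v * u)⁻¹ := by
  have h1 : v * u ∈ big E := by
    rw [← smul_base_iff, mul_smul, hu, ← mul_smul, mul_self_eq_one hv2, one_smul]
  have h2 : u * v ∈ big E := by
    have := inv_mem h1
    rwa [mul_inv_rev, inv_eq_self hv2, inv_eq_self hu2] at this
  refine ⟨mem_inf_map.2 ⟨h1, ?_⟩, ?_⟩
  · rwa [show v⁻¹ * (v * u) * v = u * v by group]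
  · rw [mul_inv_rev, inv_eq_self hu2, inv_eq_self hv2, ← mul_assoc v v u, mul_self_eq_one hv2, one_mul]

/-- The involutions of `big E` lie in `E`. -/
theorem mem_E_of_involution (hW : core E ≠ ⊥) {u : G} (hu : u ∈ big E) (hu2 : orderOf u = 2) : u ∈ E := by
  classical
  set o : G ⧸ big E := QuotientGroup.mk 1
  obtain ⟨g, hg⟩ : ∃ g : G, g ∉ big E := by
    by_contra hall
    push Not at hall
    exact h.big_ne_top hW ((Subgroup.eq_top_iff' _).2 hall)
  have hne : g • o ≠ o := fun he => hg (smul_base_iff.1 he)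
  have hSE := h.isStronglyEmbedded hW
  have hcard := card_swappingInvolutions hSE (Ne.symm hne)
  haveI := (fixingInvolutions_nonempty hSE o).to_subtype
  obtain ⟨v, hv2, hvo⟩ : (swappingInvolutions (big E) o (g • o)).Nonempty :=
    Set.nonempty_coe_sort.1 (Nat.card_pos_iff.1 (hcard ▸ Nat.card_pos)).1
  have hvM : v ∉ big E := fun hv => hne (hvo ▸ smul_base_iff.2 hv)
  have h7 : Nat.card (fixingInvolutions (big E) o) ≤ 7 := by
    rw [← hcard]
    refine le_trans ?_ (h.card_inverted_le hW hv2 hvM)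
    refine Nat.card_le_card_of_injective
      (fun t => ⟨v * t.1, h.swap_data hv2 t.2.1 (t.2.2.trans hvo.symm)⟩) ?_
    intro s t hst
    exact Subtype.ext (mul_left_cancel (congrArg Subtype.val hst))
  let ι : {x : E // x ≠ 1} → fixingInvolutions (big E) o := fun x =>
    ⟨x.1, h.orderOf_two x.1.2 (fun he => x.2 (Subtype.ext he)), smul_base_iff.2 (h.E_le_big x.1.2)⟩
  have hι : Function.Injective ι := fun x y hxy => Subtype.ext (Subtype.ext
    (congrArg (fun t : fixingInvolutions (big E) o => (t : G)) hxy))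
  haveI := Fintype.ofFinite E
  have hcardE : Nat.card {x : E // x ≠ 1} = 7 := by
    rw [Nat.card_eq_fintype_card, Fintype.card_subtype_compl, Fintype.card_subtype_eq,
      ← Nat.card_eq_fintype_card, h.card_E]
  have hbij : Function.Bijective ι := (Nat.bijective_iff_injective_and_card ι).2
    ⟨hι, le_antisymm (Nat.card_le_card_of_injective ι hι) (hcardE ▸ h7)⟩
  obtain ⟨x, hx⟩ := hbij.2 ⟨u, hu2, smul_base_iff.2 hu⟩
  have e : ((x.1 : E) : G) = u := congrArg (fun t : fixingInvolutions (big E) o => (t : G)) hx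
  exact e ▸ x.1.2

theorem card_fixing (hW : core E ≠ ⊥) (x : G ⧸ big E) :
    Nat.card (fixingInvolutions (big E) x) = 7 := by
  classical
  rw [card_fixingInvolutions_eq x (QuotientGroup.mk 1)]
  haveI := Fintype.ofFinite E
  have e : fixingInvolutions (big E) (QuotientGroup.mk 1) ≃ {x : E // x ≠ 1} :=
    { toFun := fun t => ⟨⟨t, h.mem_E_of_involution hW (smul_base_iff.1 t.2.2) t.2.1⟩,
        fun he => ne_one t.2.1 (congrArg Subtype.val he)⟩
      invFun := fun x => ⟨x.1, h.orderOf_two x.1.2 (fun he => x.2 (Subtype.ext he)),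
        smul_base_iff.2 (h.E_le_big x.1.2)⟩
      left_inv := fun _ => rfl
      right_inv := fun _ => rfl }
  rw [Nat.card_congr e, Nat.card_eq_fintype_card, Fintype.card_subtype_compl, Fintype.card_subtype_eq,
    ← Nat.card_eq_fintype_card, h.card_E]

theorem card_swapping (hW : core E ≠ ⊥) {x y : G ⧸ big E} (hxy : x ≠ y) :
    Nat.card (swappingInvolutions (big E) x y) = 7 :=
  (card_swappingInvolutions (h.isStronglyEmbedded hW) hxy).trans (h.card_fixing hW x)

theorem big_le_normalizer (hW : core E ≠ ⊥) : big E ≤ Subgroup.normalizer (E : Set G) := fun m hm =>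
  CfsgLib.CoprimeAction.mem_normalizer_of_conj_mem fun a ha => by
    by_cases ha1 : a = 1
    · simp [ha1]
    · exact h.mem_E_of_involution hW (mul_mem (mul_mem hm (h.E_le_big ha)) (inv_mem hm))
        (by rw [orderOf_conj]; exact h.orderOf_two ha ha1)

theorem centralizer_involution (hW : core E ≠ ⊥) {a x : G} (ha : a ∈ E) (ha1 : a ≠ 1)
    (hx : a * x = x * a) : x ∈ Subgroup.centralizer (E : Set G) :=
  h.fpf x (h.big_le_normalizer hW (h.centralizer_le_big ha ha1 (mem_cent.2 hx))) a ha ha1 hx.symm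

/-- An element of odd order of `big E` inverted by an element of `E` is trivial. -/
theorem eq_one_of_inverted (hW : core E ≠ ⊥) {a d : G} (ha : a ∈ E) (hd : d ∈ big E)
    (ho : Odd (orderOf d)) (hinv : a * d * a⁻¹ = d⁻¹) : d = 1 := by
  have h1 : d * d ∈ E := by
    have h2 := mul_mem ((Subgroup.mem_normalizer_iff.1 (h.big_le_normalizer hW hd) a).1 ha) (E.inv_mem ha)
    rwa [show d * a * d⁻¹ * a⁻¹ = d * (a * d * a⁻¹)⁻¹ by group, hinv, inv_inv] at h2
  have h2 : d * d = 1 := by
    by_contra hne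
    have := h.orderOf_two h1 hne
    rw [← pow_two, orderOf_pow, (Nat.coprime_two_right.2 ho).gcd_eq_one, Nat.div_one] at this
    exact absurd (this ▸ ho) (by decide)
  have h3 := orderOf_dvd_of_pow_eq_one (show d ^ 2 = 1 by rw [pow_two, h2])
  rcases (Nat.dvd_prime Nat.prime_two).1 h3 with h4 | h4
  · exact orderOf_eq_one_iff.1 h4
  · exact absurd (h4 ▸ ho) (by decide)

/-- An involution inverting `d` centralises no nontrivial element of odd order commuting with `d`. -/
theorem eq_one_of_commute (hW : core E ≠ ⊥) {v q d : G} (hv2 : orderOf v = 2) (hq1 : q ≠ 1)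
    (hqo : Odd (orderOf q)) (hvq : v * q = q * v) (hqd : q * d = d * q) (hdo : Odd (orderOf d))
    (hinv : v * d * v⁻¹ = d⁻¹) : d = 1 := by
  obtain ⟨z, hz⟩ := exists_fixed_point (h.isStronglyEmbedded hW) hv2
  obtain ⟨a, rfl⟩ := QuotientGroup.mk_surjective z
  rw [smul_mk_eq_iff] at hz
  have hcj : ∀ x : G, orderOf (a⁻¹ * x * a) = orderOf x := fun x => by
    rw [show a⁻¹ * x * a = a⁻¹ * x * a⁻¹⁻¹ by rw [inv_inv], orderOf_conj]
  have he0 := h.mem_E_of_involution hW hz (by rw [hcj, hv2])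
  have hq' := h.centralizer_involution hW he0 (fun he => ne_one hv2 (orderOf_eq_one_iff.1 (by
    rw [← hcj v, he, orderOf_one]))) (x := a⁻¹ * q * a) (by
      calc a⁻¹ * v * a * (a⁻¹ * q * a) = a⁻¹ * (v * q) * a := by group
        _ = _ := by rw [hvq]; group)
  have hd' : a⁻¹ * d * a ∈ big E := h.good_of_centralizes hq' (fun he => hq1 (orderOf_eq_one_iff.1 (by
    rw [← hcj q, he, orderOf_one]))) (mem_cent.2 (by
      calc a⁻¹ * q * a * (a⁻¹ * d * a) = a⁻¹ * (q * d) * a := by group
        _ = _ := by rw [hqd]; group))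
  have := h.eq_one_of_inverted hW he0 hd' (by rw [hcj]; exact hdo) (by
    calc a⁻¹ * v * a * (a⁻¹ * d * a) * (a⁻¹ * v * a)⁻¹ = a⁻¹ * (v * d * v⁻¹) * a := by group
      _ = _ := by rw [hinv]; group)
  rw [← orderOf_eq_one_iff, hcj, orderOf_eq_one_iff] at this
  exact this

theorem core_inf_stab (hW : core E ≠ ⊥) {v : G} (hv2 : orderOf v = 2) (hv : v ∉ big E) {p : G}
    (hp : p ∈ core E) (hpD : p ∈ big E ⊓ (big E).map (MulAut.conj v).toMonoidHom) : p = 1 := by
  set D := big E ⊓ (big E).map (MulAut.conj v).toMonoidHom with hD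
  have hodd : Odd (Nat.card D) := (h.isStronglyEmbedded hW).2.2 v hv
  have hvinv : v⁻¹ = v := inv_eq_self hv2
  obtain ⟨hpM, hpM'⟩ := mem_inf_map.1 hpD
  rw [hvinv] at hpM'
  set p' := v * p * v with hp'
  have hvv : v * v = 1 := mul_self_eq_one hv2
  have hvp' : v * p' * v = p := by
    calc v * p' * v = (v * v) * p * (v * v) := by rw [hp']; group
      _ = p := by rw [hvv, one_mul, mul_one]
  have hp'D : p' ∈ D := mem_inf_map.2 ⟨hpM', by rw [hvinv, hvp']; exact hpM⟩
  set c := p * p' * p⁻¹ * p'⁻¹ with hc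
  have hcW : c ∈ core E := by
    rw [hc, show p * p' * p⁻¹ * p'⁻¹ = p * (p' * p⁻¹ * p'⁻¹) by group]
    exact mul_mem hp ((Subgroup.mem_normalizer_iff.1 (hpM' : p' ∈ big E) _).1 (inv_mem hp))
  have hvc : v⁻¹ * c * v = c⁻¹ := by
    calc v⁻¹ * c * v = (v⁻¹ * p * v) * (v⁻¹ * p' * v) * (v⁻¹ * p * v)⁻¹ * (v⁻¹ * p' * v)⁻¹ := by
          rw [hc]; group
      _ = _ := by rw [hvinv, ← hp', hvp', hc]; group
  have hc1 : c = 1 := h.eq_one_of_mem_conj hW hv hcW (hvc ▸ inv_mem hcW)
  have hpp : p * p' = p' * p := by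
    calc p * p' = c * (p' * p) := by rw [hc]; group
      _ = _ := by rw [hc1, one_mul]
  by_contra hp1
  have hq1 : p * p' ≠ 1 := by
    intro he
    have hp'W : p' ∈ core E := by rw [eq_inv_of_mul_eq_one_right he]; exact inv_mem hp
    exact hp1 (h.eq_one_of_mem_conj hW hv hp (by rw [hvinv]; exact hp'W))
  have hd : p * p'⁻¹ = 1 := by
    refine h.eq_one_of_commute hW hv2 hq1 (odd_of_mem hodd (mul_mem hpD hp'D)) ?_ ?_
      (odd_of_mem hodd (mul_mem hpD (inv_mem hp'D))) ?_
    · calc v * (p * p') = (v * p * v) * (v * p' * v) * v := by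
            rw [show (v * p * v) * (v * p' * v) * v = v * p * (v * v) * p' * (v * v) by group, hvv,
              mul_one, mul_one, mul_assoc]
        _ = p' * p * v := by rw [← hp', hvp']
        _ = _ := by rw [hpp]
    · have h4 : Commute p p' := hpp
      exact ((Commute.refl p).mul_left h4.symm).mul_right (h4.mul_left (Commute.refl p')).inv_right
    · calc v * (p * p'⁻¹) * v⁻¹ = (v * p * v⁻¹) * (v * p' * v⁻¹)⁻¹ := by group
        _ = _ := by rw [hvinv, ← hp', hvp']; group
  rw [mul_inv_eq_one] at hd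
  exact hp1 (h.eq_one_of_mem_conj hW hv hp (by rw [hvinv, ← hp', ← hd]; exact hp))

theorem inf_map_data (hW : core E ≠ ⊥) {v : G} (hv2 : orderOf v = 2) (hv : v ∉ big E) :
    Nat.card ↥(big E ⊓ (big E).map (MulAut.conj v).toMonoidHom) = 7 ∧
      ∀ d ∈ big E ⊓ (big E).map (MulAut.conj v).toMonoidHom, v * d * v⁻¹ = d⁻¹ := by
  set D := big E ⊓ (big E).map (MulAut.conj v).toMonoidHom with hD
  set o : G ⧸ big E := QuotientGroup.mk 1
  have hne : v • o ≠ o := fun he => hv (smul_base_iff.1 he)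
  have hle : Nat.card D ≤ 7 := by
    have hinf : core E ⊓ D = ⊥ := (Subgroup.eq_bot_iff_forall _).2 fun p hp =>
      h.core_inf_stab hW hv2 hv hp.1 hp.2
    have := h.relIndex_core_le hW (inf_le_left : D ≤ big E) ((h.isStronglyEmbedded hW).2.2 v hv)
    rwa [← Subgroup.inf_relIndex_right, hinf, Subgroup.relIndex_bot_left] at this
  let φ : swappingInvolutions (big E) o (v • o) → D := fun u => ⟨v * u.1, (h.swap_data hv2 u.2.1 u.2.2).1⟩
  have hφ : Function.Injective φ := fun s t hst =>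
    Subtype.ext (mul_left_cancel (congrArg (fun d : D => (d : G)) hst))
  have h7 := Nat.card_le_card_of_injective φ hφ
  rw [h.card_swapping hW (Ne.symm hne)] at h7
  have hbij := (Nat.bijective_iff_injective_and_card φ).2
    ⟨hφ, by rw [h.card_swapping hW (Ne.symm hne)]; omega⟩
  refine ⟨by omega, fun d hd => ?_⟩
  obtain ⟨u, hu⟩ := hbij.2 ⟨d, hd⟩
  have e : v * (u : G) = d := congrArg Subtype.val hu
  rw [← e]
  exact (h.swap_data hv2 u.2.1 u.2.2).2

omit [Finite G] h in
theorem stabilizer_base : MulAction.stabilizer G (QuotientGroup.mk 1 : G ⧸ big E) = big E :=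
  MulAction.stabilizer_quotient _

/-- An involution exchanging two points inverts their stabiliser, which has order seven. -/
theorem pair_data (hW : core E ≠ ⊥) {x y : G ⧸ big E} (hxy : x ≠ y) {v : G}
    (hv : v ∈ swappingInvolutions (big E) x y) :
    Nat.card ↥(MulAction.stabilizer G x ⊓ MulAction.stabilizer G y) = 7 ∧
      ∀ d ∈ MulAction.stabilizer G x ⊓ MulAction.stabilizer G y, v * d * v⁻¹ = d⁻¹ := by
  obtain ⟨hv2, hvx⟩ := hv
  obtain ⟨g, rfl⟩ := QuotientGroup.mk_surjective x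
  set o : G ⧸ big E := QuotientGroup.mk 1
  have hgo : (QuotientGroup.mk g : G ⧸ big E) = g • o := by rw [MulAction.Quotient.smul_mk]; simp
  set u := g⁻¹ * v * g with hu
  have hu2 : orderOf u = 2 := by
    rw [hu, show g⁻¹ * v * g = g⁻¹ * v * g⁻¹⁻¹ by rw [inv_inv], orderOf_conj, hv2]
  have huM : u ∉ big E := fun hm => hxy (by rw [← hvx, (smul_mk_eq_iff v g).2 hm])
  have hy : y = g • u • o := by rw [← hvx, hgo, ← mul_smul, ← mul_smul, hu]; group
  have heq : MulAction.stabilizer G (QuotientGroup.mk g : G ⧸ big E) ⊓ MulAction.stabilizer G y =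
      (big E ⊓ (big E).map (MulAut.conj u).toMonoidHom).map (MulAut.conj g).toMonoidHom := by
    rw [hy, hgo, Subgroup.map_inf _ _ _ (MulAut.conj g).injective,
      MulAction.stabilizer_smul_eq_stabilizer_map_conj g, MulAction.stabilizer_smul_eq_stabilizer_map_conj g,
      MulAction.stabilizer_smul_eq_stabilizer_map_conj u, stabilizer_base]
  obtain ⟨h1, h2⟩ := h.inf_map_data hW hu2 huM
  rw [heq]
  refine ⟨by rw [Subgroup.card_map_of_injective (MulAut.conj g).injective, h1], ?_⟩
  rintro _ ⟨d, hd, rfl⟩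
  show v * (g * d * g⁻¹) * v⁻¹ = (g * d * g⁻¹)⁻¹
  have := h2 d hd
  calc v * (g * d * g⁻¹) * v⁻¹ = g * (u * d * u⁻¹) * g⁻¹ := by rw [hu]; group
    _ = _ := by rw [this]; group

theorem exists_swapper (hW : core E ≠ ⊥) {x y : G ⧸ big E} (hxy : x ≠ y) :
    ∃ v, v ∈ swappingInvolutions (big E) x y := by
  obtain ⟨a, ha⟩ := fixingInvolutions_nonempty (h.isStronglyEmbedded hW) x
  obtain ⟨b, hb⟩ := fixingInvolutions_nonempty (h.isStronglyEmbedded hW) y
  obtain ⟨v, hv, -⟩ := exists_swap (h.isStronglyEmbedded hW) hxy ha hb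
  exact ⟨v, hv⟩

end Hyp

end CfsgLib.HallNumber.EightSeven
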