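import Cfsg.Agent.Lib.HallNumber.AbelianSylowFactor
import Cfsg.Agent.Lib.CoprimeAction.Abelian
import Cfsg.Agent.Lib.Involutions.Basic
import Cfsg.Prelude.Def_Involutions
import Cfsg.Agent.S0205
import Cfsg.Agent.S0217

/-!
A simple group with elementary abelian Sylow 2-subgroups of order eight, automizer of order seven and
solvable proper subgroups: the subgroup generated by the cores of the involution centralisers and its
normalizer.
-/

set_option autoImplicit false
open Cfsg
open scoped Pointwise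

namespace CfsgLib.HallNumber.EightSeven

variable {G : Type*} [Group G] [Finite G]

/-- The configuration. -/
structure Hyp (E : Subgroup G) : Prop where
  simple : IsSimpleGroup G
  card_E : Nat.card E = 8
  sq : ∀ x ∈ E, x * x = 1
  index_odd : ¬ 2 ∣ E.index
  solv : ∀ X : Subgroup G, X ≠ ⊤ → Group.IsSolvable X
  not_solv : ¬ Group.IsSolvable G
  trans : ∀ a ∈ E, a ≠ 1 → ∀ b ∈ E, b ≠ 1 → ∃ n ∈ Subgroup.normalizer (E : Set G), n * a * n⁻¹ = b
  fpf : ∀ n ∈ Subgroup.normalizer (E : Set G), ∀ a ∈ E, a ≠ 1 → n * a = a * n →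
    n ∈ Subgroup.centralizer (E : Set G)

/-- The subgroup generated by the elements of odd order commuting with `a`. -/
def theta (a : G) : Subgroup G := Subgroup.closure {x | Commute a x ∧ Odd (orderOf x)}

/-- The subgroup generated by all `theta a`, `a` a nontrivial element of `E`. -/
def core (E : Subgroup G) : Subgroup G := ⨆ a : {a : G // a ∈ E ∧ a ≠ 1}, theta a.1

/-- The normalizer of `core E`. -/
def big (E : Subgroup G) : Subgroup G := Subgroup.normalizer (core E : Set G)

omit [Finite G] in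
theorem mem_cent {a x : G} : x ∈ Subgroup.centralizer ({a} : Set G) ↔ a * x = x * a :=
  CfsgLib.Balance.mem_centralizer_singleton

omit [Finite G] in
theorem odd_orderOf_conj (g x : G) (h : Odd (orderOf x)) : Odd (orderOf (g * x * g⁻¹)) := by
  rwa [CfsgLib.Involutions.orderOf_conj]

omit [Finite G] in
theorem theta_le (a : G) : theta a ≤ Subgroup.centralizer ({a} : Set G) :=
  (Subgroup.closure_le _).2 fun _ hx => mem_cent.2 hx.1.eq

omit [Finite G] in
theorem mem_theta {a x : G} (h : Commute a x) (hx : Odd (orderOf x)) : x ∈ theta a :=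
  Subgroup.subset_closure ⟨h, hx⟩

omit [Finite G] in
theorem map_theta (g a : G) : (theta a).map (MulAut.conj g).toMonoidHom = theta (g * a * g⁻¹) := by
  rw [theta, theta, MonoidHom.map_closure]
  congr 1
  ext y
  constructor
  · rintro ⟨x, ⟨hx, ho⟩, rfl⟩
    refine ⟨?_, by simpa using odd_orderOf_conj g x ho⟩
    show g * a * g⁻¹ * (g * x * g⁻¹) = (g * x * g⁻¹) * (g * a * g⁻¹)
    have h := hx.eq
    calc g * a * g⁻¹ * (g * x * g⁻¹) = g * (a * x) * g⁻¹ := by group
      _ = _ := by rw [h]; group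
  · rintro ⟨hy, ho⟩
    refine ⟨g⁻¹ * y * g, ⟨?_, by simpa using odd_orderOf_conj g⁻¹ y ho⟩, by simp [mul_assoc]⟩
    show a * (g⁻¹ * y * g) = g⁻¹ * y * g * a
    calc a * (g⁻¹ * y * g) = g⁻¹ * ((g * a * g⁻¹) * y) * g := by group
      _ = _ := by rw [hy.eq]; group

namespace Hyp

variable {E : Subgroup G} (h : Hyp E)

include h

theorem commE {x y : G} (hx : x ∈ E) (hy : y ∈ E) : x * y = y * x := by
  have h1 := h.sq _ (E.mul_mem hx hy)
  have ex : x⁻¹ = x := inv_eq_of_mul_eq_one_left (h.sq x hx)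
  have ey : y⁻¹ = y := inv_eq_of_mul_eq_one_left (h.sq y hy)
  calc x * y = (x * y)⁻¹ := (inv_eq_of_mul_eq_one_left h1).symm
    _ = y * x := by rw [mul_inv_rev, ex, ey]

theorem isMulCommutative : IsMulCommutative E :=
  ⟨⟨fun a b => Subtype.ext (h.commE a.2 b.2)⟩⟩

theorem isPGroup : IsPGroup 2 E := IsPGroup.of_card (n := 3) (by rw [h.card_E]; rfl)

theorem orderOf_two {a : G} (ha : a ∈ E) (ha1 : a ≠ 1) : orderOf a = 2 :=
  CfsgLib.Involutions.orderOf_eq_two_iff.2 ⟨h.sq a ha, ha1⟩

theorem exists_ne : ∃ a ∈ E, a ≠ 1 := by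
  by_contra hc
  push Not at hc
  have : E = ⊥ := (Subgroup.eq_bot_iff_forall E).2 hc
  have hcard := h.card_E
  rw [this, Subgroup.card_bot] at hcard
  omega

/-- `E` is a Sylow 2-subgroup of `G`. -/
noncomputable def sylow : Sylow 2 G :=
  haveI : Fact (Nat.Prime 2) := ⟨Nat.prime_two⟩
  h.isPGroup.toSylow h.index_odd

theorem exists_conj_mem {P : Subgroup G} (hP : IsPGroup 2 P) :
    ∃ g : G, ∀ x ∈ P, g * x * g⁻¹ ∈ E := by
  haveI : Fact (Nat.Prime 2) := ⟨Nat.prime_two⟩
  obtain ⟨Q, hQ⟩ := hP.exists_le_sylow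
  obtain ⟨g, hg⟩ := MulAction.exists_smul_eq G Q h.sylow
  refine ⟨g, fun x hx => ?_⟩
  have : g * x * g⁻¹ ∈ (MulAut.conj g • (Q : Subgroup G)) :=
    CfsgLib.CoprimeAction.mem_conj_iff.2 (by simpa [mul_assoc] using hQ hx)
  rw [← Sylow.coe_subgroup_smul, hg] at this
  exact this

theorem abelian_sylow (T : Sylow 2 G) : IsMulCommutative T := by
  obtain ⟨g, hg⟩ := h.exists_conj_mem T.2
  refine ⟨⟨fun a b => Subtype.ext ?_⟩⟩
  have := h.commE (hg _ a.2) (hg _ b.2)
  have h2 : g * (a.1 * b.1) * g⁻¹ = g * (b.1 * a.1) * g⁻¹ := by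
    calc g * (a.1 * b.1) * g⁻¹ = (g * a.1 * g⁻¹) * (g * b.1 * g⁻¹) := by group
      _ = _ := by rw [this]; group
  exact mul_left_cancel (mul_right_cancel h2)

theorem normalizer_ne_top {K : Subgroup G} (hK : K ≠ ⊥) (hK' : K ≠ ⊤) :
    Subgroup.normalizer (K : Set G) ≠ ⊤ := by
  intro ht
  haveI := h.simple
  have hn : K.Normal := Subgroup.normalizer_eq_top_iff.1 ht
  rcases hn.eq_bot_or_eq_top with h' | h'
  · exact hK h'
  · exact hK' h'

theorem centralizer_ne_top {a : G} (ha : a ≠ 1) : Subgroup.centralizer ({a} : Set G) ≠ ⊤ := by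
  intro ht
  haveI := h.simple
  have hc : a ∈ Subgroup.center G := Subgroup.mem_center_iff.2 fun g =>
    (mem_cent.1 (ht.symm ▸ Subgroup.mem_top g)).symm
  rcases (inferInstance : (Subgroup.center G).Normal).eq_bot_or_eq_top with h' | h'
  · rw [h', Subgroup.mem_bot] at hc; exact ha hc
  · exact h.not_solv (Group.isSolvable_of_comm fun x y =>
      (Subgroup.mem_center_iff.1 (h'.symm ▸ Subgroup.mem_top x) y).symm)

theorem le_centralizer_of_mem {a : G} (ha : a ∈ E) :
    E ≤ Subgroup.centralizer ({a} : Set G) := fun _ hx => mem_cent.2 (h.commE ha hx)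

/-- Burnside: the involution centralisers are `theta a ⊔ E`, with `theta a` of odd order. -/
theorem theta_odd_and_le {a : G} (ha : a ∈ E) (ha1 : a ≠ 1) :
    Odd (Nat.card (theta a)) ∧ Subgroup.centralizer ({a} : Set G) ≤ theta a ⊔ E := by
  haveI : Fact (Nat.Prime 2) := ⟨Nat.prime_two⟩
  set C := Subgroup.centralizer ({a} : Set G) with hC
  have hEC : E ≤ C := h.le_centralizer_of_mem ha
  let P : Sylow 2 C := h.sylow.subtype hEC
  have hPE : ((P : Subgroup C) : Subgroup C) = E.subgroupOf C := Sylow.coe_subtype _ _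
  have hP : Subgroup.normalizer ((P : Subgroup C) : Set C) ≤
      Subgroup.centralizer ((P : Subgroup C) : Set C) := by
    intro n hn
    rw [hPE] at hn ⊢
    have hnE : (n : G) ∈ Subgroup.normalizer (E : Set G) := by
      refine CfsgLib.CoprimeAction.mem_normalizer_of_conj_mem fun x hx => ?_
      exact (Subgroup.mem_normalizer_iff.1 hn ⟨x, hEC hx⟩).1 hx
    have hc := h.fpf _ hnE a ha ha1 (mem_cent.1 n.2).symm
    rw [Subgroup.mem_centralizer_iff] at hc ⊢
    intro x hx
    exact Subtype.ext (hc _ hx)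
  set K := (MonoidHom.transferSylow P hP).ker with hK
  have hKc := MonoidHom.ker_transferSylow_isComplement' P hP
  have hKodd : ¬ 2 ∣ Nat.card K := MonoidHom.not_dvd_card_ker_transferSylow P hP
  have hθ : theta a = K.map C.subtype := by
    refine le_antisymm ((Subgroup.closure_le _).2 ?_) ?_
    · rintro x ⟨hx, hodd⟩
      refine ⟨⟨x, mem_cent.2 hx.eq⟩, ?_, rfl⟩
      rw [SetLike.mem_coe, hK, MonoidHom.mem_ker]
      set y := MonoidHom.transferSylow P hP ⟨x, mem_cent.2 hx.eq⟩ with hy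
      have h1 : orderOf y ∣ orderOf x := by
        have := orderOf_map_dvd (MonoidHom.transferSylow P hP) (⟨x, mem_cent.2 hx.eq⟩ : C)
        exact this.trans (dvd_of_eq (Subgroup.orderOf_mk _ _))
      obtain ⟨k, hk⟩ := IsPGroup.iff_orderOf.1 P.2 y
      rw [hk] at h1
      rcases Nat.eq_zero_or_pos k with rfl | hk0
      · exact orderOf_eq_one_iff.1 (by rw [hk, pow_zero])
      · exact absurd ((dvd_pow_self 2 hk0.ne').trans h1)
          (fun hh => Nat.not_even_iff_odd.2 hodd (even_iff_two_dvd.2 hh))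
    · rintro _ ⟨x, hx, rfl⟩
      refine mem_theta (mem_cent.1 x.2) ?_
      rw [← Nat.not_even_iff_odd, even_iff_two_dvd]
      intro h2
      refine hKodd (h2.trans ?_)
      show orderOf (x : G) ∣ _
      rw [Subgroup.orderOf_coe]
      exact Subgroup.orderOf_dvd_natCard _ hx
  refine ⟨?_, ?_⟩
  · rw [hθ, Subgroup.card_map_of_injective C.subtype_injective, ← Nat.not_even_iff_odd,
      even_iff_two_dvd]
    exact hKodd
  · intro x hx
    obtain ⟨⟨k, p⟩, hkp⟩ := hKc.2 ⟨x, hx⟩
    rw [← show ((k : C) : G) * ((p : C) : G) = x from congrArg Subtype.val hkp]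
    refine Subgroup.mul_mem_sup (hθ ▸ Subgroup.mem_map_of_mem _ k.2) ?_
    exact (SetLike.ext_iff.1 hPE _).1 p.2

theorem mem_theta_odd {a x : G} (ha : a ∈ E) (ha1 : a ≠ 1) (hx : x ∈ theta a) : Odd (orderOf x) :=
  Odd.of_dvd_nat (h.theta_odd_and_le ha ha1).1 (Subgroup.orderOf_dvd_natCard _ hx)

theorem core_odd : Odd (Nat.card (core E)) := by
  haveI : Fact (Nat.Prime 2) := ⟨Nat.prime_two⟩
  have := (Cfsg.Agent.S0217.result (p := 2) E (fun a ha b hb => h.commE ha hb)
    (fun a ha => by rw [pow_two]; exact h.sq a ha) (by rw [h.card_E]; norm_num) theta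
    (fun a _ _ => theta_le a)
    (fun a ha ha1 h2 => Nat.not_even_iff_odd.2 (h.theta_odd_and_le ha ha1).1 (even_iff_two_dvd.2 h2))
    (fun a ha ha1 b hb x hx => by
      refine mem_theta ?_ (odd_orderOf_conj b x (h.mem_theta_odd ha ha1 hx))
      exact mem_cent.1 ((Subgroup.centralizer _).mul_mem ((Subgroup.centralizer _).mul_mem
        (h.le_centralizer_of_mem ha hb) (theta_le a hx))
        (inv_mem (h.le_centralizer_of_mem ha hb))))
    (fun a ha ha1 => Cfsg.Agent.S0205.result (h.theta_odd_and_le ha ha1).1)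
    (fun a ha ha1 b hb hb1 x hx => mem_theta (mem_cent.1 hx.2) (h.mem_theta_odd ha ha1 hx.1))).1
  rw [← Nat.not_even_iff_odd, even_iff_two_dvd]
  exact this

omit h in
theorem theta_le_core {a : G} (ha : a ∈ E) (ha1 : a ≠ 1) : theta a ≤ core E :=
  le_iSup (fun a : {a : G // a ∈ E ∧ a ≠ 1} => theta a.1) ⟨a, ha, ha1⟩

omit h in
theorem core_le_big : core E ≤ big E := Subgroup.le_normalizer

theorem normalizer_le_big : Subgroup.normalizer (E : Set G) ≤ big E := by
  intro n hn
  refine CfsgLib.CoprimeAction.mem_normalizer_of_conj_mem fun x hx => ?_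
  have hm : (core E).map (MulAut.conj n).toMonoidHom ≤ core E := by
    rw [core, Subgroup.map_iSup]
    refine iSup_le fun a => ?_
    rw [map_theta]
    refine theta_le_core ((Subgroup.mem_normalizer_iff.1 hn _).1 a.2.1) ?_
    exact fun he => a.2.2 (conj_eq_one_iff.1 he)
  exact hm ⟨x, hx, rfl⟩

theorem E_le_big : E ≤ big E := Subgroup.le_normalizer.trans h.normalizer_le_big

theorem big_ne_top (hW : core E ≠ ⊥) : big E ≠ ⊤ := by
  refine h.normalizer_ne_top hW fun ht => ?_
  have := h.core_odd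
  rw [ht, Subgroup.card_top] at this
  exact h.not_solv (Cfsg.Agent.S0205.result this)

theorem centralizer_le_big {a : G} (ha : a ∈ E) (ha1 : a ≠ 1) :
    Subgroup.centralizer ({a} : Set G) ≤ big E :=
  (h.theta_odd_and_le ha ha1).2.trans
    (sup_le ((theta_le_core ha ha1).trans core_le_big) h.E_le_big)

/-- A 2-subgroup of `big E` is conjugate in `big E` to a subgroup of `E`. -/
theorem exists_big_conj_mem {P : Subgroup G} (hP : IsPGroup 2 P) (hPM : P ≤ big E) :
    ∃ m ∈ big E, ∀ x ∈ P, m * x * m⁻¹ ∈ E := by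
  haveI : Fact (Nat.Prime 2) := ⟨Nat.prime_two⟩
  let S : Sylow 2 (big E) := h.sylow.subtype h.E_le_big
  obtain ⟨Q, hQ⟩ := (hP.of_equiv (Subgroup.subgroupOfEquivOfLe hPM).symm).exists_le_sylow
  obtain ⟨m, hm⟩ := MulAction.exists_smul_eq (big E) Q S
  refine ⟨m, m.2, fun x hx => ?_⟩
  have : m * (⟨x, hPM hx⟩ : big E) * m⁻¹ ∈ (MulAut.conj m • (Q : Subgroup (big E))) :=
    CfsgLib.CoprimeAction.mem_conj_iff.2 (by simpa [mul_assoc] using hQ (show (⟨x, hPM hx⟩ : big E) ∈ P.subgroupOf (big E) from hx))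
  rw [← Sylow.coe_subgroup_smul, hm] at this
  exact this

theorem centralizer_le_big_of_mem {u : G} (hu : u ∈ big E) (hu2 : orderOf u = 2) :
    Subgroup.centralizer ({u} : Set G) ≤ big E := by
  obtain ⟨m, hm, hmE⟩ := h.exists_big_conj_mem
    (IsPGroup.of_card (p := 2) (n := 1) (by rw [Nat.card_zpowers, hu2, pow_one]))
    (Subgroup.zpowers_le.2 hu)
  have he := hmE u (Subgroup.mem_zpowers u)
  have he1 : m * u * m⁻¹ ≠ 1 := fun e =>
    CfsgLib.Involutions.ne_one hu2 (conj_eq_one_iff.1 e)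
  intro c hc
  have h1 : m * c * m⁻¹ ∈ big E := h.centralizer_le_big he he1 <| mem_cent.2 <| by
    calc m * u * m⁻¹ * (m * c * m⁻¹) = m * (u * c) * m⁻¹ := by group
      _ = _ := by rw [mem_cent.1 hc]; group
  have := (big E).mul_mem ((big E).mul_mem (inv_mem hm) h1) hm
  simpa [mul_assoc] using this

/-- An odd-order subgroup normalised by two distinct commuting involutions of `big E` lies in it. -/
theorem odd_le_big {K : Subgroup G} (hK : Odd (Nat.card K)) {a b : G} (ha : a ∈ big E)
    (hb : b ∈ big E) (ha2 : orderOf a = 2) (hb2 : orderOf b = 2) (hab : a * b = b * a) (hne : a ≠ b)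
    (haK : a ∈ Subgroup.normalizer (K : Set G)) (hbK : b ∈ Subgroup.normalizer (K : Set G)) :
    K ≤ big E := by
  have hy1 : b ≠ 1 := CfsgLib.Involutions.ne_one hb2
  set F := Subgroup.closure ({a, b} : Set G) with hF
  haveI hFc : IsMulCommutative F := Subgroup.isMulCommutative_closure fun x hx y hy => by
    rcases hx with rfl | rfl <;> rcases hy with rfl | rfl <;> first | rfl | exact hab | exact hab.symm
  have ha1 : a * a = 1 := CfsgLib.Involutions.mul_self_eq_one ha2
  have hb1 : b * b = 1 := CfsgLib.Involutions.mul_self_eq_one hb2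
  have hsq : ∀ x ∈ F, x * x = 1 := by
    intro x hx
    induction hx using Subgroup.closure_induction with
    | mem x hx => rcases hx with rfl | rfl <;> assumption
    | one => simp
    | mul x y hx hy h1 h2 =>
      have e : x * y = y * x := congrArg Subtype.val (hFc.is_comm.comm ⟨x, hx⟩ ⟨y, hy⟩)
      calc x * y * (x * y) = x * (y * x) * y := by group
        _ = (x * x) * (y * y) := by rw [← e]; group
        _ = 1 := by rw [h1, h2, one_mul]
    | inv x _ h1 => rw [← mul_inv_rev, h1, inv_one]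
  have hFp : IsPGroup 2 F := fun x => ⟨1, Subtype.ext (by
    have := hsq x x.2; simpa [pow_two] using this)⟩
  have hnc : ¬ IsCyclic F := by
    intro hc
    obtain ⟨g, hg⟩ := hc.exists_generator
    have key : ∀ x : F, x = 1 ∨ x = g := by
      intro x
      obtain ⟨k, rfl⟩ := Subgroup.mem_zpowers_iff.1 (hg x)
      have g2 : g * g = 1 := Subtype.ext (hsq g g.2)
      rcases Int.even_or_odd k with ⟨m, rfl⟩ | ⟨m, rfl⟩
      · left; rw [zpow_add, ← (Commute.refl g).mul_zpow, g2, one_zpow]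
      · right; rw [zpow_add_one, two_mul, zpow_add, ← (Commute.refl g).mul_zpow, g2, one_zpow, one_mul]
    have haF : a ∈ F := Subgroup.subset_closure (Or.inl rfl)
    have hbF : b ∈ F := Subgroup.subset_closure (Or.inr rfl)
    rcases key ⟨a, haF⟩ with e | e
    · exact CfsgLib.Involutions.ne_one ha2 (congrArg Subtype.val e)
    rcases key ⟨b, hbF⟩ with e' | e'
    · exact hy1 (congrArg Subtype.val e')
    exact hne (congrArg Subtype.val (e.trans e'.symm))
  have hFM : F ≤ big E := (Subgroup.closure_le _).2 (by rintro x (rfl | rfl) <;> assumption)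
  refine CfsgLib.CoprimeAction.le_of_centralizers hnc
    ((Subgroup.closure_le _).2 (by rintro x (rfl | rfl) <;> assumption)) ?_ fun c hc hc1 => ?_
  · haveI : Fact (Nat.Prime 2) := ⟨Nat.prime_two⟩
    obtain ⟨n, hn⟩ := hFp.exists_card_eq
    rw [hn]
    exact (Nat.coprime_two_left.2 hK).pow_left n
  · exact inf_le_right.trans (h.centralizer_le_big_of_mem (hFM hc)
      (CfsgLib.Involutions.orderOf_eq_two_iff.2 ⟨hsq c hc, hc1⟩))

theorem le_big_of_conj {S : Subgroup G} {m : G} (hm : m ∈ big E)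
    (hS : ∀ x, x ∈ S ↔ m * x * m⁻¹ ∈ E) : Subgroup.normalizer (S : Set G) ≤ big E := by
  intro n hn
  have : m * n * m⁻¹ ∈ Subgroup.normalizer (E : Set G) := by
    refine CfsgLib.CoprimeAction.mem_normalizer_of_conj_mem fun x hx => ?_
    have h1 : m⁻¹ * x * m ∈ S := (hS _).2 (by simpa [mul_assoc] using hx)
    have h2 := (hS _).1 ((Subgroup.mem_normalizer_iff.1 hn _).1 h1)
    simpa [mul_assoc] using h2
  have h3 := (big E).mul_mem ((big E).mul_mem (inv_mem hm) (h.normalizer_le_big this)) hm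
  simpa [mul_assoc] using h3

/-- A solvable subgroup with a four-subgroup in `big E` and a Sylow 2-subgroup `S` whose normalizer
lies in `big E` is contained in `big E`. -/
theorem le_big_aux {X S : Subgroup G} (hX : Group.IsSolvable X) {a b : G} (haX : a ∈ X) (hbX : b ∈ X)
    (haM : a ∈ big E) (hbM : b ∈ big E) (ha2 : orderOf a = 2) (hb2 : orderOf b = 2)
    (hab : a * b = b * a) (hne : a ≠ b) (hSX : S ≤ X) (hS : IsPGroup 2 S) (hSi : ¬ 2 ∣ S.relIndex X)
    (hN : X ⊓ Subgroup.normalizer (S : Set G) ≤ big E) : X ≤ big E := by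
  haveI : Fact (Nat.Prime 2) := ⟨Nat.prime_two⟩
  obtain ⟨T, hT⟩ := hS.exists_le_sylow
  have hSc : IsMulCommutative S := ⟨⟨fun x y => Subtype.ext (show (x : G) * y = y * x from
    congrArg Subtype.val ((h.abelian_sylow T).is_comm.comm ⟨x, hT x.2⟩ ⟨y, hT y.2⟩))⟩⟩
  refine CfsgLib.HallNumber.le_of_abelian_sylow hX hSX hS hSc hSi (fun K _ hXK hK => ?_) hN
  exact h.odd_le_big (Nat.not_even_iff_odd.1 fun he => hK (even_iff_two_dvd.1 he)) haM hbM ha2 hb2
    hab hne (hXK haX) (hXK hbX)

/-- Every proper subgroup containing a four-subgroup of `big E` lies in `big E`. -/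
theorem le_big {X : Subgroup G} (hX : X ≠ ⊤) {a b : G} (haX : a ∈ X) (hbX : b ∈ X)
    (haM : a ∈ big E) (hbM : b ∈ big E) (ha2 : orderOf a = 2) (hb2 : orderOf b = 2)
    (hab : a * b = b * a) (hne : a ≠ b) : X ≤ big E := by
  haveI : Fact (Nat.Prime 2) := ⟨Nat.prime_two⟩
  have hCX : Subgroup.closure ({a, b} : Set G) ≤ X ⊓ Subgroup.centralizer ({a} : Set G) :=
    (Subgroup.closure_le _).2 (by
      rintro x (rfl | rfl)
      · exact ⟨haX, mem_cent.2 rfl⟩
      · exact ⟨hbX, mem_cent.2 hab⟩)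
  haveI hFc : IsMulCommutative (Subgroup.closure ({a, b} : Set G)) :=
    Subgroup.isMulCommutative_closure fun x hx y hy => by
      rcases hx with rfl | rfl <;> rcases hy with rfl | rfl <;> first | rfl | exact hab | exact hab.symm
  have hFp : IsPGroup 2 ((Subgroup.closure ({a, b} : Set G)).subgroupOf X) := by
    rintro ⟨⟨x, hxX⟩, hx⟩
    refine ⟨1, Subtype.ext (Subtype.ext ?_)⟩
    show x ^ 2 = 1
    change x ∈ Subgroup.closure ({a, b} : Set G) at hx
    clear hxX
    induction hx using Subgroup.closure_induction with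
    | mem y hy => rcases hy with rfl | rfl <;> rw [pow_two] <;>
        first | exact CfsgLib.Involutions.mul_self_eq_one ha2 | exact CfsgLib.Involutions.mul_self_eq_one hb2
    | one => simp
    | mul y z hy hz h1 h2 =>
      rw [Commute.mul_pow (congrArg Subtype.val (hFc.is_comm.comm ⟨y, hy⟩ ⟨z, hz⟩)), h1, h2, one_mul]
    | inv y _ h1 => rw [inv_pow, h1, inv_one]
  obtain ⟨Q, hQ⟩ := hFp.exists_le_sylow
  set S := (Q : Subgroup X).map X.subtype with hSdef
  have haS : a ∈ S := ⟨⟨a, haX⟩, hQ (show a ∈ Subgroup.closure ({a, b} : Set G) from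
    Subgroup.subset_closure (Or.inl rfl)), rfl⟩
  have hbS : b ∈ S := ⟨⟨b, hbX⟩, hQ (show b ∈ Subgroup.closure ({a, b} : Set G) from
    Subgroup.subset_closure (Or.inr rfl)), rfl⟩
  have hSp : IsPGroup 2 S := Q.2.map _
  have hSX : S ≤ X := Subgroup.map_subtype_le _
  have hSi : ¬ 2 ∣ S.relIndex X := by
    rw [Subgroup.relIndex, Subgroup.subgroupOf, hSdef,
      Subgroup.comap_map_eq_self_of_injective X.subtype_injective]
    exact Q.not_dvd_index
  refine h.le_big_aux (h.solv X hX) haX hbX haM hbM ha2 hb2 hab hne hSX hSp hSi ?_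
  -- a conjugate of `E` in `big E` contains `S`
  obtain ⟨T, hT⟩ := hSp.exists_le_sylow
  have hTa : (T : Subgroup G) ≤ Subgroup.centralizer ({a} : Set G) := fun x hx =>
    mem_cent.2 (congrArg Subtype.val ((h.abelian_sylow T).is_comm.comm ⟨a, hT haS⟩ ⟨x, hx⟩))
  have hTM : (T : Subgroup G) ≤ big E := hTa.trans (h.centralizer_le_big_of_mem haM ha2)
  obtain ⟨m, hm, hmE⟩ := h.exists_big_conj_mem T.2 hTM
  have hTiff : ∀ x, x ∈ (T : Subgroup G) ↔ m * x * m⁻¹ ∈ E := by
    have hcard : Nat.card (T : Subgroup G) = Nat.card E := by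
      rw [T.card_eq_multiplicity, ← h.sylow.card_eq_multiplicity]; rfl
    have heq : (T : Subgroup G).map (MulAut.conj m).toMonoidHom = E := by
      refine Subgroup.eq_of_le_of_card_ge (by rintro _ ⟨x, hx, rfl⟩; exact hmE x hx) ?_
      rw [Subgroup.card_map_of_injective (MulAut.conj m).injective, hcard]
    intro x
    refine ⟨hmE x, fun hx => ?_⟩
    rw [← heq] at hx
    obtain ⟨y, hy, hyx⟩ := hx
    rwa [← (MulAut.conj m).injective hyx]
  have hNT : Subgroup.normalizer ((T : Subgroup G) : Set G) ≤ big E := h.le_big_of_conj hm hTiff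
  by_cases hST : S = (T : Subgroup G)
  · rw [hST]; exact inf_le_right.trans hNT
  · refine inf_le_right.trans ?_
    have hTN : (T : Subgroup G) ≤ Subgroup.normalizer (S : Set G) := fun x hx =>
      CfsgLib.CoprimeAction.mem_normalizer_of_conj_mem fun y hy => by
        rwa [show x * y = y * x from congrArg Subtype.val
          ((h.abelian_sylow T).is_comm.comm ⟨x, hx⟩ ⟨y, hT hy⟩), mul_inv_cancel_right]
    have hne' : Subgroup.normalizer (S : Set G) ≠ ⊤ := by
      refine h.normalizer_ne_top ?_ ?_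
      · intro hS0
        rw [hS0, Subgroup.mem_bot] at haS
        exact CfsgLib.Involutions.ne_one ha2 haS
      · intro hS1
        exact hST (le_antisymm hT (hS1 ▸ le_top))
    refine h.le_big_aux (h.solv _ hne') (hTN (hT haS)) (hTN (hT hbS)) haM hbM ha2 hb2 hab hne hTN T.2 ?_
      (inf_le_right.trans hNT)
    intro hd
    exact T.not_dvd_index (hd.trans (Subgroup.relIndex_dvd_index_of_le hTN))

theorem isStronglyEmbedded (hW : core E ≠ ⊥) : IsStronglyEmbedded (big E) := by
  haveI : Fact (Nat.Prime 2) := ⟨Nat.prime_two⟩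
  refine ⟨h.big_ne_top hW, ?_, fun g hg => ?_⟩
  · rw [even_iff_two_dvd]
    exact (show 2 ∣ Nat.card E by rw [h.card_E]; norm_num).trans (Subgroup.card_dvd_of_le h.E_le_big)
  · rw [← Nat.not_even_iff_odd, even_iff_two_dvd]
    intro h2
    obtain ⟨u, hu⟩ := exists_prime_orderOf_dvd_card' 2 h2
    obtain ⟨huM, v, hv, hvu⟩ := u.2
    have hu2 : orderOf (u : G) = 2 := by rwa [Subgroup.orderOf_coe]
    have hvu' : g * v * g⁻¹ = u := hvu
    have hv2 : orderOf v = 2 := by rw [← hu2, ← hvu', CfsgLib.Involutions.orderOf_conj]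
    -- a conjugate of `E` inside `C(v)`, in `big E` on both sides
    obtain ⟨m, hm, hmE⟩ := h.exists_big_conj_mem
      (IsPGroup.of_card (p := 2) (n := 1) (by rw [Nat.card_zpowers, hv2, pow_one]))
      (Subgroup.zpowers_le.2 hv)
    have he := hmE v (Subgroup.mem_zpowers v)
    -- `g m⁻¹ E m g⁻¹` centralises `u`
    have hsub : ∀ x ∈ E, g * (m⁻¹ * x * m) * g⁻¹ ∈ big E := by
      intro x hx
      refine h.centralizer_le_big_of_mem huM hu2 (mem_cent.2 ?_)
      have hvx : v * (m⁻¹ * x * m) = (m⁻¹ * x * m) * v := by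
        have := h.commE he hx
        calc v * (m⁻¹ * x * m) = m⁻¹ * ((m * v * m⁻¹) * x) * m := by group
          _ = _ := by rw [this]; group
      rw [← hvu']
      calc g * v * g⁻¹ * (g * (m⁻¹ * x * m) * g⁻¹) = g * (v * (m⁻¹ * x * m)) * g⁻¹ := by group
        _ = _ := by rw [hvx]; group
    set P := (E.map (MulAut.conj (g * m⁻¹)).toMonoidHom) with hPdef
    have hPM : P ≤ big E := by
      rintro _ ⟨x, hx, rfl⟩
      have := hsub x hx
      simpa [mul_assoc] using this
    obtain ⟨m', hm', hm'E⟩ := h.exists_big_conj_mem (h.isPGroup.map _) hPM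
    have hN : m' * g * m⁻¹ ∈ Subgroup.normalizer (E : Set G) := by
      refine CfsgLib.CoprimeAction.mem_normalizer_of_conj_mem fun x hx => ?_
      have := hm'E _ (Subgroup.mem_map_of_mem (MulAut.conj (g * m⁻¹)).toMonoidHom hx)
      simpa [mul_assoc] using this
    apply hg
    have := (big E).mul_mem ((big E).mul_mem (inv_mem hm') (h.normalizer_le_big hN)) hm
    simpa [mul_assoc] using this

end Hyp

end CfsgLib.HallNumber.EightSeven
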