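import Cfsg.Agent.Lib.HallNumber.EightSeven.SevenAction
import Cfsg.Agent.Lib.Transfer.Fusion
import Cfsg.Agent.S0118

/-!
`E` centralises every invariant Sylow 7-subgroup of `core E`.
-/

set_option autoImplicit false
open Cfsg
open scoped Pointwise commutatorElement

namespace CfsgLib.HallNumber.EightSeven

variable {G : Type*} [Group G] [Finite G]

attribute [local instance] fact_seven

namespace Config

variable {E R : Subgroup G} {s f g e n : G} (c : Config E R s f g e n)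

include c

theorem isPGroup_sup : IsPGroup 7 (R ⊔ Subgroup.zpowers n : Subgroup G) := by
  obtain ⟨k, hk⟩ := c.seven
  rw [sup_comm]
  exact (IsPGroup.of_card (n := k) (by rw [Nat.card_zpowers, hk]) : IsPGroup 7 (Subgroup.zpowers n)).to_sup_of_normal_right'
    c.inv.pgroup (Subgroup.zpowers_le.2 c.normR)

theorem thompson_sup_eq :
    thompsonSubgroupOf 7 (R ⊔ Subgroup.zpowers n) = thompsonSubgroupOf 7 R := by
  rw [CfsgLib.BGUniqueness.thompsonSubgroupOf_eq_sSup, CfsgLib.BGUniqueness.thompsonSubgroupOf_eq_sSup]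
  obtain ⟨A₀, ⟨hA₀T, hA₀⟩, hA₀max⟩ := Set.exists_max_image
    {A : Subgroup G | A ≤ R ⊔ Subgroup.zpowers n ∧ IsElementaryAbelian 7 A} (fun A => Nat.card A)
    (Set.toFinite _) ⟨⊥, bot_le, CfsgLib.BGUniqueness.elemAb_bot⟩
  have hmax₀ : ∀ B : Subgroup G, B ≤ R ⊔ Subgroup.zpowers n → IsElementaryAbelian 7 B →
      Nat.card B ≤ Nat.card A₀ := fun B hB hB' => hA₀max B ⟨hB, hB'⟩
  have hA₀R := c.le_of_maximal hA₀T hA₀ hmax₀
  refine le_antisymm (sSup_le_sSup ?_) (sSup_le_sSup ?_)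
  · rintro A ⟨hAT, hA, hmax⟩
    exact ⟨c.le_of_maximal hAT hA hmax, hA, fun B hB hB' => hmax B (hB.trans le_sup_left) hB'⟩
  · rintro A ⟨hAR, hA, hmax⟩
    exact ⟨hAR.trans le_sup_left, hA, fun B hB hB' => (hmax₀ B hB hB').trans (hmax A₀ hA₀R hA₀)⟩

theorem centerThompson_sup_eq :
    centerThompsonOf 7 (R ⊔ Subgroup.zpowers n) = centerThompsonOf 7 R := by
  unfold centerThompsonOf
  rw [c.thompson_sup_eq]

theorem normalizer_zj_le (hRne : R ≠ ⊥) :
    Subgroup.normalizer (centerThompsonOf 7 (R ⊔ Subgroup.zpowers n) : Set G) ≤ big E := by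
  rw [c.centerThompson_sup_eq]
  refine c.hyp.le_big_of_E (c.hyp.normalizer_ne_top
    (CfsgLib.BGUniqueness.centerThompsonOf_ne_bot c.inv.pgroup hRne)
    (c.hyp.ne_top_of_pgroup (c.inv.pgroup.to_le (CfsgLib.BGUniqueness.centerThompsonOf_le R))))
    (big E).one_mem fun a ha => ?_
  rw [one_mul, inv_one, mul_one]
  exact CfsgLib.BGUniqueness.normalizer_le_normalizer_centerThompsonOf R (c.inv.inv ha)

theorem exists_pow_mem_centralizer {m : G} (hm : m ∈ Subgroup.normalizer (E : Set G)) :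
    ∃ i : ℕ, m * (n ^ i)⁻¹ ∈ Subgroup.centralizer (E : Set G) := by
  classical
  obtain ⟨a, ha, ha1⟩ := c.hyp.exists_ne
  have hmem : ∀ i : ℕ, n ^ i * a * (n ^ i)⁻¹ ∈ E ∧ n ^ i * a * (n ^ i)⁻¹ ≠ 1 := fun i =>
    ⟨(Subgroup.mem_normalizer_iff.1 (pow_mem c.normE i) a).1 ha, fun he => ha1 (conj_eq_one_iff.1 he)⟩
  let φ : Fin 7 → {x : E // x ≠ 1} := fun i =>
    ⟨⟨_, (hmem i).1⟩, fun he => (hmem i).2 (congrArg Subtype.val he)⟩
  have key : ∀ i d : ℕ, n ^ (i + d) * a * (n ^ (i + d))⁻¹ = n ^ i * a * (n ^ i)⁻¹ → 7 ∣ d := by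
    intro i d he
    refine c.pow_mem_centralizer_iff.1 (c.hyp.fpf _ (pow_mem c.normE d) a ha ha1 ?_)
    rw [pow_add] at he
    calc n ^ d * a = (n ^ i)⁻¹ * (n ^ i * n ^ d * a * (n ^ i * n ^ d)⁻¹) * (n ^ i * n ^ d) := by group
      _ = _ := by rw [he]; group
  have hφ : Function.Injective φ := by
    intro i j hij
    have he : n ^ (i : ℕ) * a * (n ^ (i : ℕ))⁻¹ = n ^ (j : ℕ) * a * (n ^ (j : ℕ))⁻¹ :=
      congrArg (fun x : {x : E // x ≠ 1} => ((x : E) : G)) hij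
    rcases le_total (i : ℕ) j with hle | hle
    · obtain ⟨d, hd⟩ := Nat.exists_eq_add_of_le hle
      have := key i d (by rw [← hd]; exact he.symm)
      exact Fin.ext (by omega)
    · obtain ⟨d, hd⟩ := Nat.exists_eq_add_of_le hle
      have := key j d (by rw [← hd]; exact he)
      exact Fin.ext (by omega)
  haveI := Fintype.ofFinite E
  have hcard : Nat.card {x : E // x ≠ 1} = 7 := by
    rw [Nat.card_eq_fintype_card, Fintype.card_subtype_compl, Fintype.card_subtype_eq,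
      ← Nat.card_eq_fintype_card, c.hyp.card_E]
  have hbij := (Nat.bijective_iff_injective_and_card φ).2 ⟨hφ, by rw [Nat.card_fin, hcard]⟩
  obtain ⟨i, hi⟩ := hbij.2 ⟨⟨m * a * m⁻¹, (Subgroup.mem_normalizer_iff.1 hm a).1 ha⟩,
    fun he => ha1 (conj_eq_one_iff.1 (congrArg Subtype.val he))⟩
  have he : n ^ (i : ℕ) * a * (n ^ (i : ℕ))⁻¹ = m * a * m⁻¹ :=
    congrArg (fun x : {x : E // x ≠ 1} => ((x : E) : G)) hi
  refine ⟨i, c.hyp.fpf _ (mul_mem hm (inv_mem (pow_mem c.normE i))) _ (hmem i).1 (hmem i).2 ?_⟩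
  calc m * (n ^ (i : ℕ))⁻¹ * (n ^ (i : ℕ) * a * (n ^ (i : ℕ))⁻¹)
      = m * a * m⁻¹ * (m * (n ^ (i : ℕ))⁻¹) := by group
    _ = _ := by rw [← he]

/-- The decomposition of `big E`. -/
theorem big_decomp (hW : core E ≠ ⊥) {y : G} (hy : y ∈ big E) :
    ∃ w ∈ core E, ∃ z ∈ Subgroup.centralizer (E : Set G), ∃ i : ℕ, y = w * z * n ^ i := by
  have hm := c.hyp.big_le hW hy
  rw [← SetLike.mem_coe, Subgroup.coe_mul_of_right_le_normalizer_left (core E) _
    c.hyp.normalizer_le_big] at hm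
  obtain ⟨w, hw, m, hm, rfl⟩ := hm
  obtain ⟨i, hi⟩ := c.exists_pow_mem_centralizer hm
  exact ⟨w, hw, _, hi, i, by group⟩

theorem eq_of_pgroup_le_big (hW : core E ≠ ⊥) {P : Subgroup G} (hP : IsPGroup 7 P) (hPM : P ≤ big E)
    (hle : R ⊔ Subgroup.zpowers n ≤ P) : P = R ⊔ Subgroup.zpowers n := by
  refine le_antisymm (fun y hy => ?_) hle
  obtain ⟨w, hw, z, hz, i, rfl⟩ := c.big_decomp hW (hPM hy)
  have hnP : n ∈ P := hle ((le_sup_right : Subgroup.zpowers n ≤ _) (Subgroup.mem_zpowers n))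
  have hy' : w * z ∈ P := by
    have := mul_mem hy (inv_mem (pow_mem hnP i))
    rwa [mul_inv_cancel_right] at this
  obtain ⟨k, hk⟩ := IsPGroup.iff_orderOf.1 hP ⟨_, hy'⟩
  rw [Subgroup.orderOf_mk] at hk
  have hzM : z ∈ big E := c.hyp.normalizer_le_big (Subgroup.centralizer_le_normalizer _ hz)
  have hsq : (w * z) ^ 2 ∈ core E := by
    rw [show (w * z) ^ 2 = w * (z * w * z⁻¹) * z ^ 2 by rw [pow_two, pow_two]; group]
    exact mul_mem (mul_mem hw ((Subgroup.mem_normalizer_iff.1 hzM w).1 hw)) (c.hyp.sq_mem_core hz)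
  have hc : w * z ∈ core E := Subgroup.zpowers_le.2 hsq (mem_zpowers_pow_of_coprime (by
    rw [hk]
    exact Nat.Coprime.pow_left k (by norm_num)))
  have hPR : P ⊓ core E = R := by
    refine eq_of_le_of_not_dvd (le_inf (le_sup_left.trans hle) c.inv.le) (hP.to_le inf_le_left)
      fun hd => c.inv.not_dvd (hd.trans (Dvd.intro _ (Subgroup.relIndex_mul_relIndex _ _ _
        (le_inf (le_sup_left.trans hle) c.inv.le) inf_le_right)))
  exact mul_mem ((le_sup_left : R ≤ R ⊔ Subgroup.zpowers n) (hPR.le ⟨hy', hc⟩))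
    (pow_mem ((le_sup_right : Subgroup.zpowers n ≤ R ⊔ _) (Subgroup.mem_zpowers n)) i)

theorem false_of_config : False := by
  have hsR : s ∈ R := Hyp.midCore_le c.line.mem
  have hRne : R ≠ ⊥ := fun h0 => c.hyp.line_ne_one c.line (Subgroup.mem_bot.1 (h0 ▸ hsR))
  have hW : core E ≠ ⊥ := fun h0 => hRne (le_bot_iff.1 (h0 ▸ c.inv.le))
  set T := R ⊔ Subgroup.zpowers n with hT
  have hTM : T ≤ big E :=
    sup_le (c.inv.le.trans Hyp.core_le_big) (Subgroup.zpowers_le.2 (c.hyp.normalizer_le_big c.normE))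
  obtain ⟨S, hS⟩ := c.isPGroup_sup.exists_le_sylow
  have hST : (S : Subgroup G) = T := by
    by_contra hne
    obtain ⟨P', hlt, -, hPn, hP'⟩ := exists_lt_normalizer S.2 (lt_of_le_of_ne hS (Ne.symm hne))
    refine hlt.ne' (c.eq_of_pgroup_le_big hW hP' (hPn.trans ?_) hlt.le)
    exact (CfsgLib.BGUniqueness.normalizer_le_normalizer_centerThompsonOf T).trans (c.normalizer_zj_le hRne)
  have hfree : ¬ ∃ (H K : Subgroup G) (_ : (K.subgroupOf H).Normal),
      Nonempty ((H ⧸ K.subgroupOf H) ≃* Matrix.SpecialLinearGroup (Fin 2) (ZMod 7)) := by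
    rintro ⟨H, K, hK, ⟨φ⟩⟩
    exact CfsgLib.PGroups.SLFree.of_abelian_sylow_two (p := 7) (by norm_num) c.hyp.abelian_sylow H
      (φ.toMonoidHom.comp (QuotientGroup.mk' (K.subgroupOf H)))
      (φ.surjective.comp (QuotientGroup.mk'_surjective _))
  have hctl : ∀ x ∈ (S : Subgroup G), ∀ u : G, u * x * u⁻¹ ∈ (S : Subgroup G) →
      ∃ w ∈ big E, w * x * w⁻¹ = u * x * u⁻¹ := by
    intro x hx u hu
    obtain ⟨m, hm, he⟩ := Cfsg.Agent.S0118.result (p := 7) (by norm_num) hfree S {x}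
      (Set.singleton_subset_iff.2 hx) u⁻¹ (by
        rintro _ ⟨a, rfl, rfl⟩
        show u⁻¹⁻¹ * a * u⁻¹ ∈ ((S : Subgroup G) : Set G)
        rw [inv_inv]
        exact hu)
    rw [hST] at hm
    refine ⟨m⁻¹, inv_mem (c.normalizer_zj_le hRne hm), ?_⟩
    simpa using he x rfl
  have hfoc := CfsgLib.Transfer.commutator_inf_eq_of_control S (hST ▸ hTM) hctl
  haveI := c.hyp.simple
  have hperf : commutator G = ⊤ := by
    rcases (inferInstance : (commutator G).Normal).eq_bot_or_eq_top with h0 | h0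
    · refine absurd (Group.isSolvable_of_comm fun x y => ?_) c.hyp.not_solv
      have : ⁅x, y⁆ ∈ commutator G := Subgroup.commutator_mem_commutator (Subgroup.mem_top x) (Subgroup.mem_top y)
      rw [h0, Subgroup.mem_bot, commutatorElement_eq_one_iff_mul_comm] at this
      exact this
    · exact h0
  rw [hperf, top_inf_eq] at hfoc
  have hnS : n ∈ (S : Subgroup G) := hS ((le_sup_right : Subgroup.zpowers n ≤ T) (Subgroup.mem_zpowers n))
  have hn : n ∈ ⁅big E, big E⁆ := (hfoc.le hnS).1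
  -- the derived group of `big E` lies in `core E ⊔ C(E)`
  set K := core E ⊔ Subgroup.centralizer (E : Set G) with hK
  have hCN : Subgroup.centralizer (E : Set G) ≤ big E :=
    (Subgroup.centralizer_le_normalizer _).trans c.hyp.normalizer_le_big
  have hwK : ∀ {w : G}, w ∈ core E → w ∈ K := fun hw => (le_sup_left : core E ≤ K) hw
  have hzK : ∀ {z : G}, z ∈ Subgroup.centralizer (E : Set G) → z ∈ K := fun hz =>
    (le_sup_right : _ ≤ K) hz
  have hnCent : ∀ {m z : G}, m ∈ Subgroup.normalizer (E : Set G) → z ∈ Subgroup.centralizer (E : Set G) →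
      m * z * m⁻¹ ∈ Subgroup.centralizer (E : Set G) := by
    intro m z hm hz
    rw [Subgroup.mem_centralizer_iff] at hz ⊢
    intro a ha
    have ha' : m⁻¹ * a * m ∈ E := by simpa using (Subgroup.mem_normalizer_iff.1 (inv_mem hm) a).1 ha
    calc a * (m * z * m⁻¹) = m * ((m⁻¹ * a * m) * z) * m⁻¹ := by group
      _ = _ := by rw [hz _ ha']; group
  have hKmem : ∀ {k : G}, k ∈ K → ∃ w ∈ core E, ∃ z ∈ Subgroup.centralizer (E : Set G), k = w * z := by
    intro k hk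
    rw [hK, ← SetLike.mem_coe, Subgroup.coe_mul_of_right_le_normalizer_left (core E) _ hCN] at hk
    obtain ⟨w, hw, z, hz, rfl⟩ := hk
    exact ⟨w, hw, z, hz, rfl⟩
  have hconjn : ∀ i : ℕ, ∀ k ∈ K, n ^ i * k * (n ^ i)⁻¹ ∈ K := by
    intro i k hk
    obtain ⟨w, hw, z, hz, rfl⟩ := hKmem hk
    rw [show n ^ i * (w * z) * (n ^ i)⁻¹ = (n ^ i * w * (n ^ i)⁻¹) * (n ^ i * z * (n ^ i)⁻¹) by group]
    exact K.mul_mem (hwK ((Subgroup.mem_normalizer_iff.1 (c.hyp.normalizer_le_big (pow_mem c.normE i)) w).1 hw))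
      (hzK (hnCent (pow_mem c.normE i) hz))
  have hder : ⁅big E, big E⁆ ≤ K := by
    rw [Subgroup.commutator_le]
    intro y₁ hy₁ y₂ hy₂
    obtain ⟨w₁, hw₁, z₁, hz₁, i, rfl⟩ := c.big_decomp hW hy₁
    obtain ⟨w₂, hw₂, z₂, hz₂, j, rfl⟩ := c.big_decomp hW hy₂
    have h1 : w₁ * z₁ ∈ K := K.mul_mem (hwK hw₁) (hzK hz₁)
    have h2 : w₂ * z₂ ∈ K := K.mul_mem (hwK hw₂) (hzK hz₂)
    rw [show ⁅w₁ * z₁ * n ^ i, w₂ * z₂ * n ^ j⁆ = (w₁ * z₁) * (n ^ i * (w₂ * z₂) * (n ^ i)⁻¹) *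
        (n ^ j * (w₁ * z₁)⁻¹ * (n ^ j)⁻¹) * (w₂ * z₂)⁻¹ by rw [commutatorElement_def]; group]
    exact K.mul_mem (K.mul_mem (K.mul_mem h1 (hconjn i _ h2)) (hconjn j _ (K.inv_mem h1))) (K.inv_mem h2)
  obtain ⟨w, hw, z, hz, hwz⟩ := hKmem (hder hn)
  have hwN : w ∈ Subgroup.normalizer (E : Set G) := by
    have := mul_mem c.normE (inv_mem (Subgroup.centralizer_le_normalizer _ hz))
    rwa [hwz, mul_inv_cancel_right] at this
  exact c.not_cent (hwz ▸ mul_mem (c.hyp.mem_centralizer_of_core hw hwN) hz)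

end Config

/-- `E` centralises every invariant Sylow `7`-subgroup of `core E`. -/
theorem Hyp.seven_le_centralizer {E : Subgroup G} (h : Hyp E) {R : Subgroup G} (hR : InvSylow E 7 R) :
    R ≤ Subgroup.centralizer (E : Set G) := by
  by_contra hRE
  obtain ⟨s, f, g, e, L⟩ := h.exists_line hR hRE
  obtain ⟨n, ⟨hnE, hnR⟩, hnC, hk⟩ := h.invSylow_conj 7 hR
  exact Config.false_of_config ⟨h, hR, L, hnE, hnR, hnC, hk⟩

end CfsgLib.HallNumber.EightSeven
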