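import Cfsg.Agent.Lib.HallNumber.EightSeven.GoodAll
import Cfsg.Agent.Lib.BGUniqueness.Rank
import Cfsg.Agent.Lib.ThompsonJ.Replacement

/-!
The prime `7`: an element of `N(E) ∩ N(R)` outside `C(E)` permutes seven lines cyclically, so the
elementary abelian subgroups of largest order of `R⟨n⟩` lie in `R`.
-/

set_option autoImplicit false
open Cfsg
open scoped Pointwise IsMulCommutative

namespace CfsgLib.HallNumber.EightSeven

variable {G : Type*} [Group G] [Finite G]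

theorem fact_seven : Fact (Nat.Prime 7) := ⟨by norm_num⟩

attribute [local instance] fact_seven

/-- The setting for the prime `7`. -/
structure Config (E R : Subgroup G) (s f g e n : G) : Prop where
  hyp : Hyp E
  inv : InvSylow E 7 R
  line : Line E R 7 s f g e
  normE : n ∈ Subgroup.normalizer (E : Set G)
  normR : n ∈ Subgroup.normalizer (R : Set G)
  not_cent : n ∉ Subgroup.centralizer (E : Set G)
  seven : ∃ k : ℕ, orderOf n = 7 ^ k

/-- The `j`-th conjugate of a line. -/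
def lineAt (s n : G) (j : ℕ) : G := n ^ j * s * (n ^ j)⁻¹

/-- The span of the fixed centre and the conjugates of a line. -/
def lineSpan (E R : Subgroup G) (s n : G) : Subgroup G :=
  Subgroup.closure ((fixCenter E R 7 : Set G) ∪ Set.range (lineAt s n))

omit [Finite G] in
theorem fixCenter_conj_normalizer {E R : Subgroup G} {r : ℕ} {y n : G} (hy : y ∈ fixCenter E R r)
    (hE : n ∈ Subgroup.normalizer (E : Set G)) (hR : n ∈ Subgroup.normalizer (R : Set G)) :
    n * y * n⁻¹ ∈ fixCenter E R r := by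
  obtain ⟨h0, h1, h2⟩ := hy
  refine ⟨fixCore_conj h0 hE hR, by rw [conj_pow, h1]; group, fun d hd => ?_⟩
  have := (Commute.conj_iff n).2 (h2 _ (fixCore_conj hd (inv_mem hE) (inv_mem hR)))
  rwa [show n * (n⁻¹ * d * n⁻¹⁻¹) * n⁻¹ = d by group] at this

namespace Config

variable {E R : Subgroup G} {s f g e n : G} (c : Config E R s f g e n)

include c

theorem mem_of_normalizing {y : G} (hy : y ∈ core E) (hyR : y ∈ Subgroup.normalizer (R : Set G))
    {k : ℕ} (hk : orderOf y = 7 ^ k) : y ∈ R := by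
  have hY : IsPGroup 7 (Subgroup.zpowers y) := IsPGroup.of_card (n := k) (by rw [Nat.card_zpowers, hk])
  have hP : IsPGroup 7 (Subgroup.zpowers y ⊔ R : Subgroup G) :=
    hY.to_sup_of_normal_right' c.inv.pgroup (Subgroup.zpowers_le.2 hyR)
  have hPW : Subgroup.zpowers y ⊔ R ≤ core E := sup_le (Subgroup.zpowers_le.2 hy) c.inv.le
  have := eq_of_le_of_not_dvd le_sup_right hP fun hd => c.inv.not_dvd (hd.trans
    (Dvd.intro _ (Subgroup.relIndex_mul_relIndex _ _ _ le_sup_right hPW)))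
  exact this.le ((le_sup_left : Subgroup.zpowers y ≤ _) (Subgroup.mem_zpowers y))

theorem pow_mem_centralizer_iff {d : ℕ} : n ^ d ∈ Subgroup.centralizer (E : Set G) ↔ 7 ∣ d := by
  constructor
  · intro hd
    by_contra h7
    apply c.not_cent
    have hcop : Nat.gcd d 7 = 1 := (((Fact.out : Nat.Prime 7).coprime_iff_not_dvd).2 h7).symm
    have e1 : (n ^ d) ^ (Nat.gcdA d 7) * (n ^ 7) ^ (Nat.gcdB d 7) = n := by
      rw [← zpow_natCast, ← zpow_natCast n 7, ← zpow_mul, ← zpow_mul, ← zpow_add, ← Nat.gcd_eq_gcd_ab,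
        hcop, Nat.cast_one, zpow_one]
    rw [← e1]
    exact mul_mem (zpow_mem hd _) (zpow_mem (c.hyp.pow_seven_mem_centralizer c.normE) _)
  · rintro ⟨m, rfl⟩
    rw [pow_mul]
    exact pow_mem (c.hyp.pow_seven_mem_centralizer c.normE) m

theorem pow_mem_R {d : ℕ} (hd : 7 ∣ d) : n ^ d ∈ R := by
  obtain ⟨k, hk⟩ := c.seven
  obtain ⟨i, -, hi⟩ := (Nat.dvd_prime_pow (Fact.out : Nat.Prime 7)).1 (hk ▸ (orderOf_pow_dvd d : orderOf (n ^ d) ∣ orderOf n))
  refine c.mem_of_normalizing (c.hyp.centralizer_odd_mem_core (c.pow_mem_centralizer_iff.2 hd) ?_)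
    (pow_mem c.normR d) hi
  rw [hi]
  exact Odd.pow (by decide)

theorem line_at (j : ℕ) : Line E R 7 (lineAt s n j) (n ^ j * f * (n ^ j)⁻¹) (n ^ j * g * (n ^ j)⁻¹)
    (n ^ j * e * (n ^ j)⁻¹) :=
  c.hyp.line_conj c.line (pow_mem c.normE j) (pow_mem c.normR j)

theorem lineAt_mem (j : ℕ) : lineAt s n j ∈ R := Hyp.midCore_le (c.line_at j).mem

/-- An element of `R` fixes a line modulo the fixed centre. -/
theorem conj_line {x : G} (hx : x ∈ R) (j : ℕ) :
    (x * lineAt s n j * x⁻¹)⁻¹ * lineAt s n j ∈ fixCenter E R 7 := by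
  have := Hyp.fixCenter_conj_self (c.hyp.line_comm_mem c.inv (c.line_at j) hx) (inv_mem (c.lineAt_mem j))
  rwa [show (lineAt s n j)⁻¹ * (lineAt s n j * x * (lineAt s n j)⁻¹ * x⁻¹) * (lineAt s n j)⁻¹⁻¹ =
    (x * lineAt s n j * x⁻¹)⁻¹ * lineAt s n j by group] at this

omit c in
theorem lineAt_add (j k : ℕ) : lineAt s n (j + k) = n ^ j * lineAt s n k * (n ^ j)⁻¹ := by
  rw [lineAt, lineAt, pow_add]
  group

theorem commute_line (j k : ℕ) : Commute (lineAt s n j) (lineAt s n k) := by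
  wlog hjk : j ≤ k generalizing j k
  · exact (this k j (le_of_not_ge hjk)).symm
  obtain ⟨d, rfl⟩ := Nat.exists_eq_add_of_le hjk
  suffices h0 : Commute s (lineAt s n d) by
    have := (Commute.conj_iff (n ^ j)).2 h0
    rwa [← lineAt_add] at this
  by_cases hd : 7 ∣ d
  · have h1 := c.conj_line (c.pow_mem_R hd) 0
    rw [← lineAt_add, add_zero] at h1
    have h2 := c.hyp.line_comm_fixCore c.inv c.line ((fixCenter E R 7).inv_mem h1).1
    rw [mul_inv_rev, inv_inv, show lineAt s n 0 = s by simp [lineAt]] at h2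
    have h3 := (Commute.refl s).mul_right h2
    rwa [mul_inv_cancel_left] at h3
  · obtain ⟨a, ha, h1, h2⟩ := c.hyp.exists_separate c.inv c.line (pow_mem c.normE d)
      (fun hC => hd (c.pow_mem_centralizer_iff.1 hC))
    exact c.hyp.line_commute c.inv c.line (c.line_at d) ha h1 h2

theorem span_gen_cases {y : G} (hy : y ∈ (fixCenter E R 7 : Set G) ∪ Set.range (lineAt s n)) :
    y ∈ R ∧ y ^ 7 = 1 ∧ ∀ z ∈ (fixCenter E R 7 : Set G) ∪ Set.range (lineAt s n), Commute y z := by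
  rcases hy with hy | ⟨j, rfl⟩
  · refine ⟨Hyp.fixCore_le hy.1, hy.2.1, fun z hz => ?_⟩
    rcases hz with hz | ⟨k, rfl⟩
    · exact hy.2.2 z hz.1
    · exact (c.hyp.line_comm_fixCore c.inv (c.line_at k) hy.1).symm
  · refine ⟨c.lineAt_mem j, ?_, fun z hz => ?_⟩
    · conv_lhs => rw [← (c.line_at j).order]
      exact pow_orderOf_eq_one _
    · rcases hz with hz | ⟨k, rfl⟩
      · exact c.hyp.line_comm_fixCore c.inv (c.line_at j) hz.1
      · exact c.commute_line j k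

theorem span_le : lineSpan E R s n ≤ R := (Subgroup.closure_le _).2 fun _ hy => (c.span_gen_cases hy).1

theorem span_commute : ∀ x ∈ lineSpan E R s n, ∀ y ∈ lineSpan E R s n, Commute x y :=
  closure_commute fun _ hx _ hy => (c.span_gen_cases hx).2.2 _ hy

theorem span_pow : ∀ x ∈ lineSpan E R s n, x ^ 7 = 1 :=
  closure_pow_eq_one (fun _ hx _ hy => (c.span_gen_cases hx).2.2 _ hy) fun _ hx => (c.span_gen_cases hx).2.1

omit c in
theorem fixCenter_le_span : fixCenter E R 7 ≤ lineSpan E R s n := fun _ hy =>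
  Subgroup.subset_closure (Or.inl hy)

omit c in
theorem lineAt_mem_span (j : ℕ) : lineAt s n j ∈ lineSpan E R s n :=
  Subgroup.subset_closure (Or.inr ⟨j, rfl⟩)

omit c in
theorem normalizes_span {a : G}
    (hgen : ∀ y ∈ (fixCenter E R 7 : Set G) ∪ Set.range (lineAt s n), a * y * a⁻¹ ∈ lineSpan E R s n) :
    a ∈ Subgroup.normalizer (lineSpan E R s n : Set G) :=
  CfsgLib.CoprimeAction.mem_normalizer_of_conj_mem fun y hy => by
    induction hy using Subgroup.closure_induction with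
    | mem y hy => exact hgen y hy
    | one => simp
    | mul y z _ _ h1 h2 =>
      rw [show a * (y * z) * a⁻¹ = (a * y * a⁻¹) * (a * z * a⁻¹) by group]
      exact mul_mem h1 h2
    | inv y _ h1 => rw [← conj_inv]; exact inv_mem h1

theorem E_le_normalizer_span :
    E ≤ Subgroup.normalizer (lineSpan E R s n : Set G) ⊓ Subgroup.normalizer (fixCenter E R 7 : Set G) := by
  intro a ha
  refine ⟨normalizes_span fun y hy => ?_, CfsgLib.CoprimeAction.mem_normalizer_of_conj_mem fun y hy => by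
    rwa [fixCore_commute hy.1 ha, mul_inv_cancel_right]⟩
  rcases hy with hy | ⟨j, rfl⟩
  · rw [fixCore_commute hy.1 ha, mul_inv_cancel_right]
    exact fixCenter_le_span hy
  · rcases c.hyp.line_dichotomy c.inv (c.line_at j) ha with he | he <;> rw [he]
    · exact lineAt_mem_span j
    · exact inv_mem (lineAt_mem_span j)

theorem sup_le_normalizer_span :
    R ⊔ Subgroup.zpowers n ≤
      Subgroup.normalizer (lineSpan E R s n : Set G) ⊓ Subgroup.normalizer (fixCenter E R 7 : Set G) := by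
  refine sup_le (fun x hx => ?_) (Subgroup.zpowers_le.2 ?_)
  · refine ⟨normalizes_span fun y hy => ?_, CfsgLib.CoprimeAction.mem_normalizer_of_conj_mem fun y hy =>
      Hyp.fixCenter_conj_self hy hx⟩
    rcases hy with hy | ⟨j, rfl⟩
    · exact fixCenter_le_span (Hyp.fixCenter_conj_self hy hx)
    · rw [show x * lineAt s n j * x⁻¹ =
        lineAt s n j * ((x * lineAt s n j * x⁻¹)⁻¹ * lineAt s n j)⁻¹ by group]
      exact mul_mem (lineAt_mem_span j) (inv_mem (fixCenter_le_span (c.conj_line hx j)))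
  · refine ⟨normalizes_span fun y hy => ?_, CfsgLib.CoprimeAction.mem_normalizer_of_conj_mem fun y hy =>
      fixCenter_conj_normalizer hy c.normE c.normR⟩
    rcases hy with hy | ⟨j, rfl⟩
    · exact fixCenter_le_span (fixCenter_conj_normalizer hy c.normE c.normR)
    · have h1 := lineAt_add (s := s) (n := n) 1 j
      rw [pow_one] at h1
      rw [← h1]
      exact lineAt_mem_span _

theorem exists_eq_mul_pow {y : G} (hy : y ∈ R ⊔ Subgroup.zpowers n) :
    ∃ x ∈ R, ∃ i : ℕ, y = x * n ^ i := by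
  rw [← SetLike.mem_coe, Subgroup.coe_mul_of_right_le_normalizer_left R (Subgroup.zpowers n)
    (Subgroup.zpowers_le.2 c.normR)] at hy
  obtain ⟨x, hx, v, hv, rfl⟩ := hy
  obtain ⟨i, rfl⟩ := (mem_powers_iff_mem_zpowers.2 hv : v ∈ Submonoid.powers n)
  exact ⟨x, hx, i, rfl⟩

theorem lineAt_not_mem_fixCenter (j : ℕ) : lineAt s n j ∉ fixCenter E R 7 := fun hm =>
  c.hyp.line_e_not_comm c.inv (c.line_at j) (fixCore_commute hm.1 (c.line_at j).he)

set_option maxHeartbeats 1000000 in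
/-- The elementary abelian subgroups of largest order of `R⟨n⟩` lie in `R`. -/
theorem le_of_maximal {A : Subgroup G} (hAT : A ≤ R ⊔ Subgroup.zpowers n)
    (hA : IsElementaryAbelian 7 A)
    (hmax : ∀ B : Subgroup G, B ≤ R ⊔ Subgroup.zpowers n → IsElementaryAbelian 7 B →
      Nat.card B ≤ Nat.card A) : A ≤ R := by
  classical
  intro t htA
  by_contra htR
  obtain ⟨hAc, hAe⟩ := CfsgLib.BGUniqueness.isElementaryAbelian_iff.1 hA
  obtain ⟨x₀, hx₀, i, hti⟩ := c.exists_eq_mul_pow (hAT htA)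
  have hi : ¬ 7 ∣ i := fun hd => htR (hti ▸ mul_mem hx₀ (c.pow_mem_R hd))
  set Z := fixCenter E R 7 with hZdef
  set V := lineSpan E R s n with hVdef
  haveI : IsMulCommutative V := ⟨⟨fun x y => Subtype.ext (c.span_commute x x.2 y y.2)⟩⟩
  set Z' := Z.subgroupOf V with hZ'
  let Nm := Subgroup.normalizer (V : Set G) ⊓ Subgroup.normalizer (Z : Set G)
  let cj : ∀ a : G, a ∈ Nm → (V →* V) := fun a ha =>
    { toFun := fun v => ⟨a * v * a⁻¹, (Subgroup.mem_normalizer_iff.1 ha.1 _).1 v.2⟩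
      map_one' := Subtype.ext (by simp)
      map_mul' := fun u v => Subtype.ext (by simp [mul_assoc]) }
  let π : V →* V ⧸ Z' := QuotientGroup.mk' Z'
  let cb : ∀ a : G, a ∈ Nm → (V ⧸ Z' →* V ⧸ Z') := fun a ha =>
    QuotientGroup.map Z' Z' (cj a ha) fun v hv =>
      (Subgroup.mem_normalizer_iff.1 ha.2 _).1 hv
  have hcb : ∀ a (ha : a ∈ Nm) (v : V), cb a ha (π v) = π (cj a ha v) := fun a ha v => rfl
  have hπeq : ∀ u v : V, ((u : G)⁻¹ * v ∈ Z) → π u = π v := fun u v huv =>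
    QuotientGroup.eq.2 huv
  let ℓ : ℕ → V ⧸ Z' := fun j => π ⟨lineAt s n j, lineAt_mem_span j⟩
  have hTN : R ⊔ Subgroup.zpowers n ≤ Nm := c.sup_le_normalizer_span
  have hperiod : ∀ j m, 7 ∣ m → ℓ (m + j) = ℓ j := fun j m hm => hπeq _ _ (by
    show (lineAt s n (m + j))⁻¹ * lineAt s n j ∈ Z
    rw [lineAt_add]
    exact c.conj_line (c.pow_mem_R hm) j)
  have hmod : ∀ j, ℓ j = ℓ (j % 7) := fun j => by
    conv_lhs => rw [← Nat.div_add_mod j 7]
    exact hperiod _ _ (dvd_mul_right 7 _)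
  have hconjline : ∀ (x : G) (hx : x ∈ R) (a : ℕ) (k : ℕ) (hm : x * n ^ a ∈ Nm),
      cb (x * n ^ a) hm (ℓ k) = ℓ (a + k) := by
    intro x hx a k hm
    rw [hcb _ hm]
    refine hπeq _ _ ?_
    show (x * n ^ a * lineAt s n k * (x * n ^ a)⁻¹)⁻¹ * lineAt s n (a + k) ∈ Z
    rw [show x * n ^ a * lineAt s n k * (x * n ^ a)⁻¹ = x * lineAt s n (a + k) * x⁻¹ by
      rw [lineAt_add]; group]
    exact c.conj_line hx _
  have hord : ∀ j, orderOf (ℓ j) = 7 := fun j => by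
    refine orderOf_eq_prime ?_ ?_
    · rw [← map_pow]
      have : (⟨lineAt s n j, lineAt_mem_span j⟩ : V) ^ 7 = 1 :=
        Subtype.ext (by simpa using c.span_pow _ (lineAt_mem_span j))
      rw [this, map_one]
    · intro h1
      have h2 : (⟨lineAt s n j, lineAt_mem_span j⟩ : V) ∈ Z' := (QuotientGroup.eq_one_iff _).1 h1
      exact c.lineAt_not_mem_fixCenter j h2
  -- projections
  have hEN : E ≤ Nm := c.E_le_normalizer_span
  let Φ : ∀ a : G, a ∈ E → (V ⧸ Z' →* V ⧸ Z') := fun a ha => MonoidHom.id _ * cb a (hEN ha)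
  have hΦinv : ∀ a (ha : a ∈ E) j, a * lineAt s n j * a⁻¹ = (lineAt s n j)⁻¹ → Φ a ha (ℓ j) = 1 := by
    intro a ha j he
    have : cj a (hEN ha) ⟨_, lineAt_mem_span j⟩ = ⟨_, lineAt_mem_span j⟩⁻¹ := Subtype.ext he
    simp only [Φ, ℓ, MonoidHom.mul_apply, MonoidHom.id_apply, hcb, this, map_inv, mul_inv_cancel]
  have hΦfix : ∀ a (ha : a ∈ E) j, a * lineAt s n j * a⁻¹ = lineAt s n j → Φ a ha (ℓ j) = ℓ j ^ 2 := by
    intro a ha j he
    have : cj a (hEN ha) ⟨_, lineAt_mem_span j⟩ = ⟨_, lineAt_mem_span j⟩ := Subtype.ext he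
    simp only [Φ, ℓ, MonoidHom.mul_apply, MonoidHom.id_apply, hcb, this, pow_two]
  have hΦpow : ∀ a (ha : a ∈ E) j, ∃ m : ℕ, Φ a ha (ℓ j) = ℓ j ^ m := by
    intro a ha j
    rcases c.hyp.line_dichotomy c.inv (c.line_at j) ha with he | he
    · exact ⟨2, hΦfix a ha j he⟩
    · exact ⟨0, by rw [hΦinv a ha j he, pow_zero]⟩
  have hsep : ∀ k l : ℕ, k % 7 ≠ l % 7 → ∃ a, ∃ ha : a ∈ E, Φ a ha (ℓ l) = 1 ∧ Φ a ha (ℓ k) = ℓ k ^ 2 := by
    intro k l hkl
    obtain ⟨d, hd⟩ : ∃ d, d + l = 7 * (l + 1) + k := ⟨7 * (l + 1) + k - l, by omega⟩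
    obtain ⟨a, ha, h1, h2⟩ := c.hyp.exists_separate c.inv (c.line_at l) (pow_mem c.normE d)
      (fun hC => hkl (by obtain ⟨q, rfl⟩ := c.pow_mem_centralizer_iff.1 hC; omega))
    refine ⟨a, ha, hΦinv a ha l h1, ?_⟩
    rw [← lineAt_add, hd] at h2
    rw [← hperiod k (7 * (l + 1)) (dvd_mul_right 7 _)]
    exact hΦfix a ha _ (mul_inv_eq_iff_eq_mul.2 h2)
  have hproj : ∀ k l₁ l₂ l₃ : ℕ, k % 7 ≠ l₁ % 7 → k % 7 ≠ l₂ % 7 → k % 7 ≠ l₃ % 7 →
      ∃ P : V ⧸ Z' →* V ⧸ Z', P (ℓ l₁) = 1 ∧ P (ℓ l₂) = 1 ∧ P (ℓ l₃) = 1 ∧ P (ℓ k) = ℓ k ^ 8 := by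
    intro k l₁ l₂ l₃ h1 h2 h3
    obtain ⟨a₁, ha₁, k₁, f₁⟩ := hsep k l₁ h1
    obtain ⟨a₂, ha₂, k₂, f₂⟩ := hsep k l₂ h2
    obtain ⟨a₃, ha₃, k₃, f₃⟩ := hsep k l₃ h3
    refine ⟨(Φ a₁ ha₁).comp ((Φ a₂ ha₂).comp (Φ a₃ ha₃)), ?_, ?_, ?_, ?_⟩
    · obtain ⟨m, hm⟩ := hΦpow a₃ ha₃ l₁
      obtain ⟨m', hm'⟩ := hΦpow a₂ ha₂ l₁
      simp [hm, hm', k₁]
    · obtain ⟨m, hm⟩ := hΦpow a₃ ha₃ l₂
      simp [hm, k₂]
    · simp [k₃]
    · simp [f₁, f₂, f₃, ← pow_mul]
  -- the operator of `t`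
  have htT : t ∈ R ⊔ Subgroup.zpowers n := hAT htA
  let Δ : V ⧸ Z' →* V ⧸ Z' := cb t (hTN htT) / MonoidHom.id _
  have hΔℓ : ∀ k, Δ (ℓ k) = ℓ (i + k) / ℓ k := by
    intro k
    subst hti
    simp only [Δ, MonoidHom.div_apply, MonoidHom.id_apply]
    rw [hconjline x₀ hx₀ i k (hTN htT)]
  -- the commutators of `s` with `A`
  let v : G → G := fun a => a * s * a⁻¹ * s⁻¹
  have hs0 : lineAt s n 0 = s := by simp [lineAt]
  have hsV : s ∈ V := hs0 ▸ lineAt_mem_span 0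
  have hvV : ∀ a ∈ A, v a ∈ V := fun a ha =>
    mul_mem ((Subgroup.mem_normalizer_iff.1 (hTN (hAT ha)).1 s).1 hsV) (inv_mem hsV)
  have hvπ : ∀ a (ha : a ∈ A) (x : G) (j : ℕ), x ∈ R → a = x * n ^ j →
      π ⟨v a, hvV a ha⟩ = ℓ j / ℓ 0 := by
    intro a ha x j hx haj
    subst haj
    have e0 : ℓ 0 = π ⟨s, hsV⟩ := congrArg π (Subtype.ext hs0)
    have e1 : (⟨v (x * n ^ j), hvV _ ha⟩ : V) = cj (x * n ^ j) (hTN (hAT ha)) ⟨s, hsV⟩ * ⟨s, hsV⟩⁻¹ :=
      Subtype.ext rfl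
    rw [e1, map_mul, map_inv, ← hcb _ (hTN (hAT ha)), ← e0, hconjline x hx j 0 (hTN (hAT ha)), add_zero,
      div_eq_mul_inv]
  have hidx : ∀ a : A, ∃ j : Fin 7, π ⟨v a, hvV a a.2⟩ = ℓ j / ℓ 0 := by
    intro a
    obtain ⟨x, hx, j, hj⟩ := c.exists_eq_mul_pow (hAT a.2)
    exact ⟨⟨j % 7, Nat.mod_lt _ (by norm_num)⟩, by rw [hvπ a a.2 x j hx hj, hmod j]⟩
  choose idx hidx using hidx
  set M := Subgroup.closure (v '' (A : Set G)) with hM
  have hMV : M ≤ V := (Subgroup.closure_le _).2 (by rintro _ ⟨a, ha, rfl⟩; exact hvV a ha)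
  have hvM : ∀ a ∈ A, v a ∈ M := fun a ha => Subgroup.subset_closure ⟨a, ha, rfl⟩
  set K := M ⊓ Subgroup.centralizer (A : Set G) with hK
  set N₀ := (Z ⊓ M) ⊔ K with hN₀
  have hN₀M : N₀ ≤ M := sup_le inf_le_right inf_le_left
  set C := A ⊓ Subgroup.centralizer (M : Set G) with hC
  -- few cosets
  have hsepA : ∀ a ∈ A, ∀ b ∈ A, (v a)⁻¹ * v b ∈ K → a⁻¹ * b ∈ C := by
    intro a ha b hb hw
    set w := (v a)⁻¹ * v b with hwdef
    have hvb : v b = v a * w := by rw [hwdef, mul_inv_cancel_left]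
    refine ⟨A.mul_mem (A.inv_mem ha) hb, ?_⟩
    have hle : M ≤ Subgroup.centralizer ({a⁻¹ * b} : Set G) := by
      refine (Subgroup.closure_le _).2 ?_
      rintro _ ⟨d, hd, rfl⟩
      refine mem_cent.2 ?_
      have key : ∀ a' ∈ A, a' * v d * a'⁻¹ = d * v a' * d⁻¹ * v d * (v a')⁻¹ := by
        intro a' ha'
        have hc := hAc a' ha' d hd
        show a' * (d * s * d⁻¹ * s⁻¹) * a'⁻¹ =
          d * (a' * s * a'⁻¹ * s⁻¹) * d⁻¹ * (d * s * d⁻¹ * s⁻¹) * (a' * s * a'⁻¹ * s⁻¹)⁻¹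
        calc a' * (d * s * d⁻¹ * s⁻¹) * a'⁻¹ = (a' * d) * s * (a' * d)⁻¹ * (a' * s⁻¹ * a'⁻¹) := by group
          _ = _ := by rw [hc]; group
      have hdw : d * w = w * d := (Subgroup.mem_centralizer_iff.1 hw.2) d hd
      have hwvd : Commute w (v d) := c.span_commute w (hMV hw.1) _ (hvV d hd)
      have e1 : b * v d * b⁻¹ = a * v d * a⁻¹ := by
        rw [key b hb, key a ha, hvb]
        calc d * (v a * w) * d⁻¹ * v d * (v a * w)⁻¹
            = d * v a * (w * d⁻¹) * v d * w⁻¹ * (v a)⁻¹ := by group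
          _ = d * v a * d⁻¹ * ((w * v d) * w⁻¹) * (v a)⁻¹ := by
            rw [← (show Commute d w from hdw).inv_left.eq]; group
          _ = _ := by rw [hwvd.eq]; group
      calc a⁻¹ * b * v d = a⁻¹ * (b * v d * b⁻¹) * b := by group
        _ = _ := by rw [e1]; group
    exact Subgroup.mem_centralizer_iff.2 fun m hm => (mem_cent.1 (hle hm)).symm
  let rep : Fin 7 → G := fun j => if hj : ∃ a : A, idx a = j then v (hj.choose : A) else 1
  have hrep : ∀ a : A, (rep (idx a))⁻¹ * v a ∈ Z ⊓ M := by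
    intro a
    have hj : ∃ b : A, idx b = idx a := ⟨a, rfl⟩
    simp only [rep, dif_pos hj]
    refine ⟨?_, M.mul_mem (M.inv_mem (hvM _ hj.choose.2)) (hvM _ a.2)⟩
    have e : π ⟨_, hvV _ hj.choose.2⟩ = π ⟨_, hvV _ a.2⟩ := by rw [hidx, hidx, hj.choose_spec]
    have e2 : (⟨_, hvV _ hj.choose.2⟩ : V)⁻¹ * ⟨_, hvV _ a.2⟩ ∈ Z' := (QuotientGroup.eq (s := Z')).1 e
    exact e2
  have h1 : Nat.card A * Nat.card K ≤ 7 * Nat.card N₀ * Nat.card C := by
    set C' := C.subgroupOf A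
    let φ : (A ⧸ C') × K → Fin 7 × N₀ := fun p =>
      (idx p.1.out, ⟨(rep (idx p.1.out))⁻¹ * v (p.1.out : A) * p.2,
        mul_mem ((le_sup_left : Z ⊓ M ≤ N₀) (hrep _)) ((le_sup_right : K ≤ N₀) p.2.2)⟩)
    have hφ : Function.Injective φ := by
      rintro ⟨q, k⟩ ⟨q', k'⟩ he
      have hj : idx q.out = idx q'.out := congrArg Prod.fst he
      have he2 : (rep (idx q.out))⁻¹ * v (q.out : A) * k = (rep (idx q'.out))⁻¹ * v (q'.out : A) * k' :=
        congrArg (fun p : Fin 7 × N₀ => (p.2 : G)) he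
      rw [hj] at he2
      have he' : v (q.out : A) * k = v (q'.out : A) * k' :=
        mul_left_cancel (((mul_assoc _ _ _).symm.trans he2).trans (mul_assoc _ _ _))
      have hqq : q = q' := by
        rw [← Quotient.out_eq' q, ← Quotient.out_eq' q']
        refine QuotientGroup.eq.2 (hsepA _ q.out.2 _ q'.out.2 ?_)
        have : (v (q.out : A))⁻¹ * v (q'.out : A) = k * (k' : G)⁻¹ := by
          calc (v (q.out : A))⁻¹ * v (q'.out : A) = (v (q.out : A))⁻¹ * (v (q'.out : A) * k') * (k' : G)⁻¹ := by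
                group
            _ = _ := by rw [← he']; group
        rw [this]
        exact mul_mem k.2 (inv_mem k'.2)
      subst hqq
      exact Prod.ext rfl (Subtype.ext (mul_left_cancel he'))
    have h2 := Nat.card_le_card_of_injective φ hφ
    rw [Nat.card_prod, Nat.card_prod, Nat.card_fin] at h2
    have h3 := Subgroup.card_mul_index C'
    rw [Nat.card_congr (Subgroup.subgroupOfEquivOfLe (inf_le_left : C ≤ A)).toEquiv] at h3
    calc Nat.card A * Nat.card K = Nat.card C * (C'.index * Nat.card K) := by rw [← h3]; ring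
      _ ≤ Nat.card C * (7 * Nat.card N₀) := Nat.mul_le_mul_left _ h2
      _ = _ := by ring
  -- two independent values
  have hkill : ∀ z (hz : z ∈ N₀), Δ (π ⟨z, hMV (hN₀M hz)⟩) = 1 := by
    have hle : N₀ ≤ ((Δ.comp π).ker).map V.subtype := by
      refine sup_le ?_ ?_
      · intro z hz
        refine ⟨⟨z, hMV hz.2⟩, ?_, rfl⟩
        have e : π ⟨z, hMV hz.2⟩ = 1 := (QuotientGroup.eq_one_iff (N := Z') _).2 hz.1
        rw [SetLike.mem_coe, MonoidHom.mem_ker, MonoidHom.comp_apply, e, map_one]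
      · intro z hz
        refine ⟨⟨z, hMV hz.1⟩, ?_, rfl⟩
        have : cj t (hTN htT) ⟨z, hMV hz.1⟩ = ⟨z, hMV hz.1⟩ := Subtype.ext (by
          show t * z * t⁻¹ = z
          rw [Subgroup.mem_centralizer_iff.1 hz.2 t htA, mul_inv_cancel_right])
        simp only [Δ, SetLike.mem_coe, MonoidHom.mem_ker, MonoidHom.comp_apply, MonoidHom.div_apply,
          MonoidHom.id_apply, hcb, this, div_self']
    intro z hz
    obtain ⟨y, hy, rfl⟩ := hle hz
    exact hy
  have ht2 : t ^ 2 ∈ A := pow_mem htA 2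
  have hvt : π ⟨v t, hvV t htA⟩ = ℓ i / ℓ 0 := hvπ t htA x₀ i hx₀ hti
  have hvt2 : π ⟨v (t ^ 2), hvV _ ht2⟩ = ℓ (i + i) / ℓ 0 := by
    refine hvπ _ ht2 (x₀ * (n ^ i * x₀ * (n ^ i)⁻¹)) (i + i)
      (mul_mem hx₀ ((Subgroup.mem_normalizer_iff.1 (pow_mem c.normR i) _).1 hx₀)) ?_
    rw [hti, pow_two, pow_add]
    group
  obtain ⟨P₃, p30, p31, p32, p33⟩ := hproj (3 * i) 0 i (i + i) (by omega) (by omega) (by omega)
  obtain ⟨P₀, p01, p02, p03, p00⟩ := hproj 0 i (i + i) (3 * i) (by omega) (by omega) (by omega)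
  have h3 : 49 * Nat.card N₀ ≤ Nat.card M := by
    let ψ : Fin 7 × Fin 7 × N₀ → M := fun p =>
      ⟨v t ^ (p.1 : ℕ) * v (t ^ 2) ^ (p.2.1 : ℕ) * p.2.2,
        mul_mem (mul_mem (pow_mem (hvM t htA) _) (pow_mem (hvM _ ht2) _)) (hN₀M p.2.2.2)⟩
    have hu : Δ (π ⟨v t, hvV t htA⟩) = (ℓ (i + i) / ℓ i) / (ℓ i / ℓ 0) := by
      rw [hvt, map_div, hΔℓ, hΔℓ, add_zero]
    have hw : Δ (π ⟨v (t ^ 2), hvV _ ht2⟩) = (ℓ (3 * i) / ℓ (i + i)) / (ℓ i / ℓ 0) := by
      rw [hvt2, map_div, hΔℓ, hΔℓ, add_zero, show i + (i + i) = 3 * i by ring]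
    have himage : ∀ p : Fin 7 × Fin 7 × N₀, Δ (π ⟨(ψ p : G), hMV (ψ p).2⟩) =
        ((ℓ (i + i) / ℓ i) / (ℓ i / ℓ 0)) ^ (p.1 : ℕ) *
          ((ℓ (3 * i) / ℓ (i + i)) / (ℓ i / ℓ 0)) ^ (p.2.1 : ℕ) := by
      intro p
      have e : (⟨(ψ p : G), hMV (ψ p).2⟩ : V) = ⟨v t, hvV t htA⟩ ^ (p.1 : ℕ) *
          ⟨v (t ^ 2), hvV _ ht2⟩ ^ (p.2.1 : ℕ) * ⟨(p.2.2 : G), hMV (hN₀M p.2.2.2)⟩ := Subtype.ext rfl
      rw [e, map_mul, map_mul, map_mul, map_mul, map_pow, map_pow, map_pow, map_pow, hu, hw,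
        hkill _ p.2.2.2, mul_one]
    have hψ : Function.Injective ψ := by
      rintro ⟨α, β, z⟩ ⟨α', β', z'⟩ he
      have e : Δ (π ⟨(ψ (α, β, z) : G), hMV (ψ (α, β, z)).2⟩) =
          Δ (π ⟨(ψ (α', β', z') : G), hMV (ψ (α', β', z')).2⟩) :=
        congrArg (fun m : M => Δ (π ⟨(m : G), hMV m.2⟩)) he
      rw [himage, himage] at e
      have hβ : β = β' := by
        have e3 := congrArg P₃ e
        simp only [map_mul, map_pow, map_div, p30, p31, p32, p33, div_one, one_pow, one_mul,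
          ← pow_mul] at e3
        rw [pow_eq_pow_iff_modEq, hord] at e3
        exact Fin.ext (by unfold Nat.ModEq at e3; omega)
      subst hβ
      have hα : α = α' := by
        have e0 := congrArg P₀ (mul_right_cancel e)
        simp only [map_pow, map_div, p00, p01, p02, div_one, one_div, inv_inv, ← pow_mul] at e0
        rw [pow_eq_pow_iff_modEq, hord] at e0
        exact Fin.ext (by unfold Nat.ModEq at e0; omega)
      subst hα
      have hz := congrArg Subtype.val he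
      simp only [ψ] at hz
      exact Prod.ext rfl (Prod.ext rfl (Subtype.ext (mul_left_cancel hz)))
    have h4 := Nat.card_le_card_of_injective ψ hψ
    rw [Nat.card_prod, Nat.card_prod, Nat.card_fin] at h4
    omega
  -- the larger elementary abelian subgroup
  have hcomm : ∀ x ∈ (M : Set G) ∪ C, ∀ y ∈ (M : Set G) ∪ C, Commute x y := by
    rintro x (hx | hx) y (hy | hy)
    · exact c.span_commute x (hMV hx) y (hMV hy)
    · exact (Subgroup.mem_centralizer_iff.1 hy.2 x hx)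
    · exact (Subgroup.mem_centralizer_iff.1 hx.2 y hy).symm
    · exact hAc x hx.1 y hy.1
  have hB : IsElementaryAbelian 7 (M ⊔ C) := by
    rw [CfsgLib.BGUniqueness.isElementaryAbelian_iff, show M ⊔ C = Subgroup.closure ((M : Set G) ∪ C) by
      rw [Subgroup.closure_union, Subgroup.closure_eq, Subgroup.closure_eq]]
    refine ⟨fun x hx y hy => closure_commute hcomm x hx y hy, closure_pow_eq_one hcomm ?_⟩
    rintro x (hx | hx)
    exacts [c.span_pow x (hMV hx), hAe x hx.1]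
  have h5 := hmax (M ⊔ C) (sup_le ((hMV.trans c.span_le).trans le_sup_left) (inf_le_left.trans hAT)) hB
  have hMC : M ≤ Subgroup.normalizer (C : Set G) :=
    le_trans (fun m hm => Subgroup.mem_centralizer_iff.2 fun y hy =>
      (Subgroup.mem_centralizer_iff.1 hy.2 m hm).symm) (Subgroup.centralizer_le_normalizer _)
  have h6 := CfsgLib.ThompsonJ.card_sup_mul_card_inf M C hMC
  have h7 : Nat.card ↥(M ⊓ C) ≤ Nat.card K := by
    refine Subgroup.card_le_of_le fun m hm => ⟨hm.1, Subgroup.mem_centralizer_iff.2 fun a ha =>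
      hAc a ha m hm.2.1⟩
  have h8 : Nat.card M * Nat.card C ≤ 7 * Nat.card N₀ * Nat.card C := by
    rw [← h6]
    exact (Nat.mul_le_mul h5 h7).trans h1
  have h9 := Nat.le_of_mul_le_mul_right h8 Nat.card_pos
  have : 0 < Nat.card N₀ := Nat.card_pos
  omega

end Config

end CfsgLib.HallNumber.EightSeven
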